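import Cfsg.Agent.Ey.N
import Cfsg.Agent.Geom.Sm2

/-! Modules for `L₂(3ⁿ)` in characteristic three and the adjoint module of `E₈(3)`: definitions. -/

set_option autoImplicit false

namespace CF.Ez

open Module Matrix CF.E83 CF.Ey Finset
open CF.Geom.Sm (JJ LL Rr)

/-- The multiplicity of the weight `i` modulo `N` in the module number `m`. -/
def cw (N m i : ℕ) : ℕ := #{j ∈ JJ 3 (2 * m) | j % N = (m + i) % N}

/-- The dimension of the module number `m`. -/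
def dj (m : ℕ) : ℕ := #(JJ 3 (2 * m))

/-- A bound for the dimension of the space of cocycles. -/
def zb (m : ℕ) : ℕ := cw 40 m 0 + (if m ∈ [2, 6, 14, 18] then 1 else 0) - if m = 0 then 1 else 0

/-- The Frobenius twist. -/
def tw (m : Fin 41) : Fin 41 := if m = 40 then 40 else Fin.ofNat 41 (3 * m % 40)

/-- A weighted sum. -/
def ws {Q : ℕ} (n : Fin Q → ℕ) (w : ℕ → ℕ) : ℕ := ∑ m, n m * w m

/-- The number of factors with nonzero cohomology. -/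
def n4 (n : Fin 41 → ℕ) : ℕ := n 2 + n 6 + n 14 + n 18

/-- The possible multiplicities. -/
def tb (c : ℕ) (m : Fin 41) : ℕ := ([[],
  [28, 1, 8, 1, 0, 8, 8, 0, 0, 1, 0, 0, 0, 0, 8, 8, 0, 0, 8, 0, 1, 0, 0, 0, 0, 0, 0, 1],
  [0, 2, 2, 2, 0, 2, 2, 1, 1, 2, 0, 1, 0, 0, 2, 2, 1, 1, 2, 1, 2, 1, 0, 1, 1, 0, 0, 2, 0, 1, 0, 0, 1, 1],
  [0, 2, 0, 2, 0, 0, 0, 2, 1, 2, 0, 1, 0, 0, 0, 0, 1, 1, 0, 1, 2, 2, 0, 2, 1, 0, 0, 2, 0, 2, 0, 0, 1, 1],
  [2, 3, 0, 3, 0, 4, 0, 0, 2, 3, 1, 0, 0, 0, 0, 4, 2, 0, 0, 0, 4, 0, 0, 0, 2, 0, 0, 3, 0, 0, 1, 0, 2],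
  [6, 5, 0, 5, 1, 0, 0, 0, 0, 5, 1, 0, 1, 0, 0, 0, 0, 0, 0, 0, 8, 0, 0, 0, 0, 0, 0, 5, 1, 0, 1, 0, 0, 0, 0,
    0, 1],
  [0, 1, 1, 1, 0, 0, 1, 1, 0, 1, 0, 0, 0, 1, 1, 0, 0, 0, 1, 0, 4, 1, 0, 1, 0, 0, 0, 1, 0, 1, 0, 1, 0, 0, 0,
    0, 0, 1, 0, 1],
  [4, 1, 1, 1, 0, 0, 1, 0, 0, 1, 0, 0, 0, 2, 1, 0, 0, 0, 1, 0, 0, 0, 0, 0, 0, 0, 0, 1, 0, 0, 0, 2, 0, 0, 0,
    0, 0, 2, 0, 2],
  [0, 2, 1, 2, 1, 2, 1, 0, 0, 2, 0, 1, 1, 1, 1, 2, 0, 1, 1, 1, 0, 0, 0, 0, 0, 0, 0, 2, 1, 0, 0, 1, 0, 1, 0,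
    0, 1, 1, 0, 1]].getD c []).getD m 0

/-- The binomial coefficient `d.choose j` is prime to three (`d < 81`). -/
def o3 (d j : ℕ) : Bool :=
  j % 3 ≤ d % 3 && j / 3 % 3 ≤ d / 3 % 3 && j / 9 % 3 ≤ d / 9 % 3 && j / 27 ≤ d / 27

/-- A form of `cw` that evaluates quickly. -/
noncomputable def cf (N m i : ℕ) : ℕ :=
  Nat.rec 0 (fun j a => cond (o3 (2 * m) j && Nat.beq (j % N) ((m + i) % N)) (Nat.succ a) a) 81

theorem ch3 : ∀ d < 81, ∀ j < 81, o3 d j = true ↔ j < d + 1 ∧ ¬ 3 ∣ d.descFactorial j / j.factorial := by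
  decide +kernel

theorem JJ_eq {d : ℕ} (h : d < 81) : JJ 3 d = {j ∈ range 81 | o3 d j} := by
  ext j
  simp only [JJ, mem_filter, mem_range, Nat.choose_eq_descFactorial_div_factorial]
  exact ⟨fun a => ⟨by omega, (ch3 d h j (by omega)).2 a⟩, fun a => (ch3 d h j a.1).1 a.2⟩

theorem cw_eq (N : ℕ) (m : Fin 41) (i : ℕ) : cw N m i = cf N m i := by
  rw [cw, JJ_eq (by omega), filter_filter, cf]
  generalize 81 = n
  induction n with
  | zero => rfl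
  | succ n ih =>
    rw [range_add_one, filter_insert]
    show _ = cond _ _ _
    rw [← ih]
    split_ifs with h
    · rw [card_insert_of_notMem (by simp), h.1, h.2, Nat.beq_refl]; rfl
    · rw [show (o3 (2 * m) n && Nat.beq (n % N) ((m + i) % N)) = false by
        rwa [← Bool.not_eq_true, Bool.and_eq_true, Nat.beq_eq]]
      rfl

theorem dj_eq (m : Fin 41) : dj m = cf 1 m 0 := by
  rw [← cw_eq, cw, filter_true_of_mem fun _ _ => by omega, dj]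

theorem ws_cw (N : ℕ) (n : Fin 41 → ℕ) (i : ℕ) : ws n (cw N · i) = ws n (cf N · i) :=
  sum_congr rfl fun m _ => congrArg _ (cw_eq N m i)

section Rep
variable {K V G : Type*} [Field K] [AddCommGroup V] [Module K V] [Group G] (r : G →* End K V)
  (br : V →ₗ[K] V →ₗ[K] V) (b : V →ₗ[K] V →ₗ[K] K) (σ : V →+ V)

/-- A Frobenius map. -/
structure F3 : Prop where
  smul : ∀ (c : K) v, σ (c • v) = c ^ 3 • σ v
  bij : Function.Bijective σ
  comm : ∀ g v, σ (r g v) = r g (σ v)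

/-- An invariant alternating product. -/
structure Bk : Prop where
  inv : ∀ g u v, r g (br u v) = br (r g u) (r g v)
  alt : ∀ v, br v v = 0

/-- An involution that centralizes `y` and its fixed space. -/
structure Iv (y t : G) : Prop where
  sq : t * t = 1
  ne1 : t ≠ 1
  ne : t ≠ y ^ 20
  cm : t * y = y * t
  fix : ∀ v ∈ fs (r y), r t v = v

/-- Many elements centralize `y` and the common fixed space of `y` and `n`. -/
def C7 (y : G) : Prop := ∀ n, n * y * n⁻¹ = y⁻¹ → finrank K ↥(fs (r y) ⊓ fs (r n)) = 4 →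
  80 < Nat.card {g // g * y = y * g ∧ ∀ v ∈ fs (r y) ⊓ fs (r n), r g v = v}

/-- The conditions on the pair `N`, `P`. -/
structure Ky (y n : G) (μ : K) (N P : Submodule K V) : Prop where
  hN : N ≤ fs (r y)
  hP : P ≤ (r y).eigenspace μ
  np : ∀ h ∈ N, ∀ v ∈ P, br h v ∈ P
  pn : ∀ v ∈ P, br v (r n v) ∈ N
  ns : ∀ h ∈ N, ∀ v ∈ P, ∀ i ∈ [1, 2, 3], br h (σ^[i] v) = 0
  ps : ∀ v ∈ P, br v (σ (σ v)) = 0
  nd : ∀ v ∈ P, (∀ h ∈ N, ∃ c : K, br h v = c • v) → br (br v (r n v)) v = 0 → br v (r n v) = 0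

/-- The regular cases. -/
structure Rg (y n t : G) (μ : K) : Prop where
  iv : Iv r y t
  cn : t * n = n * t
  neg : ∀ h ∈ fs (r y), r n h = -h
  ab : ∀ h ∈ fs (r y), ∀ h' ∈ fs (r y), br h h' = 0
  key : ∀ N P, Ky r br σ y n μ N P → ∀ v ∈ P, r t v ∈ P

/-- Nonzero products. -/
def Nz (y n : G) (μ : K) : Prop := ∀ k ∈ [2, 6, 14, 18, 4, 12, 7],
  ∀ z ∈ (r y).eigenspace (μ ^ k), br z (r n z) = 0 → z = 0

/-- The conclusion for an element of order `40`. -/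
def Cs (y : G) (μ : K) (n : Fin 41 → ℕ) : Prop := n = tb 3 ∨ n = tb 8 ∨
  ((n = tb 1 ∨ n = tb 4 ∨ n = tb 5) ∧ ∃ t, Iv r y t) ∨ (n = tb 7 ∧ C7 r y) ∨
  ((n = tb 2 ∨ n = tb 6) ∧ ∀ u, u * y * u⁻¹ = y⁻¹ →
    (∃ t, Rg r br σ y u t μ) ∧ (n = tb 2 → Nz r br y u μ))

/-- The facts that are used about the adjoint module. -/
structure Dt : Prop where
  dim : finrank K V = 248
  bk : Bk r br
  fm : Fm r b
  fr : F3 r σ
  irr : ∀ A, Inv r A → A = ⊥ ∨ A = ⊤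
  t2 : ∀ s, s * s = 1 → s ≠ 1 → bt r s = -8 ∨ bt r s = 24
  t41 : ∀ (x : G) (l : Kˣ), x ^ 41 = 1 → orderOf l = 41 →
    [0, 1, 2, 4, 7].map (fun i => ed r ⊤ x ((l ^ i : Kˣ) : K)) ∉ [[8, 6, 6, 6, 6], [16, 9, 6, 6, 2]]
  t40 : ∀ (y : G) (μ : Kˣ) (n : Fin 41 → ℕ), y ^ 40 = 1 → y ≠ 1 → orderOf μ = 40 → n ∘ tw = n →
    (∀ i, ed r ⊤ y ((μ ^ i : Kˣ) : K) = ws n (cw 40 · i)) → Cs r br σ y μ n
  t1093 : ∀ y : G, y ^ 1093 = 1 → y ≠ 1 → dm r y = 10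
  t547 : ∀ s x : G, s * x = x * s → x ^ 547 = 1 →
    3 ^ dm r s ≡ 3 ^ finrank K ↥(fs (r s) ⊓ fs (r x)) [MOD 547]

end Rep

/-- `j` covers a normal subgroup of `H` with trivial centralizer. -/
structure Jm {F X : Type*} [Field F] [Group X] (H : Subgroup X) (j : SL F →* X) : Prop where
  neg : j (-1) = 1
  ker : ∀ g, j g = 1 → g = 1 ∨ g = -1
  mem : ∀ g, j g ∈ H
  nor : H ≤ Subgroup.normalizer (j.range : Set X)
  cen : ∀ h ∈ H, (∀ g, h * j g = j g * h) → h = 1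

section SL
variable {F K V : Type*} [Field F] [Field K] (ι : F →+* K) [AddCommGroup V] [Module K V]
  (r : SL F →* End K V)

/-- The factor `B / A` is the module number `m`. -/
def Tp (A B : Submodule K V) (m : ℕ) : Prop := ∃ Φ : V →ₗ[K] (SL F → K),
  (∀ g, ∀ w ∈ B, Φ (r g w) = Rr K (SL F) g (Φ w)) ∧ B.map Φ = LL ι (2 * m) ∧ B ⊓ LinearMap.ker Φ = A

/-- `n` is the list of multiplicities of the composition factors of `A`. -/
structure Cp [Fintype F] {Q : ℕ} (A : Submodule K V) (n : Fin Q → ℕ) : Prop where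
  inv : Inv r A
  ch : ∀ g l i, Ev ι g l → ed r A g (((l ^ 2) ^ i : Kˣ) : K) = ws n (cw (orderOf (l ^ 2)) · i)
  rk : finrank K A = ws n dj
  z : Fintype.card F = 81 → finrank K (Zc r A) ≤ ws n zb
  st : (∀ m, n m ≠ 0 → 2 * m + 1 < Fintype.card F) → ∀ v ∈ A, ∑ s, r (uu s) (r (ww F) v) = -v → v = 0

/-- The multiplicities of the composition factors. -/
noncomputable def np [Fintype F] (A : Submodule K V) : Fin 41 → ℕ := Classical.epsilon (Cp ι r A)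

/-- `h` is the middle vector and `v` the top vector of a module of dimension three. -/
structure Hv (k : ℕ) (h v : V) : Prop where
  t : ∀ a, r (tt a) h = h
  w : r (ww F) h = -h
  u : ∀ s, r (uu s) h = h + ι s ^ k • v

/-- The middle vectors. -/
def Nn (k : ℕ) : Submodule K V where
  carrier := {h | ∃ v, Hv ι r k h v}
  add_mem' := fun ⟨v, a⟩ ⟨w, c⟩ => ⟨v + w, fun s => by rw [map_add, a.t, c.t], by rw [map_add, a.w, c.w, neg_add],
    fun s => by rw [map_add, a.u, c.u, smul_add]; abel⟩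
  zero_mem' := ⟨0, by simp, by simp, by simp⟩
  smul_mem' := fun c _ ⟨v, a⟩ => ⟨c • v, fun s => by rw [map_smul, a.t], by rw [map_smul, a.w, smul_neg],
    fun s => by rw [map_smul, a.u, smul_add, smul_comm]⟩

/-- The top vectors. -/
def Pp (k : ℕ) : Submodule K V where
  carrier := {v | ∃ h, Hv ι r k h v}
  add_mem' := fun ⟨v, a⟩ ⟨w, c⟩ => ⟨v + w, fun s => by rw [map_add, a.t, c.t], by rw [map_add, a.w, c.w, neg_add],
    fun s => by rw [map_add, a.u, c.u, smul_add]; abel⟩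
  zero_mem' := ⟨0, by simp, by simp, by simp⟩
  smul_mem' := fun c _ ⟨v, a⟩ => ⟨c • v, fun s => by rw [map_smul, a.t], by rw [map_smul, a.w, smul_neg],
    fun s => by rw [map_smul, a.u, smul_add, smul_comm]⟩

end SL

end CF.Ez
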