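import Cfsg.Agent.Ez.A
import Cfsg.Agent.Ey.E3
import Cfsg.Agent.Ev.G4

/-! The adjoint module of `E₈(3)`: diagonal forms of the elements of order `40`. -/

set_option autoImplicit false

namespace CF.Ez

open Module CF.E83 CF.Chev CF.BN CF.ExA Cfsg.Lie Finset CF.Geom.Sm Matrix
open CF.Ey (Ix brK fmK)

/-- The Frobenius map. -/
def frK (K : Type*) [Field K] [CharP K 3] : (Ix → K) →+ (Ix → K) where
  toFun v a := v a ^ 3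
  map_zero' := by funext a; simp
  map_add' u v := by funext a; exact add_pow_char _ _ 3

/-- The elements of order `40`. -/
def xs (c : ℕ) : List ℤ := [[], [36, 51, 69, 102, 84, 66, 47, 27], [54, 78, 105, 155, 126, 96, 65, 33],
  [58, 86, 115, 170, 138, 105, 71, 36], [54, 78, 105, 156, 126, 95, 64, 32], [54, 74, 101, 148, 121, 94, 66, 36],
  [60, 89, 119, 177, 145, 112, 76, 39], [44, 61, 83, 122, 99, 76, 51, 26],
  [44, 61, 83, 122, 99, 76, 51, 26]].getD c []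

/-- The twists. -/
def wd3 (c : ℕ) : List (Fin 8) := [[],
  [7, 6, 5, 4, 3, 2, 1, 3, 4, 5, 6, 7, 0, 2, 3, 4, 5, 1, 3, 4, 2, 3, 0, 2, 1, 3, 4, 5],
  [0, 2, 3, 4, 5, 1, 3, 4, 2, 3, 0, 2, 1, 3, 4, 5, 6, 7, 5, 6, 4, 5, 3, 4, 2, 3, 0, 2, 1, 3, 4, 5, 2, 3, 4,
    0, 2, 1], [],
  [0, 2, 3, 4, 5, 6, 7, 1, 3, 4, 5, 6, 2, 3, 4, 5, 1, 3, 4, 2, 3, 0, 2, 1, 3, 4, 5, 1, 3, 4, 2, 3, 0, 2, 1,
    3, 4],
  [0, 2, 3, 4, 5, 1, 3, 4, 2, 3, 0, 2, 1, 3, 4, 5, 6, 7, 5, 4, 3, 2, 1, 3, 4, 5, 6, 0, 2, 3, 4, 1, 3, 2, 0],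
  [6, 7, 5, 6, 4, 5, 3, 4, 2, 3, 0, 2, 1, 3, 4, 5, 6, 7, 2, 3, 4, 5, 1, 3, 4, 2, 3, 0, 2, 1, 3, 4, 5, 6, 1,
    3, 4, 5, 2, 3, 4, 3, 0, 2, 1, 3, 2, 1],
  [0, 2, 3, 4, 5, 1, 3, 4, 2, 3, 0, 2, 1, 3, 4, 5, 6, 7, 5, 4, 3, 2, 1, 3, 4, 5, 6, 0, 2, 3, 4, 5, 1, 3, 4,
    2, 3, 0, 2, 1, 3, 4, 5, 6, 7, 0, 2, 3, 4, 5, 6, 1, 3, 4, 5, 2, 3, 0, 2, 1, 3, 4, 3, 2, 1, 3]].getD c []

/-- The involutions. -/
def tv (c : ℕ) : List ℤ := [[], [0, 0, 1, 0, 1, 0, 0, 0], [0, 0, 1, 0, 0, 1, 0, 0], [], [0, 1, 0, 0, 0, 0, 0, 1],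
  [0, 1, 0, 0, 1, 0, 0, 0], [1, 0, 0, 0, 1, 0, 0, 0]].getD c []

/-- A word for `-1`. -/
def w0 : List (Fin 8) := (List.replicate 15 [0, 1, 2, 3, 4, 5, 6, 7]).flatten

theorem chk_wd : ∀ c ∈ [1, 2, 4, 5, 6, 7],
    CF.Geom.Sm.chkW 40 (wd3 c) (gl (xs c)) fun i => 3 * gl (xs c) i := by decide +kernel

theorem w0_eq (r : Fin 240) : cE8.wp w0 r = cE8.neg r := by
  have : ∀ r : Fin 240, (Ev.aF w0 r).1 = 239 - r := by decide +kernel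
  exact Fin.ext (by rw [Ev.wp_eq, this, tabOf8.neg]; rfl)

theorem Mw_w0 : Mw cE8 (cE8.wp w0) = -1 := by
  have : ∀ i j : Fin 8, MwT tabE8 (w0.map Fin.val) i j = if i = j then -1 else 0 := by decide +kernel
  ext i j
  rw [tabOf8.Mw, this, neg_apply, one_apply]
  split_ifs <;> rfl

variable {X : Type*} [Group X] (L : LS cE8 1 3 3 1 X)

/-- The representation. -/
noncomputable abbrev rX (f : L.G →* GL Ix L.K) : X →* End L.K (Ix → L.K) := (RR f).comp (jG L)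

theorem σ_jG (x : X) : L.T.σ (jG L x) = jG L x := ((MulEquiv.ofBijective L.θ (θ_bij L)).symm x).2

theorem exists_jG {g : L.G} (h : L.T.σ g = g) : ∃ x, jG L x = g := ⟨L.θ ⟨g, h⟩, jG_θ L _⟩

/-- The torus element. -/
noncomputable abbrev tc (μ : L.Kˣ) (x : List ℤ) : Fin 8 → L.Kˣ := fun i => μ ^ vv (gl x) i

/-- The diagonal form adapted to the Frobenius map. -/
structure Mt (c : ℕ) (y : X) (μ : L.Kˣ) (z : L.G) : Prop where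
  ord : orderOf μ = 40
  tw : L.T.σ z * L.ρ.nw (wd3 c) = z
  eq : jG L y = z * L.h.r3.tor (tc L μ (xs c)) * z⁻¹

variable {L} {c : ℕ} {y u : X} {μ : L.Kˣ} {z g : L.G}

theorem tc_fin (hμ : orderOf μ = 40) (x : List ℤ) : IsOfFinOrder (tc L μ x) :=
  isOfFinOrder_iff_pow_eq_one.2 ⟨40, by decide, by rw [zp_pow, ← hμ, pow_orderOf_eq_one]; funext i; simp⟩

theorem mt_of (hc : c ∈ [1, 2, 4, 5, 6, 7]) (hμ : orderOf μ = 40) (hg : g ∈ L.h.Alg 3)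
    (e : jG L y = g * L.h.r3.tor (tc L μ (xs c)) * g⁻¹) : ∃ z, Mt L c y μ z := by
  obtain ⟨z, h1, h2⟩ := Ev.twist L.frob L.big L.σ_x (l := wd3 c) (tc_fin hμ _)
    (by rw [mp_zpow, zp_pow', zp_iff hμ]; exact of_chkW (chk_wd c hc)) hg (e ▸ σ_jG L y)
  exact ⟨z, hμ, h1, e.trans h2.symm⟩

/-- Rational elements of the torus. -/
theorem Mt.rat (h : Mt L c y μ z) {d : Fin 8 → L.Kˣ} (hd : mp (Mw cE8 (cE8.wp (wd3 c))) d = d ^ 3) :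
    ∃ t, jG L t = z * L.h.r3.tor d * z⁻¹ := exists_jG L (by
  rw [map_mul, map_mul, map_inv, eq_mul_inv_of_mul_eq h.tw]
  conv_rhs => rw [← Ev.fix_tor (h := L.h) L.σ_x hd]
  simp [mul_assoc])

/-- An element that inverts `y`. -/
theorem Mt.inv (h : Mt L c y μ z) (e : u * y * u⁻¹ = y⁻¹) :
    Commute (z⁻¹ * jG L u * z * (L.ρ.nw w0)⁻¹) (L.h.r3.tor (tc L μ (xs c))) := by
  have h1 := conj_tor L.h.r3 (L.ρ.acts_nw w0) (tc L μ (xs c))⁻¹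
  rw [Mw_w0, show mp (-1 : Matrix (Fin 8) (Fin 8) ℤ) (tc L μ (xs c))⁻¹ = tc L μ (xs c) by
    rw [show (tc L μ (xs c))⁻¹ = fun i => μ ^ (-vv (gl (xs c))) i from funext fun i => by simp, mp_zpow]
    simp [neg_mulVec, mulVec_neg], map_inv] at h1
  have h2 := congrArg (jG L) e
  rw [map_mul, map_mul, map_inv, map_inv, h.eq] at h2
  generalize L.h.r3.tor (tc L μ (xs c)) = T at h1 h2
  have h3 : (L.ρ.nw w0)⁻¹ * T = T⁻¹ * (L.ρ.nw w0)⁻¹ := by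
    conv_lhs => rw [← h1]
    group
  have h4 : jG L u * z * T⁻¹ = z * T * z⁻¹ * jG L u * z := by
    rw [← inv_inv (z * T * z⁻¹), ← h2]; group
  rw [Commute, SemiconjBy, mul_assoc, h3, ← mul_assoc, mul_assoc z⁻¹, mul_assoc z⁻¹, h4]
  group

variable {f : L.G →* GL Ix L.K} (hf : L.ρ.IsAdHom f)
include hf

/-- The Frobenius map in the coordinates. -/
theorem Mt.fr (h : Mt L c y μ z) (v : Ix → L.K) :
    frK L.K (RR f z v) = RR f z (RR f (L.ρ.nw (wd3 c))⁻¹ (frK L.K v)) := by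
  rw [← End.mul_apply, ← map_mul, ← eq_mul_inv_of_mul_eq h.tw]
  exact funext fun a => (Ev.ad_frob (h := L.h) L.σ_x hf z v a).symm

end CF.Ez
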