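import Cfsg.Agent.Ez.B

/-! The adjoint module of `E₈(3)`: bracket, form, Frobenius map, irreducibility, involutions. -/

set_option autoImplicit false

namespace CF.Ez

open Module CF.E83 CF.Chev CF.BN CF.ExA Cfsg.Lie Finset CF.Geom.Sm Matrix Sum
open CF.Ey (Ix brK fmK Inv ed Fm brK_apply fmK_apply)

namespace E1

theorem anti {K : Type*} [Field K] (u v : Ix → K) : brK K u v = -brK K v u := by
  have b : ∀ a, Pi.basisFun K Ix a = LieBasis.bv K a := fun a => Pi.basisFun_apply ..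
  have h : ∀ i r, brK K (LieBasis.bv K (inl i)) (LieBasis.bv K (inr r)) =
      -brK K (LieBasis.bv K (inr r)) (LieBasis.bv K (inl i)) := fun i r => by
    rw [Ey.E3.brH fun _ => by simp [LieBasis.bv_apply], brK_apply, cE8.ad_root,
      Ey.E3.brE fun _ => by simp [LieBasis.bv_apply], neg_smul, neg_neg]
  suffices brK K = -(brK K).flip from LinearMap.congr_fun₂ this u v
  refine LinearMap.ext_basis (Pi.basisFun K Ix) (Pi.basisFun K Ix) fun a c => ?_
  rw [b, b, LinearMap.neg_apply, LinearMap.neg_apply, LinearMap.flip_apply]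
  rcases a with i | r <;> rcases c with j | s
  · have z : ∀ i j, brK K (LieBasis.bv K (inl i)) (LieBasis.bv K (inl j)) = 0 := fun i j =>
      Ey.E3.cen (S := ∅) (fun _ _ => by simp [LieBasis.bv_apply]) (fun _ => by simp [LieBasis.bv_apply]) (by simp)
    rw [z, z, neg_zero]
  · exact h i s
  · rw [h, neg_neg]
  rw [brK_apply, brK_apply, cE8.ad_root, cE8.ad_root]
  by_cases e : s = cE8.neg r
  · rw [e, cE8.E_one_neg]
    nth_rewrite 3 [← cE8.neg_neg r]
    rw [cE8.E_one_neg, cE8.hv_neg, neg_neg]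
  by_cases k : ∃ u, cE8.vec u = cE8.vec s + cE8.vec r
  · obtain ⟨u, k⟩ := k
    rw [cE8.E_one_root k, cE8.E_one_root (k.trans (add_comm _ _)), cE8.N_anti k]
    simp
  · push Not at k
    rw [cE8.E_one_none k e, cE8.E_one_none (fun u => add_comm (cE8.vec s) _ ▸ k u) (mt cE8.eq_neg_comm.1 e), neg_zero]

theorem chk : ∀ c ∈ [1, 2, 4, 5, 6], CF.Geom.Sm.chkW 2 (wd3 c) (gl (tv c)) (fun i => 3 * gl (tv c) i) ∧
    red 2 (vv (gl (tv c))) ≠ red 2 0 ∧ red 2 (vv (gl (tv c))) ≠ red 2 (vv (gl (xs c))) ∧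
    ∀ r < 240, xv 40 (gl (xs c)) r = 0 → xv 2 (gl (tv c)) r = 0 := by decide +kernel

theorem o2 {K : Type*} [Field K] [CharP K 3] : orderOf (-1 : Kˣ) = 2 :=
  orderOf_eq_prime (by simp) fun e => by
    have : ((2 : ℕ) : K) = 0 := by
      have := congrArg Units.val e
      push_cast at this ⊢
      linear_combination -this
    exact absurd ((CharP.cast_eq_zero_iff K 3 2).1 this) (by decide)

theorem pw {K : Type*} [Field K] {μ : Kˣ} {m : ℕ} (hμ : orderOf μ = m) (hm : 0 < m) (x : List ℤ) (r : Fin 240) :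
    rv cE8 (fun i => μ ^ vv (gl x) i) r = 1 ↔ xv m (gl x) r = 0 := by
  rw [rv_zp, ← orderOf_dvd_iff_zpow_eq_one, hμ, Int.dvd_iff_emod_eq_zero, ← xv_eq hm, Nat.cast_eq_zero]

end E1

variable {X : Type*} [Group X] {L : LS cE8 1 3 3 1 X} {f : L.G →* GL Ix L.K} (hf : L.ρ.IsAdHom f)
  {c : ℕ} {y u : X} {μ : L.Kˣ} {z : L.G}
include hf

theorem br_G (g : L.G) (u v : Ix → L.K) : RR f g (brK L.K u v) = brK L.K (RR f g u) (RR f g v) := by
  have : cE8.IsAut (f g).val := L.ρ.U_induction (p := fun g => cE8.IsAut (f g).val)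
    (by rw [map_one]; exact cE8.isAut_one) (fun g r t _ _ ih => by
      rw [map_mul, Units.val_mul, hf, LieBasis.val_xG]
      exact ih.mul (cE8.isAut_X r t)) (show g ∈ L.ρ.Gp from L.h.top ▸ Subgroup.mem_top _)
  rw [brK_apply, brK_apply]
  show (f g).val *ᵥ _ = cE8.ad L.K ((f g).val *ᵥ u) *ᵥ ((f g).val *ᵥ v)
  rw [mulVec_mulVec, mulVec_mulVec, this]

theorem bk_X : Bk (rX L f) (brK L.K) := ⟨fun _ => br_G hf _, fun v => by
  have : ((3 : ℕ) : L.K) • brK L.K v v = 0 := by rw [CharP.cast_eq_zero, zero_smul]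
  linear_combination (norm := module) this - E1.anti v v⟩

theorem E1.fm_G (g : L.G) (u v : Ix → L.K) : fmK L.K (RR f g u) (RR f g v) = fmK L.K u v := by
  rw [fmK_apply, fmK_apply]
  exact kap_inv Ev.D.conn Ev.D.len1 hf (L.h.top ▸ Subgroup.mem_top _) _ _

theorem fm_X : Fm (rX L f) (fmK L.K) :=
  ⟨Ey.E1.fm_symm, fun u hu => Ev.D.kp_nd fun a => by rw [← fmK_apply, Ey.E1.fm_symm, hu], fun _ => E1.fm_G hf _⟩

theorem fr_X : F3 (rX L f) (frK L.K) := by
  refine ⟨fun c v => funext fun a => mul_pow _ _ _, ⟨fun u v h => funext fun a =>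
    frobenius_inj L.K 3 (congrFun h a), fun v => ?_⟩, fun x v => funext fun a => ?_⟩
  · choose w e using fun a => IsAlgClosed.exists_pow_nat_eq (v a) (n := 3) (by decide)
    exact ⟨w, funext e⟩
  show frobenius L.K 3 (((f (jG L x)).val *ᵥ v) a) = ((f (jG L x)).val *ᵥ fun b => v b ^ 3) a
  simp only [mulVec, dotProduct, map_sum, map_mul, frobenius_def, Ev.D.ent L hf]

theorem E1.ex_X (r : Fin 240) : ∃ x, ∀ v, rX L f x v = cE8.X r 1 *ᵥ v := by
  obtain ⟨x, e⟩ := exists_jG L (g := L.ρ.x r 1) ((L.σ_x r 1).trans (by rw [one_pow]))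
  exact ⟨x, fun v => by
    show (f (jG L x)).val *ᵥ v = _
    rw [e, hf, LieBasis.val_xG]⟩

theorem irr_X (A : Submodule L.K (Ix → L.K)) (h : Inv (rX L f) A) : A = ⊥ ∨ A = ⊤ := by
  have hA : ∀ r, ∀ v ∈ A, cE8.X r 1 *ᵥ v ∈ A := fun r v hv => (E1.ex_X hf r).elim fun x e => e v ▸ h x v hv
  refine or_iff_not_imp_right.2 fun n => eq_bot_iff.2 fun v hv => ?_
  have z : ∀ v ∈ A, ∀ s, fmK L.K (LieBasis.bv L.K (inr s)) v = 0 := fun v hv s => by
    rw [Ey.E1.fm_ev]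
    by_contra e
    exact n (Ey.E1.top Ey.E1.sl hA Ey.E1.a1 Ev.D.conn (Ey.E1.ext Ey.E1.sl hA Ey.E1.a1 hv e))
  refine Ev.D.kp_nd fun a => ?_
  rw [← fmK_apply]
  rcases a with i | s
  · obtain ⟨x, e⟩ := E1.ex_X hf (cE8.simple i)
    have := (fm_X hf).inv x (LieBasis.bv L.K (inr (cE8.neg (cE8.simple i)))) (rX L f x⁻¹ v)
    rw [z _ (h _ _ hv), ← End.mul_apply, ← map_mul, mul_inv_cancel, map_one, End.one_apply, e, LieBasis.X_neg_root,
      LieBasis.hv_simple] at this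
    simpa [z v hv] using this
  · exact z v hv s

theorem E1.tor_v (c : Fin 8 → L.Kˣ) (v : Ix → L.K) : RR f (L.h.r3.tor c) v =
    (fun a => ((cE8.torChar c).ev (cE8.wt a) : L.K)) * v := by
  funext a
  change ((f _).val *ᵥ v) a = _
  rw [ad_tor _ hf, LieBasis.val_tG, LieBasis.TM, mulVec_diagonal]
  rfl

theorem E1.fix_iff (c : Fin 8 → L.Kˣ) (z : L.G) (v : Ix → L.K) : RR f (z * L.h.r3.tor c * z⁻¹) v = v ↔
    ∀ r, rv cE8 c r = 1 ∨ RR f z⁻¹ v (inr r) = 0 := by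
  have i : ∀ g w, RR f g⁻¹ (RR f g w) = w := fun g w => by
    rw [← End.mul_apply, ← map_mul, inv_mul_cancel, map_one]; rfl
  rw [← (Function.LeftInverse.injective (g := RR f z⁻¹⁻¹) (i z⁻¹)).eq_iff, map_mul, map_mul, End.mul_apply,
    End.mul_apply, i, E1.tor_v hf, funext_iff, Sum.forall]
  simp [rv, mul_left_eq_self₀]

theorem iv_X (hc : c ∈ [1, 2, 4, 5, 6]) (h : Mt L c y μ z) :
    ∃ t, Iv (rX L f) y t ∧ jG L t = z * L.h.r3.tor (tc L (-1) (tv c)) * z⁻¹ := by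
  obtain ⟨k1, k2, k3, k4⟩ := E1.chk c hc
  obtain ⟨t, ht⟩ := h.rat (d := tc L (-1) (tv c)) (by rw [mp_zpow, zp_pow', zp_iff E1.o2]; exact of_chkW k1)
  have m : μ ^ 20 = -1 := ((Units.inv_eq_self_iff (μ ^ 20)).1 (inv_eq_of_mul_eq_one_left (by
    rw [← pow_add, show 20 + 20 = orderOf μ from h.ord.symm, pow_orderOf_eq_one]))).resolve_left
      (pow_ne_one_of_lt_orderOf (by decide) (by rw [h.ord]; decide))
  have j : ∀ x, jG L t = z * L.h.r3.tor (fun i => (-1) ^ x i) * z⁻¹ → red 2 (vv (gl (tv c))) = red 2 x := fun x e =>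
    (zp_iff E1.o2).1 (L.h.inj (by simpa [ht] using e))
  refine ⟨t, ⟨jG_inj L ?_, fun e => k2 (j _ ?_), fun e => k3 (j _ ?_), jG_inj L ?_, fun v hv => ?_⟩, ht⟩
  · rw [← sq, map_pow, ht, conj_pow, ← map_pow, zp_pow]
    simp [← Pi.one_def]
  · simp [e, ← Pi.one_def]
  · rw [e, map_pow, h.eq, conj_pow, ← map_pow, zp_pow, m]
  · rw [map_mul, map_mul, ht, h.eq, conj_mul, conj_mul, ← map_mul, ← map_mul, mul_comm (tc L μ (xs c))]
  · rw [mem_fs, MonoidHom.comp_apply, h.eq, E1.fix_iff hf] at hv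
    rw [MonoidHom.comp_apply, ht, E1.fix_iff hf]
    exact fun r => (hv r).imp_left fun e =>
      (E1.pw E1.o2 (by decide) _ r).2 (k4 r r.2 ((E1.pw h.ord (by decide) _ r).1 e))

end CF.Ez
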