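import Cfsg.Agent.Ez.E2d
import Cfsg.Agent.Ez.B

/-! The elements of order dividing `40` in `E₈`: soundness of the enumeration. -/

set_option autoImplicit false

namespace CF.Ez.E2

open Finset CF.Chev CF.E83 CF.BN CF.ExA Cfsg.Lie CF.Geom.Sm Matrix

theorem sv_of {c t D a : ℕ} {k : ℕ → Bool} (h : sv c t D k) (hc : c ≠ 0) (e : c * a + t = D) : k a := by
  subst e
  rw [sv, fc_eq, Nat.ble_eq_true_of_le (Nat.le_add_left _ _)] at h
  simpa [fc_eq, show ∀ a b : ℕ, a.div b = a / b from fun _ _ => rfl,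
    show ∀ a b : ℕ, a.mod b = a % b from fun _ _ => rfl, hc] using h

theorem lv_of {a d C m q l P s : ℕ} {k : ℕ → ℕ → ℕ → ℕ → Bool} (h : lv a d C m q l P k) (ha : 0 < a)
    (e : a * s ≤ m) : k s (m - a * s) (q + s * (d * s + l)) (P + s * C) := by
  rw [lv, fc_eq] at h
  exact allLt_iff.1 h s (Nat.lt_succ_of_le ((Nat.le_div_iff_mul_le ha).2 (by rwa [mul_comm])))

theorem of_fc {n : ℕ} {k : ℕ → Bool} (h : fc n k = true) : k n = true := h

theorem of_cond {b q : Bool} (h : cond b q true = true) (e : b = true) : q = true := by subst e; exact h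

theorem im_of {H i j : ℕ} {q : Bool} (h : im H i j q) (e : DD H i = DD H j) : q := by
  simpa [im, e] using h

/-- The orbit sums of the weights. -/
def rw (k : ℕ) : List ℕ := [[1, 4, 0, 4, 0, 0, 0, 2, 0, 4, 0, 0, 0, 3], [0, 1, 1, 2, 0, 1, 1, 1, 1, 4, 0, 2, 1, 2],
  [0, 0, 1, 1, 0, 2, 1, 0, 1, 2, 0, 4, 2, 2], [0, 0, 0, 2, 1, 2, 2, 0, 0, 4, 0, 2, 2, 2],
  [0, 0, 0, 0, 1, 2, 2, 0, 0, 2, 0, 4, 3, 2], [0, 0, 0, 0, 0, 1, 1, 0, 2, 2, 1, 5, 2, 2],
  [0, 0, 0, 0, 0, 0, 2, 1, 2, 2, 1, 4, 2, 2], [0, 0, 0, 0, 0, 0, 0, 2, 4, 4, 1, 4, 0, 2],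
  [0, 0, 0, 0, 0, 0, 0, 0, 0, 0, 2, 8, 4, 2]].getD
    ([0, 1, 2, 1, 3, 4, 2, 5, 6, 1, 7, 5, 3, 1, 2, 4, 6, 5, 2, 5, 8].getD k 0) []

/-- A linear form. -/
def lin (a : ℕ → ℕ) (c : List ℕ) : ℕ := ∑ j ∈ range 14, a j * c.getD j 0

theorem of_pt {P : ℕ} {s : List ℕ} (h : pt P s) {a : ℕ → ℕ}
    (e0 : 8 + 2 * DD (hs P sf) 0 = lin a (rw 0)) (e : ∀ k < 21, k ≠ 0 → DD (hs P sf) k = lin a (rw k)) :
    (s, (List.range 14).map a) ∈ tbl := by
  rw [pt, fc_eq] at h
  generalize hs P sf = H at *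
  have g : ∀ i j, i < 21 ∧ i ≠ 0 ∧ j < 21 ∧ j ≠ 0 ∧ rw i = rw j → DD H i = DD H j := fun i j h => by
    rw [e i h.1 h.2.1, e j h.2.2.1 h.2.2.2.1, h.2.2.2.2]
  replace h := im_of (im_of (im_of (im_of (im_of (im_of (im_of (im_of (im_of (im_of (im_of (im_of h
    (g _ _ (by decide))) (g _ _ (by decide))) (g _ _ (by decide))) (g _ _ (by decide))) (g _ _ (by decide)))
    (g _ _ (by decide))) (g _ _ (by decide))) (g _ _ (by decide))) (g _ _ (by decide))) (g _ _ (by decide)))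
    (g _ _ (by decide))) (g _ _ (by decide))
  have e1 := e 1 (by decide) (by decide)
  have e2 := e 2 (by decide) (by decide)
  have e4 := e 4 (by decide) (by decide)
  have e5 := e 5 (by decide) (by decide)
  have e7 := e 7 (by decide) (by decide)
  have e8 := e 8 (by decide) (by decide)
  have e10 := e 10 (by decide) (by decide)
  have e20 := e 20 (by decide) (by decide)
  simp only [lin, rw, sum_range_succ, sum_range_zero, List.getD_cons_zero, List.getD_cons_succ] at e0 e1 e2 e4 e5 e7 e8 e10 e20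
  simp only [fc_eq, ip, allLt_iff] at h
  have h1 := sv_of (h (a 13) (by omega) (a 11) (by omega) (a 12) (by omega)) (a := a 10) (by decide) (by omega)
  simp only [allLt_iff] at h1
  exact of_decide_eq_true (sv_of (a := a 0) (sv_of (a := a 1) (sv_of (a := a 2) (sv_of (a := a 3) (sv_of (a := a 4)
    (sv_of (a := a 5) (sv_of (a := a 6) (sv_of (a := a 7) (h1 (a 9) (by omega) (a 8) (by omega))
    (by decide) (by omega)) (by decide) (by omega)) (by decide) (by omega)) (by decide) (by omega))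
    (by decide) (by omega)) (by decide) (by omega)) (by decide) (by omega)) (by decide) (by omega))

/-- The packed coefficients. -/
def CC (i : ℕ) : ℕ := [C0, C1, C2, C3, C4, C5, C6, C7].getD i 0

theorem of_en (H : ∀ k < 7, en k = true) {s : ℕ → ℕ}
    (hm : 2 * s 0 + 3 * s 1 + 4 * s 2 + 6 * s 3 + 5 * s 4 + 4 * s 5 + 3 * s 6 + 2 * s 7 ≤ 40)
    (hq : 5 ∣ qE fun i : Fin 8 => ∑ j : Fin 8, (adE8.getD i []).getD j 0 * (s j : ℤ)) :
    pt (∑ i ∈ range 8, s i * CC i) ((List.range 8).map s) := by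
  have h3 := H (s 3) (by omega)
  rw [en] at h3
  have h4 := lv_of (s := s 6) (lv_of (s := s 1) (lv_of (s := s 5) (lv_of (s := s 2)
    (lv_of (s := s 4) h3 (by decide) (by omega)) (by decide) (by omega)) (by decide) (by omega))
    (by decide) (by omega)) (by decide) (by omega)
  rw [ed2] at h4
  have h5 := lv_of (s := s 0) h4 (by decide) (by omega)
  beta_reduce at h5
  have h := of_fc h5
  have h1 := allLt_iff.1 h (s 7) (Nat.lt_succ_of_le ((Nat.le_div_iff_mul_le (by decide)).2 (by omega)))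
  beta_reduce at h1
  have h6 := fun e => of_fc (of_cond h1 e)
  beta_reduce at h6
  refine (congrArg₂ pt ?_ ?_).trans (h6 ?_)
  · simp only [sum_range_succ, sum_range_zero, CC, List.getD_cons_zero, List.getD_cons_succ, Nat.add_eq, Nat.mul_eq]
    ring
  · rfl
  · rw [Nat.beq_eq]
    refine Nat.mod_eq_zero_of_dvd (Int.natCast_dvd_natCast.1 (hq.trans (dvd_of_eq ?_)))
    rw [Nat.sub_eq, show 40 - (40 - 6 * s 3 - 5 * s 4 - 4 * s 2 - 4 * s 5 - 3 * s 1 - 3 * s 6 - 2 * s 0) =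
      2 * s 0 + 3 * s 1 + 4 * s 2 + 6 * s 3 + 5 * s 4 + 4 * s 5 + 3 * s 6 by omega]
    simp [qE, adE8, Fin.sum_univ_eight]
    ring

theorem dig {B : ℕ} {v : ℕ → ℕ} (hv : ∀ r, v r < B) {n k : ℕ} (hk : k < n) :
    (∑ r ∈ range n, v r * B ^ r) / B ^ k % B = v k := by
  have B0 : 0 < B := (Nat.zero_le _).trans_lt (hv 0)
  induction k generalizing v n with
  | zero =>
    obtain ⟨n, rfl⟩ := Nat.exists_eq_succ_of_ne_zero hk.ne'
    simp [sum_range_succ', pow_succ, ← mul_assoc, ← sum_mul, Nat.mod_eq_of_lt (hv 0)]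
  | succ k ih =>
    obtain ⟨n, rfl⟩ := Nat.exists_eq_succ_of_ne_zero (Nat.zero_lt_of_lt hk).ne'
    rw [sum_range_succ', pow_succ', ← Nat.div_div_eq_div_mul]
    simp only [pow_succ, ← mul_assoc, ← sum_mul, pow_zero, mul_one]
    rw [add_comm, Nat.add_mul_div_right _ _ B0, Nat.div_eq_of_lt (hv 0), zero_add]
    exact ih (fun r => hv _) (by omega)

/-- The coefficients of the positive roots. -/
def vn (j i : ℕ) : ℕ := (tabE8.vec (120 + j) i).toNat

theorem CC_eq : ∀ i < 8, CC i = 64 ^ i + 2 ^ 64 * ∑ j ∈ range 120, 8 * vn j i * 65536 ^ j := by decide +kernel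

theorem vn_eq : ∀ j < 120, ∀ i < 8, tabE8.vec (120 + j) i = vn j i ∧ tabE8.vec (119 - j) i = -vn j i := by
  decide +kernel

theorem hs_map (P : ℕ) (l : List ℕ) : hs P l = (l.map fun k => 2 ^ (P / 2 ^ k % 65536)).sum := by
  induction l with
  | nil => rfl
  | cons k l ih =>
    rw [List.map_cons, List.sum_cons, ← ih, ← Nat.shiftRight_eq_div_pow, ← one_mul (2 ^ _), ← Nat.shiftLeft_eq]
    rfl

variable {s : ℕ → ℕ}

/-- The value of a positive root. -/
def vl (s : ℕ → ℕ) (j : ℕ) : ℕ := if j < 120 then ∑ i ∈ range 8, vn j i * s i else 0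

theorem hs_eq (h1 : ∀ i < 8, s i ≤ 20) (h2 : ∀ j, vl s j ≤ 40) :
    hs (∑ i ∈ range 8, s i * CC i) sf = ∑ j ∈ range 120, 256 ^ vl s j := by
  have e : (∑ i ∈ range 8, s i * CC i) / 2 ^ 64 = ∑ j ∈ range 120, 8 * vl s j * 65536 ^ j := by
    rw [sum_congr rfl fun i hi => by rw [CC_eq i (mem_range.1 hi), mul_add, mul_left_comm], sum_add_distrib,
      ← mul_sum, Nat.add_mul_div_left _ _ (by decide), Nat.div_eq_of_lt, zero_add]
    · simp only [mul_sum]
      rw [sum_comm]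
      refine sum_congr rfl fun j hj => ?_
      rw [vl, if_pos (mem_range.1 hj), mul_sum, sum_mul]
      exact sum_congr rfl fun i _ => by ring
    · exact (sum_le_sum fun i hi => Nat.mul_le_mul_right _ (h1 i (mem_range.1 hi))).trans_lt (by decide)
  rw [hs_map, show sf = (List.range 120).map fun j => 64 + 16 * j by decide +kernel, List.map_map,
    show ∀ (n : ℕ) (F : ℕ → ℕ), ((List.range n).map F).sum = ∑ j ∈ range n, F j from fun _ _ => rfl]
  refine sum_congr rfl fun j hj => ?_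
  rw [Function.comp_apply, pow_add, ← Nat.div_div_eq_div_mul, e, pow_mul, show 2 ^ 16 = 65536 from rfl,
    dig (fun r => by have := h2 r; omega) (mem_range.1 hj), pow_mul, show 2 ^ 8 = 256 from rfl]

theorem dg_eq (h2 : ∀ j, vl s j ≤ 40) {k : ℕ} (hk : k ≤ 40) :
    dg (∑ j ∈ range 120, 256 ^ vl s j) k = ∑ j ∈ range 120, if vl s j = k then 1 else 0 := by
  rw [← sum_fiberwise_of_maps_to (t := range 41) (g := vl s) fun j _ => mem_range.2 (Nat.lt_succ_of_le (h2 j)),
    sum_congr rfl (g := fun k => #{j ∈ range 120 | vl s j = k} * 256 ^ k) fun k _ => by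
      rw [sum_congr rfl fun j hj => by rw [(mem_filter.1 hj).2], sum_const, smul_eq_mul], ← card_filter,
    ← dig (B := 256) (v := fun k => #{j ∈ range 120 | vl s j = k})
      (fun k => (card_filter_le _ _).trans_lt (by simp)) (Nat.lt_succ_of_le hk), dg, Nat.shiftRight_eq,
    Nat.shiftRight_eq_div_pow, Nat.mul_eq, pow_mul, show 2 ^ 8 = 256 from rfl]
  rfl

variable {x : Fin 8 → ℤ} (hx : ∀ i, pr cE8 x (cE8.vec (cE8.simple i)) = s i)
include hx

theorem pr_eq (r : Fin 240) : pr cE8 x (cE8.vec r) = ∑ i ∈ range 8, tabE8.vec r i * s i := by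
  rw [pr_eq_sum, sum_range]
  exact sum_congr rfl fun i _ => by rw [tabOf8.vec, hx]

theorem vl_eq {j : ℕ} (hj : j < 120) : ∑ i ∈ range 8, tabE8.vec (120 + j) i * s i = vl s j ∧
    ∑ i ∈ range 8, tabE8.vec (119 - j) i * s i = -vl s j := by
  rw [vl, if_pos hj, Nat.cast_sum, ← sum_neg_distrib]
  exact ⟨sum_congr rfl fun i hi => by rw [(vn_eq j hj i (mem_range.1 hi)).1, Nat.cast_mul],
    sum_congr rfl fun i hi => by rw [(vn_eq j hj i (mem_range.1 hi)).2, Nat.cast_mul, neg_mul]⟩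

theorem ES_eq (G : ℤ → ℤ) :
    ES cE8 40 G x = 8 * G 0 + ∑ j ∈ range 120, (G (vl s j % 40) + G (-vl s j % 40)) := by
  rw [ES, sum_congr rfl fun r _ => by rw [pr_eq hx],
    ← sum_range fun r => G ((∑ i ∈ range 8, tabE8.vec r i * s i) % (40 : ℕ)), sum_range_add _ 120 120,
    ← sum_range_reflect, ← sum_add_distrib]
  exact congrArg₂ (· + ·) rfl (sum_congr rfl fun j hj => by
    rw [(vl_eq hx (mem_range.1 hj)).1, show 120 - 1 - j = 119 - j from rfl, (vl_eq hx (mem_range.1 hj)).2, add_comm]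
    rfl)

theorem x_eq (i : Fin 8) : x i = ∑ j : Fin 8, (adE8.getD i []).getD j 0 * (s j : ℤ) := by
  simp only [← hx, pr_vec, cE8.A_simple_simple, mul_sum]
  rw [sum_comm]
  simp only [mul_left_comm _ (x _), ← mul_sum, show ∀ i k : Fin 8,
    ∑ j : Fin 8, (adE8.getD i []).getD j 0 * cE8.car k j = if i = k then 1 else 0 by decide +kernel]
  simp

theorem main (H : ∀ k < 7, en k = true) (h2 : ∀ r, pr cE8 x (cE8.vec r) ≤ 40) (hq : 5 ∣ qE x) {a : ℕ → ℕ}
    (e : ∀ k : ℕ, k < 21 → ES cE8 40 (ind 40 1 k) x = lin a (rw k)) :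
    ((List.range 8).map s, (List.range 14).map a) ∈ tbl := by
  have h3 : ∀ j, vl s j ≤ 40 := fun j => by
    by_cases hj : j < 120
    · have := h2 ⟨120 + j, by omega⟩
      rw [pr_eq hx, (vl_eq hx hj).1] at this
      exact_mod_cast this
    · simp [vl, hj]
  have hm := h3 119
  simp only [vl, sum_range_succ, sum_range_zero, show vn 119 0 = 2 by decide +kernel,
    show vn 119 1 = 3 by decide +kernel, show vn 119 2 = 4 by decide +kernel, show vn 119 3 = 6 by decide +kernel,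
    show vn 119 4 = 5 by decide +kernel, show vn 119 5 = 4 by decide +kernel, show vn 119 6 = 3 by decide +kernel,
    show vn 119 7 = 2 by decide +kernel, Nat.reduceLT, if_true, zero_add] at hm
  have h4 := hs_eq (s := s) (fun i hi => by interval_cases i <;> omega) h3
  refine of_pt (of_en H hm (by rwa [← funext (x_eq hx)])) ?_ fun k hk k0 => ?_
  all_goals rw [← Nat.cast_inj (R := ℤ), ← e _ (by omega), ES_eq hx, h4, DD, Nat.add_eq, Nat.sub_eq, dg_eq h3 (by omega),
    dg_eq h3 (Nat.sub_le _ _), ← sum_add_distrib]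
  · rw [mul_sum]
    push_cast
    refine congrArg₂ (· + ·) rfl (sum_congr rfl fun j _ => ?_)
    have := h3 j
    simp only [ind]
    split_ifs <;> omega
  · rw [show ind 40 1 k 0 = 0 from if_neg (by omega), mul_zero, zero_add]
    push_cast
    refine sum_congr rfl fun j _ => ?_
    have := h3 j
    simp only [ind]
    split_ifs <;> omega

end CF.Ez.E2
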