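import Cfsg.Agent.Ez.E2a
import Cfsg.Agent.Ez.E2b

/-! The elements of order dividing `40` in `E₈(3)`. -/

set_option autoImplicit false

namespace CF.Ez

open Module CF.E83 CF.Chev CF.BN CF.ExA Cfsg.Lie Finset CF.Geom.Sm Matrix
open CF.Ey (Ix brK fmK Inv ed Fm)

namespace E2

/-- Representatives of the orbits. -/
def rp (j : ℕ) : Fin 41 := [0, 1, 2, 4, 5, 7, 8, 10, 11, 13, 20, 22, 25, 40].getD j 0

/-- The number of the orbit. -/
def ix (m : Fin 41) : ℕ := [0, 1, 2, 1, 3, 4, 2, 5, 6, 1, 7, 8, 3, 9, 2, 4, 6, 8, 2, 8, 10, 5, 11, 5, 6, 12,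
  11, 1, 3, 5, 7, 9, 6, 8, 11, 12, 3, 9, 11, 9, 13].getD m 0

theorem ix_tw : ∀ m, ix m < 14 ∧ ∃ k < 4, tw^[k] (rp (ix m)) = m := by decide +kernel

theorem n_ix {n : Fin 41 → ℕ} (h : n ∘ tw = n) (m : Fin 41) : n m = n (rp (ix m)) := by
  have : ∀ k m, n (tw^[k] m) = n m := fun k => by
    induction k with
    | zero => exact fun _ => rfl
    | succ k ih => exact fun m => (ih (tw m)).trans (congrFun h m)
  obtain ⟨k, -, e⟩ := (ix_tw m).2
  rw [← this k (rp _), e]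

theorem cf_rw : ∀ k < 21, ∀ j < 14, ∑ m with ix m = j, cf 40 (m : Fin 41) k = (rw k).getD j 0 := by
  decide +kernel

theorem ws_lin {n : Fin 41 → ℕ} (h : n ∘ tw = n) {k : ℕ} (hk : k < 21) :
    ws n (cw 40 · k) = lin (fun j => n (rp j)) (rw k) := by
  rw [ws_cw, ws, lin, ← sum_fiberwise_of_maps_to (t := range 14) (g := ix) fun m _ => mem_range.2 (ix_tw m).1]
  refine sum_congr rfl fun j hj => ?_
  rw [← cf_rw k hk j (mem_range.1 hj), mul_sum]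
  exact sum_congr rfl fun m hm => by rw [n_ix h, (mem_filter.1 hm).2]

theorem tbl_ok : ∀ p ∈ tbl, (∀ i < 8, p.1.getD i 0 = 0) ∨ ∃ c ∈ [1, 2, 3, 4, 5, 6, 7, 8],
    (∀ m, p.2.getD (ix m) 0 = tb c m) ∧
      ∀ i : Fin 8, ∑ j : Fin 8, (adE8.getD i []).getD j 0 * (p.1.getD j 0 : ℤ) = vv (gl (xs c)) i := by
  decide +kernel

variable {X : Type*} [Group X] {L : LS cE8 1 3 3 1 X} {m : ℕ} {μ : L.Kˣ} {x : X}

theorem exists_diag [NeZero m] (hm : m.Coprime 3) (hμ : orderOf μ = m) (hx : x ^ m = 1) :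
    ∃ g ∈ L.h.Alg 3, ∃ y : Fin 8 → ℤ, jG L x = g * L.h.r3.tor (fun i => μ ^ y i) * g⁻¹ ∧
      ∃ w ∈ cE8.W, Mz cE8 m w *ᵥ red m y = (3 : ℤ) • red m y := by
  obtain ⟨w, hw, c, hc, g, hg', hg⟩ := L.frob.exists_mem_WTor L.big L.σ_tor (s := jG L x)
    (σ_jG L x) (hm.coprime_dvd_left (orderOf_dvd_of_pow_eq_one (by rw [← map_pow, hx, map_one])))
  have h7 : c ^ m = 1 := by
    have := congrArg (· ^ m) hg
    simp only [conj_pow, ← map_pow, hx, map_one] at this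
    exact L.h.inj (by simpa using this.symm)
  choose y _ hy using fun i => (hμ ▸ IsPrimitiveRoot.orderOf μ : IsPrimitiveRoot μ m
    ).eq_pow_of_mem_rootsOfUnity (ξ := c i) (congrFun h7 i)
  obtain rfl : c = fun i => μ ^ ((y i : ℕ) : ℤ) := funext fun i => by rw [zpow_natCast, hy]
  refine ⟨g, hg', _, hg, w, hw, ?_⟩
  rw [mem_WTor_one, mp_zpow, zp_pow', zp_iff hμ] at hc
  rw [Mz_red, ← red_smul]
  exact hc

variable {f : L.G →* GL Ix L.K} (hf : L.ρ.IsAdHom f) {g : L.G} {y : Fin 8 → ℤ}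
include hf

theorem ed_eq (hμ : orderOf μ = m) (e : jG L x = g * L.h.r3.tor (fun i => μ ^ y i) * g⁻¹) (j : ℕ) :
    (ed (rX L f) ⊤ x ((μ ^ j : L.Kˣ) : L.K) : ℤ) = ES cE8 m (ind m 1 (j % m)) y := by
  have k : ∀ (A : End L.K (Ix → L.K)) (c : L.K), A.eigenspace c = fs (A + (1 - c) • 1) := fun A c =>
    Submodule.ext fun v => by simp [mem_fs, sub_smul, ← sub_eq_zero (a := A v), ← sub_eq_zero (b := v)]; abel_nf
  rw [← rk_tor L.h.r3 hf hμ y j, ed, top_inf_eq, k, k, ← fs_conj (r := RR f) (RR f _ + _) g, MonoidHom.comp_apply, e,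
    map_mul, map_mul, mul_add, add_mul, mul_smul_comm, smul_mul_assoc, mul_one, ← map_mul (RR f) g g⁻¹,
    mul_inv_cancel, map_one, zpow_natCast]

end E2

open E2

variable {X : Type*} [Group X] {L : LS cE8 1 3 3 1 X} {f : L.G →* GL Ix L.K} (hf : L.ρ.IsAdHom f)
  {y : X} {μ : L.Kˣ}
include hf

theorem cls_X (hy : y ^ 40 = 1) (h1 : y ≠ 1) (hμ : orderOf μ = 40) {n : Fin 41 → ℕ} (hn : n ∘ tw = n)
    (h : ∀ i, ed (rX L f) ⊤ y ((μ ^ i : L.Kˣ) : L.K) = ws n (cw 40 · i)) :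
    n = tb 3 ∨ n = tb 8 ∨ ∃ c ∈ [1, 2, 4, 5, 6, 7], n = tb c ∧ ∃ z, Mt L c y μ z := by
  obtain ⟨g, hg, v, e, w, hw, hc⟩ := E2.exists_diag (by decide) hμ hy
  obtain ⟨w', hw', u, a1, a2⟩ := exists_alcove (C := cE8) v (m := 40) (by decide)
  set x := Mw cE8 w' *ᵥ v + (40 : ℤ) • u with hx
  choose s0 hs0 using fun i => Int.eq_ofNat_of_zero_le (a1 i)
  have hs : ∀ i, pr cE8 x (cE8.vec (cE8.simple i)) = (fun j : ℕ => s0 (Fin.ofNat 8 j)) i := fun i => by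
    simp only [Fin.ofNat_val_eq_self, hs0]
  generalize (fun j : ℕ => s0 (Fin.ofNat 8 j)) = s at hs
  have r : red 40 (Mw cE8 w' *ᵥ v) = red 40 x := by
    rw [hx, red_add, red_smul]
    exact (add_eq_left.2 (funext fun i => by
      rw [Pi.smul_apply, zsmul_eq_mul]; exact mul_eq_zero_of_left (by decide) _)).symm
  have e' : jG L y = g * (L.ρ.nw (wd cE8 w'))⁻¹ * L.h.r3.tor (fun i => μ ^ x i) *
      (g * (L.ρ.nw (wd cE8 w'))⁻¹)⁻¹ := by
    rw [← (zp_iff hμ).2 r, ← mp_zpow, ← conj_tor _ (nW_wd hw').acts, e]; group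
  have hq : 5 ∣ qE x := by
    have h2 := qE_Mz hw (red 40 v)
    have h3 : ((8 * qE x : ℤ) : ZMod 40) = 0 := by
      rw [hc] at h2
      rw [Int.cast_mul, ← qE_cast, show (fun i => (x i : ZMod 40)) = _ from r.symm.trans (Mz_red w' v).symm,
        qE_Mz hw', ← sub_eq_zero.2 h2]
      simp only [qE, Pi.smul_apply, zsmul_eq_mul]
      push_cast; ring
    have := (ZMod.intCast_zmod_eq_zero_iff_dvd _ 40).1 h3
    omega
  have t := tbl_ok _ (main hs en_all a2 hq (a := fun j => n (rp j)) fun k hk => by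
    rw [← ws_lin hn hk, ← h, ed_eq hf hμ e', Int.emod_eq_of_lt (by omega) (by omega)])
  have g1 : ∀ (k : ℕ) (a : ℕ → ℕ), ∀ i < k, ((List.range k).map a).getD i 0 = a i := fun k a i hi => by simp [hi]
  rcases t with t | ⟨c, c1, c2, c3⟩
  · refine (h1 (jG_inj L ?_)).elim
    rw [e', show x = 0 from funext fun i => by
      rw [x_eq hs]; exact sum_eq_zero fun j _ => by rw [← g1 8 s j j.2, t j j.2]; simp]
    simp [← Pi.one_def]
  have n1 : n = tb c := funext fun m => by rw [n_ix hn, ← c2, g1 14 _ _ (ix_tw m).1]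
  have x1 : x = vv (gl (xs c)) := funext fun i => by
    rw [x_eq hs, ← c3]; exact sum_congr rfl fun j _ => by rw [g1 8 s j j.2]
  by_cases k3 : c = 3
  · exact .inl (k3 ▸ n1)
  by_cases k8 : c = 8
  · exact .inr (.inl (k8 ▸ n1))
  have c4 : c ∈ [1, 2, 4, 5, 6, 7] := by simp at c1 ⊢; omega
  exact .inr (.inr ⟨c, c4, n1, mt_of c4 hμ (mul_mem hg (inv_mem (L.h.nw_mem_Alg _))) (x1 ▸ e')⟩)

end CF.Ez
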