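import Cfsg.Agent.Ez.E2d

/-! The elements of order dividing `40` in `E₈`: the computation. -/

set_option autoImplicit false

namespace CF.Ez.E2

open CF.Chev (allLt allLt_iff)

theorem en0 : en 0 = true := by decide +kernel

theorem en1 : en 1 = true := by decide +kernel

theorem en2 : allLt 5 (fun s => en (s + 2)) = true := by decide +kernel

theorem en_all : ∀ k < 7, en k = true
  | 0, _ => en0
  | 1, _ => en1
  | k + 2, h => allLt_iff.1 en2 k (by omega)

end CF.Ez.E2
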