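import Cfsg.Agent.Ez.B

/-! The adjoint module of `E₈(3)`: elements of order `41`, `1093` and `547`. -/

set_option autoImplicit false

namespace CF.Ez

open Module CF.E83 CF.Chev CF.BN CF.ExA Cfsg.Lie Finset CF.Geom.Sm Matrix
open CF.Ey (Ix brK fmK Inv ed Fm)

namespace E3

/-- data -/
def w41 : List (Fin 8) := [0, 2, 3, 4, 5, 1, 3, 4, 2, 3, 0, 2, 1, 3, 4, 5, 6, 7, 5, 6, 4, 5, 3, 4, 2, 3, 0, 2,
  1, 3, 4, 5, 6, 2, 3, 4, 0, 2, 1, 3]

/-- data -/
def e41 : List ℤ := [1, 23, 16, 38, 16, 26, 1, 0]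

/-- data -/
def f41 : List ℤ := [27, 8, 40, 28, 22, 25, 0, 1]

/-- data -/
def T41 : ℕ := 5192296858535012095971662987011856

/-- data -/
def x93 : List ℤ := [364, 0, 121, 40, 13, 4, 1, 0]

theorem eig {m : ℕ} {w : List (Fin 8)} {x : List ℤ} (h : chkW m w (gl x) fun i => 3 * gl x i) :
    Mz cE8 m (cE8.wp w) *ᵥ red m (vv (gl x)) = ((3 : ℕ) : ℤ) • red m (vv (gl x)) := by
  rw [Mz_red, of_chkW h, ← red_smul]; rfl

theorem c41 : forceP (PP 41 (gl e41) (gl f41)) fun P => allLt 41 fun a => allLt 41 fun b =>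
    force (ev 41 T41 P a b) fun n => n != 6666 && n != 89662 := by decide +kernel

theorem g41 (n : ℤ) : gf T41 0 (n % 41) = 10000 * ind 41 1 0 (n % 41) + 1000 * ind 41 1 1 (n % 41) +
    100 * ind 41 1 2 (n % 41) + 10 * ind 41 1 4 (n % 41) + ind 41 1 7 (n % 41) := by
  have : ∀ k : Fin 41, gf T41 0 (k : ℕ) = 10000 * ind 41 1 0 (k : ℕ) + 1000 * ind 41 1 1 (k : ℕ) +
      100 * ind 41 1 2 (k : ℕ) + 10 * ind 41 1 4 (k : ℕ) + ind 41 1 7 (k : ℕ) := by decide +kernel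
  have h := this ⟨(n % 41).toNat, by omega⟩
  rwa [Int.toNat_of_nonneg (by omega)] at h

theorem s41 (y : Fin 8 → ℤ) : ES cE8 41 (gf T41 0) y = 10000 * ES cE8 41 (ind 41 1 0) y +
    1000 * ES cE8 41 (ind 41 1 1) y + 100 * ES cE8 41 (ind 41 1 2) y + 10 * ES cE8 41 (ind 41 1 4) y +
    ES cE8 41 (ind 41 1 7) y := by
  have := g41 0
  rw [Int.zero_emod] at this
  simp only [ES, Nat.cast_ofNat, g41, this, sum_add_distrib, ← mul_sum]
  ring

theorem fs_mul {K V : Type*} [Field K] [AddCommGroup V] [Module K V] {A B : End K V} {n : ℕ}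
    (e : A * B = B * A) (hB : B ^ n = 1) (hn : (n : K) = 1) :
    fs (A * ∑ i ∈ range n, B ^ i) = fs A ⊓ fs B := by
  have h1 : ∀ v, B v = v → (∑ i ∈ range n, B ^ i) v = v := fun v hv => by
    rw [LinearMap.sum_apply, sum_congr rfl fun i _ => (End.pow_apply B i v).trans (Function.iterate_fixed hv i),
      sum_const, card_range, ← Nat.cast_smul_eq_nsmul K, hn, one_smul]
  have h2 : B * ∑ i ∈ range n, B ^ i = ∑ i ∈ range n, B ^ i := by
    have := mul_geom_sum B n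
    rwa [hB, sub_self, sub_mul, one_mul, sub_eq_zero] at this
  ext v
  simp only [Submodule.mem_inf, mem_fs]
  refine ⟨fun h => ?_, fun h => by rw [End.mul_apply, h1 v h.2, h.1]⟩
  have h3 : B v = v := by
    conv_lhs => rw [← h, ← End.mul_apply, ← mul_assoc, ← e, mul_assoc, h2, h]
  exact ⟨by rwa [End.mul_apply, h1 v h3] at h, h3⟩

theorem rk_inf {F K I : Type*} [Field F] [Field K] [Fintype I] [DecidableEq I] (ι : F →+* K)
    {A B : Matrix I I F} {n : ℕ} (e : A * B = B * A) (hB : B ^ n = 1) (hn : (n : F) = 1) :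
    finrank F ↥(fs (toLinAlgEquiv' A) ⊓ fs (toLinAlgEquiv' B)) =
      finrank K ↥(fs (toLinAlgEquiv' (ι.mapMatrix A)) ⊓ fs (toLinAlgEquiv' (ι.mapMatrix B))) := by
  have h1 : finrank F (fs (toLinAlgEquiv' (A * ∑ i ∈ range n, B ^ i))) =
      finrank K (fs (toLinAlgEquiv' (ι.mapMatrix (A * ∑ i ∈ range n, B ^ i)))) := Ev.D.rk_ext ι _
  rw [← fs_mul (n := n) (by rw [← map_mul, e, map_mul]) (by rw [← map_pow, hB, map_one]) hn,
    ← fs_mul (n := n) (by rw [← map_mul, ← map_mul, e, map_mul, map_mul])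
      (by rw [← map_pow, ← map_pow, hB, map_one, map_one]) (by rw [← map_natCast ι, hn, map_one])]
  have k1 : toLinAlgEquiv' (A * ∑ i ∈ range n, B ^ i) =
      toLinAlgEquiv' A * ∑ i ∈ range n, toLinAlgEquiv' B ^ i := by simp only [map_mul, map_sum, map_pow]
  have k2 : toLinAlgEquiv' (ι.mapMatrix (A * ∑ i ∈ range n, B ^ i)) = toLinAlgEquiv' (ι.mapMatrix A) *
      ∑ i ∈ range n, toLinAlgEquiv' (ι.mapMatrix B) ^ i := by simp only [map_mul, map_sum, map_pow]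
  rwa [k1, k2] at h1

theorem fix_mod {F V : Type*} [Field F] [Finite F] [AddCommGroup V] [Module F V] [Finite V]
    {A B : End F V} {p : ℕ} [Fact p.Prime] (e : A * B = B * A) (hB : B ^ p = 1) :
    Nat.card F ^ finrank F (fs A) ≡ Nat.card F ^ finrank F ↥(fs A ⊓ fs B) [MOD p] := by
  classical
  have hs : ∀ v ∈ fs A, B v ∈ fs A := fun v hv => by
    rw [mem_fs] at hv ⊢
    rw [← End.mul_apply, e, End.mul_apply, hv]
  let φ : Function.End (fs A) := fun v => ⟨B v, hs v v.2⟩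
  have h2 : ∀ (n : ℕ) v, ((φ ^ n) v).1 = (B ^ n) v := fun n => by
    induction n with
    | zero => exact fun _ => rfl
    | succ n ih => intro v; rw [pow_succ, pow_succ, End.mul_apply]; exact ih (φ v)
  haveI := Fintype.ofFinite (fs A)
  have h3 := Equiv.Perm.card_fixedPoints_modEq (f := φ) (p := p) (n := 1)
    (funext fun v => Subtype.ext (by rw [h2, pow_one, hB]; rfl))
  have h4 : Nat.card φ.fixedPoints = Nat.card ↥(fs A ⊓ fs B) := Nat.card_congr
    ⟨fun v => ⟨v.1, v.1.2, mem_fs.2 (congrArg Subtype.val v.2)⟩,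
      fun v => ⟨⟨v, v.2.1⟩, Subtype.ext (mem_fs.1 v.2.2)⟩, fun _ => rfl, fun _ => rfl⟩
  rwa [← Nat.card_eq_fintype_card, ← Nat.card_eq_fintype_card, h4, natCard_eq_pow_finrank (K := F),
    natCard_eq_pow_finrank (K := F) (V := ↥(fs A ⊓ fs B))] at h3

end E3

open E3

variable {X : Type*} [Group X] {L : LS cE8 1 3 3 1 X} {f : L.G →* GL Ix L.K} (hf : L.ρ.IsAdHom f)
  {c : ℕ} {y u : X} {μ : L.Kˣ} {z : L.G}
include hf

theorem E3.ed_eq {M : ℕ} {a : Fin 8 → ℤ} (hμ : orderOf μ = M)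
    (e : jG L y = z * L.h.r3.tor (fun i => μ ^ a i) * z⁻¹) (j : ℕ) :
    (ed (rX L f) ⊤ y ((μ ^ j : L.Kˣ) : L.K) : ℤ) = ES cE8 M (ind M 1 (j % M)) a := by
  have k : ∀ (A : End L.K (Ix → L.K)) (c : L.K), A.eigenspace c = fs (A + (1 - c) • 1) := fun A c =>
    Submodule.ext fun v => by simp [mem_fs, sub_smul, ← sub_eq_zero (a := A v), ← sub_eq_zero (b := v)]; abel_nf
  rw [← rk_tor L.h.r3 hf hμ a j, ed, top_inf_eq, k, k, ← fs_conj (r := RR f) (RR f _ + _) z,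
    MonoidHom.comp_apply, e, map_mul, map_mul, mul_add, add_mul, mul_smul_comm, smul_mul_assoc, mul_one,
    ← map_mul (RR f) z z⁻¹, mul_inv_cancel, map_one, zpow_natCast]

theorem t41_X [Finite X] (hX : (Nat.card X).factorization 41 = 2) (x : X) (l : L.Kˣ) (hx : x ^ 41 = 1)
    (hl : orderOf l = 41) : [0, 1, 2, 4, 7].map (fun i => ed (rX L f) ⊤ x ((l ^ i : L.Kˣ) : L.K)) ∉
      [[8, 6, 6, 6, 6], [16, 9, 6, 6, 2]] := by
  have : Fact (Nat.Prime 41) := ⟨by norm_num⟩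
  obtain ⟨g, y, h1, -⟩ := exists_diag (by decide) hl hx
  obtain ⟨v, hv, a, b, ha, hb, h2⟩ := syl L (ℓ := 41) (k := 1) (m := 41) rfl hX hl (cE8.wp_mem_W w41)
    (eig (x := e41) (by decide +kernel)) (eig (x := f41) (by decide +kernel)) (i := 6) (j := 7) (by decide)
    (h1 ▸ σ_jG L x)
  have h3 := (rep_PP (m := 41) (by decide) (gl e41) (gl f41)).ES T41 0 a b
  rw [← ES_congr ((Mz_red v y).symm.trans h2), ES_Mw hv, s41,
    show Tab.dig T41 16 0 = 10000 by decide +kernel] at h3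
  have h4 := c41
  rw [forceP_eq] at h4
  have h5 := allLt_iff.1 (allLt_iff.1 h4 a ha) b hb
  simp only [force_eq, Bool.and_eq_true, bne_iff_ne] at h5
  have e0 := E3.ed_eq hf hl h1 0
  have e1 := E3.ed_eq hf hl h1 1
  have e2 := E3.ed_eq hf hl h1 2
  have e4 := E3.ed_eq hf hl h1 4
  have e7 := E3.ed_eq hf hl h1 7
  norm_num only at e0 e1 e2 e4 e7
  rw [← e0, ← e1, ← e2, ← e4, ← e7] at h3
  simp only [List.map_cons, List.map_nil, List.mem_cons, List.cons.injEq, List.not_mem_nil, and_true, or_false]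
  omega

theorem t1093_X {N : ℕ} (hX : Nat.card X = 1093 * N) (hN : ¬ 1093 ∣ N) (hy : y ^ 1093 = 1) (h1 : y ≠ 1) :
    dm (rX L f) y = 10 := by
  have hp : Nat.Prime 1093 := by norm_num
  have : Fact (Nat.Prime 1093) := ⟨hp⟩
  have h0 : N ≠ 0 := by rintro rfl; simp at hN
  have : Finite X := Nat.finite_of_card_ne_zero (by omega)
  have hc : 1093 ^ (Nat.card X).factorization 1093 = 1093 := by
    rw [hX, Nat.factorization_mul (by decide) h0, Finsupp.add_apply,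
      Nat.factorization_eq_zero_of_not_dvd hN, Nat.Prime.factorization_self hp]; rfl
  obtain ⟨μ, hμ⟩ := exists_μ L (m := 1093) (by decide +kernel)
  obtain ⟨u, ψ, -, h2, -⟩ := L.frob.exists_torus L.big L.σ_tor (cE8.wp_mem_W [0, 2, 3, 4, 5, 6])
  obtain ⟨a, ha⟩ : ∃ a, jG L a = u⁻¹ * L.h.r3.tor (fun i => μ ^ vv (gl x93) i) * u⁻¹⁻¹ :=
    ⟨L.θ (ψ ⟨fun i => μ ^ vv (gl x93) i, by
      rw [mem_WTor_one, mp_zpow, zp_pow', zp_iff hμ, ← Mz_red, red_smul]; exact eig (by decide +kernel)⟩),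
      by rw [jG_θ, h2, inv_inv]⟩
  have h3 : ∀ k : ℕ, a ^ k = 1 ↔ 1093 ∣ k := fun k => by
    rw [← map_eq_one_iff _ (jG_inj L), pow_diag ha, conj_eq_one_iff, map_eq_one_iff _ L.h.inj,
      show (1 : Fin 8 → L.Kˣ) = fun i => μ ^ (0 : Fin 8 → ℤ) i from funext (by simp), zp_iff hμ,
      red_smul, ← ZMod.natCast_eq_zero_iff]
    exact ⟨fun h => by simpa [red, vv, gl, x93] using congrFun h 6, fun h => by
      funext i; simp [red, h]⟩
  have h4 := orderOf_eq_prime ((h3 1093).2 dvd_rfl) fun h => absurd ((h3 1).1 (by simpa)) (by decide)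
  obtain ⟨g, hg⟩ := MulAction.exists_smul_eq X
    (Sylow.ofCard (p := 1093) (Subgroup.zpowers y) (by rw [hc, Nat.card_zpowers, orderOf_eq_prime hy h1]))
    (Sylow.ofCard (p := 1093) (Subgroup.zpowers a) (by rw [hc, Nat.card_zpowers, h4]))
  obtain ⟨k, hk⟩ : g * y * g⁻¹ ∈ Submonoid.powers a := by
    have := Subgroup.smul_mem_pointwise_smul _ (MulAut.conj g) _ (Subgroup.mem_zpowers y)
    exact mem_powers_iff_mem_zpowers.2 ((congrArg Sylow.toSubgroup hg).le this)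
  have h5 : ¬ 1093 ∣ k := fun h => h1 (by simpa [(h3 k).2 h] using hk.symm)
  have h6 := dm_eq hf hμ (pow_diag ha k)
  have h7 : ind 1093 k 0 = ind 1093 1 0 := funext fun n => by
    simp only [ind, one_mul, ← Int.dvd_iff_emod_eq_zero, (Nat.prime_iff_prime_int.1 hp).dvd_mul,
      Int.natCast_dvd_natCast, h5, false_or]
  rw [show a ^ k = _ from hk, dm, map_mul, map_mul, fs_conj, ES_ind, h7, ES_eq (by decide),
    show sl (ind 1093 1 0) (vals 1093 x93) = 10 by decide +kernel] at h6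
  exact Nat.cast_injective (R := ℤ) h6

theorem t547_X (s x : X) (e : s * x = x * s) (hx : x ^ 547 = 1) :
    3 ^ dm (rX L f) s ≡ 3 ^ finrank L.K ↥(fs (rX L f s) ⊓ fs (rX L f x)) [MOD 547] := by
  classical
  have : Fact (Nat.Prime 547) := ⟨by norm_num⟩
  obtain ⟨M, hM⟩ := Ev.D.exists_N L hf
  obtain ⟨ι, hι⟩ : ∃ ι, ι = ZMod.castHom (dvd_refl 3) L.K := ⟨_, rfl⟩
  rw [← hι] at hM
  let r : X →* End (ZMod 3) (Ix → ZMod 3) := (toLinAlgEquiv' (R := ZMod 3)).toMulEquiv.toMonoidHom.comp M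
  have r1 : ∀ x, r x = toLinAlgEquiv' (M x) := fun _ => rfl
  have r2 : ∀ x, rX L f x = toLinAlgEquiv' (ι.mapMatrix (M x)) := fun x => by
    rw [RingHom.mapMatrix_apply, hM]; rfl
  have k : ∀ A : Matrix Ix Ix (ZMod 3), finrank (ZMod 3) (fs (toLinAlgEquiv' A)) =
      finrank L.K (fs (toLinAlgEquiv' (ι.mapMatrix A))) := Ev.D.rk_ext ι
  have h1 := rk_inf ι (A := M s) (B := M x) (n := 547) (by rw [← map_mul, e, map_mul])
    (by rw [← map_pow, hx, map_one]) (by decide +kernel)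
  rw [← r1, ← r1, ← r2, ← r2] at h1
  rw [← h1, dm, r2, ← k, ← r1]
  have h3 := fix_mod (A := r s) (B := r x) (p := 547) (by rw [← map_mul, e, map_mul])
    (by rw [← map_pow, hx, map_one])
  rwa [Nat.card_zmod] at h3

end CF.Ez
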