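import Cfsg.Agent.Ez.B

/-! An element of order `40` in `E₈(3)` with centralizer of type `A₁⁴`: stabilizers of fixed vectors. -/

set_option autoImplicit false

namespace CF.Ez

open Module CF.E83 CF.Chev CF.BN CF.ExA Cfsg.Lie Finset CF.Geom.Sm Matrix
open CF.Ey (Ix brK fmK Inv ed Fm)
open CF.Ev (Ct aF mx wp_eq pos8)

namespace E5a

/-- The certificate. -/
def D : Ct where
  x := xs 7
  l := wd3 7
  J k := cond k [1, 2, 4, 6] []
  M := [[1, 0, 0, -1, 0, 1, 0, -1], [1, 0, 1, -2, 0, 2, 0, -2], [2, 0, 0, -2, 0, 2, 1, -3],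
    [3, 0, 0, -3, 0, 4, 0, -4], [3, 1, 0, -3, 0, 3, 0, -3], [3, 0, 0, -2, 0, 2, 0, -2],
    [2, 0, 0, -2, 1, 1, 0, -1], [1, 0, 0, -1, 0, 1, 0, 0]]
  P := [[1], [0, 1], [0, 0, 1], [0, 0, 0, 1], [0, 0, 0, 0, 1], [0, 0, 0, 0, 0, 1],
    [0, 0, 0, 0, 0, 0, 1], [0, 0, 0, 0, 0, 0, 0, 1]]
  L := [[1], [1, 2], [1, 0, 1], [3, 0, 0, 2], [29, 15, 5, -34, 45], [12, 0, 0, -7, 0, 15],
    [613, 93, 31, -603, 279, 123, 837], [11, 0, 0, -9, 0, 6, 0, 31]]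
  ms := [[], [1, 2, 4, 6]]
  T := 6400
  k := 80

/-- The roots of the centralizer. -/
abbrev Z (r : Fin 240) : Prop := xv 40 (gl D.x) r = 0

/-- The conditions on a root. -/
abbrev okR (r s : Fin 240) : Prop :=
  (∀ k, (Z r → ¬ cE8.InSub (D.S k) r → ∀ j ∈ D.S k, tabE8.car j r = 0) ∧
    (cE8.InSub (D.S k) s ∧ 120 ≤ s.1 ↔ cE8.InSub (D.S k) r ∧ 120 ≤ r.1)) ∧
  (cE8.InSub (D.S true) s ↔ cE8.InSub (D.S true) r) ∧
  (Z r → cE8.InSub (D.S true) r ∨ cE8.InSub (D.S false) r) ∧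
  (Z r → ∀ j, (¬ cE8.InSub (D.S true) r → 3 ∣ ∑ i : Fin 8, tabE8.car i r * mx D.P i j) ∧
    (¬ cE8.InSub (D.S false) r → 3 ∣ ∑ i : Fin 8, tabE8.car i r * mx D.P i j - tabE8.car j r)) ∧
  (120 ≤ s.1 ∧ Z s → 120 ≤ r.1 ∧ Z r) ∧ ∀ m ∈ D.ms, aF m s = aF D.l (aF m r) ∧
    (120 ≤ s.1 ∧ Z s → 120 ≤ (aF m r).1 → 120 ≤ (aF m s).1)

theorem ok : allLt 240 (fun r => force (aF D.l (Fin.ofNat 240 r)) fun s =>
    decide (okR (Fin.ofNat 240 r) (Fin.ofNat 240 s))) ∧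
  (∀ i j : Fin 8, MwT tabE8 (D.l.map Fin.val) i j = gd D.M i j) ∧
  (∀ i j, 3 ∣ (mx D.M * mx D.P) i j - (mx D.P * mx D.M) i j) ∧
  ((∀ i j : Fin 8, i < j → gd D.L i j = 0) ∧
    (∀ i j, j < i → (mx D.L * D.A) i j = 0) ∧ ∏ i, mx D.L i i ≠ 0 ∧
    (∏ i, mx D.L i i) * D.T = ∏ i, (mx D.L * D.A) i i) ∧
  (∀ m ∈ D.ms, ∀ j ∈ m, Z (cE8.simple j)) ∧
  (D.ms.map fun m => (List.finRange 8).map fun j => aF m (cE8.simple j)).Nodup ∧
  D.k * (D.bd true * D.bd false) < (D.ms.map fun m => 3 ^ #{r | 120 ≤ r.1 ∧ Z r} *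
    (D.T * 3 ^ #{r | (120 ≤ r.1 ∧ Z r) ∧ ¬ 120 ≤ (aF m r).1})).sum := by
  refine ⟨?_, ?_, ?_, ⟨?_, ?_, ?_, ?_⟩, ?_, ?_, ?_⟩ <;> decide +kernel

end E5a

variable {X : Type*} [Group X] {L : LS cE8 1 3 3 1 X} {f : L.G →* GL Ix L.K} (hf : L.ρ.IsAdHom f)
  {c : ℕ} {y u : X} {μ : L.Kˣ} {z : L.G}
include hf

open E5a in
theorem big7 (h : Mt L 7 y μ z) {v : Ix → L.K} (hv : frK L.K v = v) (e : rX L f y v = v) :
    80 < Nat.card {g // g * y = y * g ∧ rX L f g v = v} := by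
  obtain ⟨h1, h3, h4, h5, h6, h7, h8⟩ := ok
  obtain ⟨hμ, h9, e'⟩ := h
  replace h1 : ∀ r, okR r (cE8.wp D.l r) := fun r => by
    simpa only [force_eq, Fin.ofNat_val_eq_self, decide_eq_true_eq, ← wp_eq] using
      allLt_iff.1 h1 r r.2
  obtain ⟨c, hc⟩ : ∃ c, c = tc L μ (xs 7) := ⟨_, rfl⟩
  have hZ : ∀ r, rv cE8 c r = 1 ↔ Z r := fun r => by
    have := xv_eq (m := 40) (by decide) (gl (xs 7)) r
    rw [hc, rv_zp, ← orderOf_dvd_iff_zpow_eq_one, hμ, Z, show D.x = xs 7 from rfl]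
    omega
  have hP : ∀ r, r ∈ Psi cE8 c ↔ 120 ≤ r.1 ∧ Z r := fun r => and_congr (pos8 r) (hZ r)
  have hw : mp (Mw cE8 (cE8.wp D.l)) c = c ^ 3 := by
    rw [hc, mp_zpow, zp_pow', zp_iff hμ]; exact of_chkW (chk_wd 7 (by decide))
  have hM : Mw cE8 (cE8.wp D.l) = mx D.M := Matrix.ext fun i j => (tabOf8.Mw _ i j).trans (h3 i j)
  have hs : ∀ j r, cE8.sp j (cE8.vec r) = tabE8.car j r := fun j r => by
    rw [← cE8.A_simple, tabOf8.car]
  rw [← hc] at e'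
  have h11 := Ev.core L.frob L.big L.σ_x hf goodE8.conn (L := cE8.len 0)
    (fun r => (one_mul _).trans (sameLenE8 r _)) (fun h => by
        have : (3 : L.K) = 0 := CharP.cast_eq_zero L.K 3
        exact one_ne_zero (α := L.K) (by linear_combination this - h)) hw h9 (congrFun hv) (e' ▸ e)
    (J := D.S) (P := mx D.P) (fun k r hr h j hj => (hs j r).trans (((h1 r).1 k).1 ((hZ r).1 hr) h j hj))
    (fun k r => by simpa only [pos8] using ((h1 r).1 k).2) (fun r => (h1 r).2.1)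
    (fun r hr => (h1 r).2.2.1 ((hZ r).1 hr)) (hM ▸ h4)
    (fun r hr => by simpa only [hs, Nat.cast_ofNat] using (h1 r).2.2.2.1 ((hZ r).1 hr))
    (m := fun i : Fin D.ms.length => D.ms[i.1])
    (fun i j hj => (hZ _).2 (h6 _ (List.getElem_mem _) j hj))
    (fun i => Equiv.ext fun r => by
      have := ((h1 r).2.2.2.2.2 _ (List.getElem_mem i.2)).1
      rw [← wp_eq, ← wp_eq, ← wp_eq] at this
      rw [Equiv.Perm.mul_apply, Equiv.Perm.mul_apply]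
      generalize D.l = l at this ⊢
      exact this)
    (fun i j e => Fin.ext ((List.Nodup.getElem_inj_iff h7 (hi := by simp) (hj := by simp)).1 (by
      simp only [List.getElem_map, ← wp_eq, show cE8.wp D.ms[i.1] = _ from e])))
    (fun r hr => (hP r).2 ((h1 r).2.2.2.2.1 ((hP _).1 hr)))
    (fun i r hr => by
      simpa only [pos8, wp_eq] using ((h1 r).2.2.2.2.2 _ (List.getElem_mem i.2)).2 ((hP _).1 hr))
    (N := fun k => #{r | cE8.InSub (D.S k) r ∧ 120 ≤ r.1}) (j := fun k => #{i | i ∈ D.S k})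
    (fun k => by rw [← Set.ncard_coe_finset]; simp [pos8])
    (fun k => by rw [← Set.ncard_coe_finset]; simp)
  have h12 := card_WTor (K := L.K) (q := 3) (by decide) L.cast_q (cE8.wp_mem_Aut D.l)
  rw [hM, Nat.cast_ofNat, ← Ct.A, Ev.det_cert (L := mx D.L) h5, Nat.cast_inj] at h12
  rw [← Fin.sum_univ_fun_getElem] at h8
  simp only [← Set.ncard_coe_finset, coe_filter, mem_univ, true_and, ← wp_eq, ← pos8] at h8
  simp only [pos8, ← hP] at h8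
  simp only [pos8, h12] at h11
  have : Finite (Fx L.T.σ) := L.frob.finite
  have : Finite X := Finite.of_surjective _ L.surj
  refine (lt_of_mul_lt_mul_right (h8.trans_le h11) (Nat.zero_le _)).trans_le
    (Nat.card_le_card_of_injective (fun g => ⟨L.θ ⟨g, g.2.1⟩, jG_inj L ?_, ?_⟩) fun a b e => ?_)
  · rw [map_mul, map_mul, jG_θ, e']; exact g.2.2.1
  · rw [MonoidHom.comp_apply, jG_θ]; exact g.2.2.2
  · exact Subtype.ext (Subtype.mk.inj ((θ_bij L).1 (congrArg Subtype.val e)))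

end CF.Ez
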