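import Cfsg.Agent.Ez.B
import Cfsg.Agent.BN.Ss2

/-! The regular elements of order `40` of `E₈(3)` in coordinates. -/

set_option autoImplicit false

namespace CF.Ez

open Module CF.E83 CF.Chev CF.BN CF.ExA Cfsg.Lie Finset CF.Geom.Sm Matrix Sum
open CF.Ey (Ix brK fmK Inv ed Fm brK_apply)
open CF.Ey.E3 (ev ev_apply)

namespace E6a

section
variable {K : Type*} [Field K] (u v : Ix → K)

theorem br_inl (i : Fin 8) : brK K u v (inl i) =
    ∑ r, u (inr r) * v (inr (cE8.neg r)) * (cE8.cov r i : K) := by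
  rw [brK_apply, cE8.ad_apply, sum_mulVec, Finset.sum_apply, Fintype.sum_sum_type,
    sum_eq_zero fun j _ => by simp [smul_mulVec, cE8.br_inl, mulVec_diagonal], zero_add]
  refine sum_congr rfl fun r _ => ?_
  simp [smul_mulVec, cE8.br_inr, mulVec, dotProduct, LieBasis.E, RootSys.EZ, mul_assoc, mul_comm, mul_left_comm]

theorem ev_br (b : Fin 240) : ev K b (brK K u v) =
    ∑ r, u (inr r) * v (inr (cE8.neg r)) * (cE8.A r b : K) := by
  simp only [ev_apply, br_inl, mul_sum, cE8.A_def, cE8.cor_apply, Int.cast_sum, Int.cast_mul]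
  rw [sum_comm]
  exact sum_congr rfl fun r _ => sum_congr rfl fun i _ => by ring

variable {u}

theorem br_tor (hu : ∀ r, u (inr r) = 0) (r : Fin 240) : brK K u v (inr r) = ev K r u * v (inr r) := by
  rw [brK_apply, cE8.ad_apply, sum_mulVec, Finset.sum_apply, Fintype.sum_sum_type]
  simp [hu, smul_mulVec, cE8.br_inl, mulVec_diagonal, ev_apply, sum_mul, mul_assoc, mul_left_comm]

theorem br_tor' (hu : ∀ r, u (inr r) = 0) (i : Fin 8) : brK K u v (inl i) = 0 := by
  simp [br_inl, hu]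

end

/-- Dual vectors. -/
def dl (c : ℕ) : List (ℕ × ℕ) := if c = 2 then [(120, 16384), (121, 4096), (123, 1024), (126, 256), (130, 64),
  (135, 16), (141, 4), (122, 6548), (124, 1640), (127, 404), (131, 104), (136, 16), (142, 4), (140, 2569),
  (146, 1057), (150, 2454), (153, 2114), (165, 2304), (169, 1537), (8, 4112), (183, 4098), (192, 145),
  (196, 6168), (197, 1090), (205, 6), (12, 1542), (16, 512), (203, 2308), (212, 2432), (215, 2408), (219, 2074),
  (129, 384), (133, 2409), (138, 1554), (144, 1540), (148, 2304), (163, 1), (5, 9), (180, 2086), (181, 1032),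
  (187, 514), (189, 408), (194, 74), (0, 2090), (151, 162), (154, 2666), (156, 2330), (166, 2054), (170, 2064)]
  else [(0, 2048), (121, 4096), (126, 1280), (130, 64), (135, 2064), (141, 4), (162, 1025)]

/-- A coordinate of a dual vector. -/
def dv (c r i : ℕ) : ℤ := (((dl c).lookup r).getD 0 / 4 ^ i % 4 : ℕ)

theorem chk : ∀ a ∈ [(2, 1), (2, 2), (2, 6), (2, 14), (2, 18), (2, 4), (2, 12), (2, 7), (6, 1)], ∀ r < 240,
    xv 40 (gl (xs a.1)) r = a.2 → ∀ s < 240, xv 40 (gl (xs a.1)) s = a.2 →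
      (∑ i : Fin 8, dv a.1 r i * tabE8.cov s i) % 3 = if s = r then 1 else 0 := by decide +kernel

theorem reg : ∀ c ∈ [2, 6], ∀ r < 240, xv 40 (gl (xs c)) r ≠ 0 := by decide +kernel

theorem ind {K : Type*} [Field K] [CharP K 3] {c k : ℕ}
    (h : (c, k) ∈ [(2, 1), (2, 2), (2, 6), (2, 14), (2, 18), (2, 4), (2, 12), (2, 7), (6, 1)])
    {l : Fin 240 → K} (h0 : ∀ r : Fin 240, xv 40 (gl (xs c)) r ≠ k → l r = 0)
    (h1 : ∀ i, ∑ r, l r * (cE8.cov r i : K) = 0) (r : Fin 240) : l r = 0 := by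
  by_contra n
  have e : ∑ s, l s * ((∑ i : Fin 8, dv c r i * cE8.cov s i : ℤ) : K) = 0 := by
    simp only [Int.cast_sum, Int.cast_mul, mul_sum, mul_left_comm (l _)]
    rw [sum_comm]
    simp only [← mul_sum, h1, mul_zero, sum_const_zero]
  have k' : ∀ s, l s ≠ 0 → ((∑ i : Fin 8, dv c r i * cE8.cov s i : ℤ) : K) = if s = r then 1 else 0 := fun s hs => by
    have := chk _ h r r.2 (not_not.1 (mt (h0 r) n)) s s.2 (not_not.1 (mt (h0 s) hs))
    simp only [← tabOf8.cov, Fin.val_inj] at this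
    rw [← Int.mul_ediv_add_emod (∑ i : Fin 8, _) 3, this, Int.cast_add, Int.cast_mul,
      show ((3 : ℤ) : K) = 0 by exact_mod_cast CharP.cast_eq_zero K 3]
    split_ifs <;> simp
  rw [sum_eq_single r (fun s _ hs => by by_cases a : l s = 0 <;> simp [a, k', hs]) (by simp), k' r n] at e
  exact n (by simpa using e)

variable {X : Type*} [Group X] {L : LS cE8 1 3 3 1 X} {f : L.G →* GL Ix L.K}
  {c : ℕ} {y u : X} {μ : L.Kˣ} {z n : L.G} {w : Equiv.Perm (Fin 240)}

theorem cc (g : L.G) (v : Ix → L.K) : RR f g (RR f g⁻¹ v) = v := by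
  rw [← End.mul_apply, ← map_mul, mul_inv_cancel, map_one, End.one_apply]

theorem inj (g : L.G) : Function.Injective (RR f g) := Function.LeftInverse.injective (g := RR f g⁻¹) fun v => by
  simpa using cc (f := f) g⁻¹ v

theorem cj (g x : L.G) (v : Ix → L.K) : RR f x (RR f g v) = RR f g (RR f (g⁻¹ * x * g) v) := by
  simp only [← End.mul_apply, ← map_mul, ← mul_assoc, mul_inv_cancel, one_mul]

theorem rv_eq (h : orderOf μ = 40) (x : List ℤ) (r : Fin 240) :
    rv cE8 (tc L μ x) r = μ ^ xv 40 (gl x) r := by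
  rw [rv_zp, ← zpow_natCast, xv_eq (by decide), ← h, zpow_mod_orderOf]

theorem nw_X (hc : c = 2 ∨ c = 6) (h : Mt L c y μ z) (e : u * y * u⁻¹ = y⁻¹) :
    L.ρ.NW (z⁻¹ * jG L u * z) (cE8.wp w0) := by
  have := (StRep.nW_of_mem_H (mem_H_of_reg L.h (tc_fin h.ord _) (fun r a => by
    have := xv_eq (m := 40) (by decide) (gl (xs c)) r
    rw [rv_eq h.ord, ← orderOf_dvd_iff_pow_eq_one, h.ord] at a
    have := reg c (by simpa) r r.2
    omega) (h.inv e))).mul (StRep.nW_nw w0)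
  simpa using this

variable (hf : L.ρ.IsAdHom f)
include hf

theorem tor_v (d : Fin 8 → L.Kˣ) (v : Ix → L.K) (a : Ix) :
    RR f (L.h.r3.tor d) v a = ((cE8.torChar d).ev (cE8.wt a) : L.K) * v a := by
  change ((f _).val *ᵥ v) a = _
  rw [ad_tor _ hf, LieBasis.val_tG, LieBasis.TM, mulVec_diagonal]

theorem brG (g : L.G) (u v : Ix → L.K) : RR f g (brK L.K u v) = brK L.K (RR f g u) (RR f g v) := by
  have : cE8.IsAut (f g).val := L.ρ.U_induction (p := fun g => cE8.IsAut (f g).val)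
    (by simpa using cE8.isAut_one) (fun g r t _ _ ih => by
      rw [map_mul, Units.val_mul, hf, LieBasis.val_xG]
      exact ih.mul (cE8.isAut_X r t)) (L.h.top ▸ Subgroup.mem_top g)
  rw [brK_apply, brK_apply]
  change (f g).val *ᵥ _ = cE8.ad _ ((f g).val *ᵥ u) *ᵥ (f g).val *ᵥ v
  rw [mulVec_mulVec, mulVec_mulVec, this]

theorem coord (hn : L.ρ.NW n w) : ∃ γ : Fin 240 → L.K, (∀ r, γ r ≠ 0) ∧ ∀ v : Ix → L.K,
    (∀ i, RR f n v (inl i) = ∑ j, (Mw cE8 w i j : L.K) * v (inl j)) ∧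
      ∀ s, RR f n v (inr (w s)) = γ s * v (inr s) := by
  obtain ⟨γ, h⟩ := Ev.nw_coord hf hn
  refine ⟨γ, fun r e => ?_, h⟩
  have : RR f n (Pi.single (inr r) 1) = RR f n 0 := by
    rw [map_zero]
    funext a
    rcases a with i | s
    · exact ((h _).1 i).trans (by simp)
    · obtain ⟨s, rfl⟩ := w.surjective s
      refine ((h _).2 s).trans ?_
      by_cases k : s = r <;> simp [k, e]
  simpa using congrFun (inj n this) (inr r)

end E6a

open E6a

variable {X : Type*} [Group X] {L : LS cE8 1 3 3 1 X} {f : L.G →* GL Ix L.K} (hf : L.ρ.IsAdHom f)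
  {c : ℕ} {y u : X} {μ : L.Kˣ} {z : L.G}
include hf

/-- The monomial form in the regular cases. -/
theorem mono_X (hc : c = 2 ∨ c = 6) (h : Mt L c y μ z) (e : u * y * u⁻¹ = y⁻¹) :
    ∃ γ : Fin 240 → L.K, (∀ r, γ r ≠ 0) ∧ ∀ v : Ix → L.K,
      (∀ i, RR f (z⁻¹ * jG L u * z) v (.inl i) = -v (.inl i)) ∧
      ∀ r, RR f (z⁻¹ * jG L u * z) v (.inr (cE8.neg r)) = γ r * v (.inr r) := by
  obtain ⟨γ, a, b⟩ := coord hf (nw_X hc h e)
  refine ⟨γ, a, fun v => ⟨fun i => ?_, fun r => w0_eq r ▸ (b v).2 r⟩⟩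
  rw [(b v).1, Mw_w0]
  simp [one_apply]

theorem eig_X (h : Mt L c y μ z) (k : ℕ) (v : Ix → L.K) :
    RR f z v ∈ (rX L f y).eigenspace ((μ : L.K) ^ k) ↔ (k % 40 ≠ 0 → ∀ i, v (.inl i) = 0) ∧
      ∀ r : Fin 240, xv 40 (gl (xs c)) r ≠ k % 40 → v (.inr r) = 0 := by
  have e : ∀ j < 40, ((μ : L.K) ^ j = (μ : L.K) ^ k ↔ j = k % 40) := fun j hj => by
    rw [← Units.val_pow_eq_pow_val, ← Units.val_pow_eq_pow_val, Units.val_inj, pow_eq_pow_iff_modEq, h.ord,
      Nat.ModEq, Nat.mod_eq_of_lt hj]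
  rw [End.mem_eigenspace_iff, MonoidHom.comp_apply, cj, h.eq, ← map_smul, (inj z).eq_iff,
    show z⁻¹ * (z * _ * z⁻¹) * z = L.h.r3.tor (tc L μ (xs c)) by group, funext_iff, Sum.forall]
  simp only [tor_v hf, Pi.smul_apply, smul_eq_mul, mul_eq_mul_right_iff]
  refine and_congr ?_ (forall_congr' fun r => ?_)
  · have := e 0 (by decide)
    simp only [RootSys.wt_inl, Char.ev_zero, Units.val_one, pow_zero] at this ⊢
    rw [this, forall_or_left, or_iff_not_imp_left, eq_comm]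
  · have := xv_eq (m := 40) (by decide) (gl (xs c)) r
    rw [RootSys.wt_inr, show (cE8.torChar _).ev _ = _ from rv_eq h.ord (xs c) r, Units.val_pow_eq_pow_val,
      e _ (by omega), or_iff_not_imp_left]

theorem E6a.zero_of {k : ℕ}
    (hk : (c, k) ∈ [(2, 1), (2, 2), (2, 6), (2, 14), (2, 18), (2, 4), (2, 12), (2, 7), (6, 1)])
    (h : Mt L c y μ z) (e : u * y * u⁻¹ = y⁻¹) {v : Ix → L.K}
    (hv : v ∈ (rX L f y).eigenspace ((μ : L.K) ^ k)) (b : brK L.K v (rX L f u v) = 0) : v = 0 := by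
  have hc : (c = 2 ∨ c = 6) ∧ k % 40 = k ∧ k ≠ 0 := by
    simp only [List.mem_cons, Prod.mk.injEq, List.not_mem_nil, or_false] at hk; omega
  obtain ⟨γ, g0, g1⟩ := mono_X hf hc.1 h e
  obtain ⟨v, rfl⟩ : ∃ v', v = RR f z v' := ⟨_, (cc z v).symm⟩
  rw [eig_X hf h, hc.2.1] at hv
  rw [MonoidHom.comp_apply, cj, ← brG hf, map_eq_zero_iff _ (inj z)] at b
  rw [show v = 0 from funext fun a => ?_, map_zero]
  rcases a with i | r
  · exact hv.1 hc.2.2 i
  have := ind hk (l := fun r => v (inr r) * (γ r * v (inr r))) (fun r a => by simp [hv.2 r a]) (fun i => by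
    simpa only [br_inl, (g1 v).2, Pi.zero_apply] using congrFun b (inl i)) r
  simpa [g0] using this

theorem nz_X (h : Mt L 2 y μ z) (e : u * y * u⁻¹ = y⁻¹) : Nz (rX L f) (brK L.K) y u μ :=
  fun k hk _ hv b => E6a.zero_of hf (by
    exact List.mem_of_mem_tail (List.mem_append_left [(6, 1)] (List.mem_map_of_mem (f := Prod.mk 2) hk))) h e hv b

end CF.Ez
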