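import Cfsg.Agent.Ez.E5a
import Cfsg.Agent.Ez.E6a

/-! An element of order `40` in `E₈(3)` with centralizer of type `A₁⁴`: the common fixed space. -/

set_option autoImplicit false

namespace CF.Ez

open Module CF.E83 CF.Chev CF.BN CF.ExA Cfsg.Lie Finset CF.Geom.Sm Matrix Sum
open CF.Ey (Ix brK fmK Inv ed Fm)
open CF.Ey.E3 (ev ev_apply ev_neg)
open CF.Ev (Wc Dm Ort orb_mem Dm_of aF wp_eq)

namespace E5b

theorem cent_mem {B ι : Type} [Fintype B] [DecidableEq B] [Fintype ι] [DecidableEq ι] {C : ChevBasis B ι}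
    {K : Type*} [Field K] {G : Type*} [Group G] {ρ : StRep C K G} (h : Univ ρ) {c : B → Kˣ}
    (hc : IsOfFinOrder c) {g : G} (hg : Commute g (h.r3.tor c)) : g ∈ ρ.U {r | rv C c r = 1} ⊔ ρ.H := by
  obtain ⟨w, hw, u, hu, n, hn, u', hu', rfl⟩ := h.cent_decomp hg
  obtain ⟨m, hm, hm'⟩ := Wt_ind hc (P := fun w => ∃ m ∈ ρ.U {r | rv C c r = 1}, ρ.NW m w)
    ⟨1, one_mem _, StRep.nW_one⟩ (fun a _ ha w _ ⟨m, hm, hm'⟩ => ⟨ρ.n a 1 * m,
      mul_mem (ρ.n_mem_U ha (by simp [rv_neg, ha]) 1) hm, (StRep.nW_n a 1).mul hm'⟩) w hw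
  refine mul_mem (mul_mem (Subgroup.mem_sup_left (ρ.U_mono (fun _ h => h.2) hu)) ?_)
    (Subgroup.mem_sup_left (ρ.U_mono (fun _ h => h.1.2) hu'))
  simpa using mul_mem (Subgroup.mem_sup_right (hn.mul_inv_mem_H hm')) (Subgroup.mem_sup_left hm)

theorem descend {I K : Type*} [Fintype I] [Field K] [CharP K 3] {u : I → K} (h : u ≠ 0) :
    ∃ v : I → K, v ≠ 0 ∧ (∀ a, v a ^ 3 = v a) ∧ ∀ M : Matrix I I (ZMod 3),
      M.map (ZMod.castHom (dvd_refl 3) K) *ᵥ u = u → M.map (ZMod.castHom (dvd_refl 3) K) *ᵥ v = v := by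
  let _ := ZMod.algebra K 3
  obtain ⟨i, hi⟩ := Function.ne_iff.1 h
  obtain ⟨φ, hφ⟩ := not_forall.1 (mt (forall_dual_apply_eq_zero_iff (ZMod 3) (u i)).1 hi)
  refine ⟨fun a => ZMod.castHom (dvd_refl 3) K (φ (u a)), Function.ne_iff.2 ⟨i, (map_ne_zero _).2 hφ⟩,
    fun a => by rw [← map_pow, ZMod.pow_card], fun M e => funext fun a => ?_⟩
  rw [← congrFun e a]
  simp only [mulVec, dotProduct, map_sum, map_apply, ← map_mul]
  exact sum_congr rfl fun b _ => congrArg _ (φ.map_smul (M a b) (u b)).symm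

/-- The components. -/
def jj : Fin 4 → Fin 8 := ![1, 4, 6, 2]

/-- The roots of a component. -/
def In (j : Fin 4) (r : Fin 240) : Prop := ∀ i : Fin 8, i ≠ jj j → tabE8.vec r i = 0

instance instDecIn (j : Fin 4) (r : Fin 240) : Decidable (In j r) :=
  inferInstanceAs (Decidable (∀ i : Fin 8, i ≠ jj j → tabE8.vec r i = 0))

/-- The simple root of a component. -/
noncomputable abbrev al (j : Fin 4) : Fin 240 := cE8.simple (jj j)

theorem in_iff {j : Fin 4} {r : Fin 240} : cE8.InSub {jj j} r ↔ In j r := by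
  simp only [RootSys.InSub, tabOf8.vec, Set.mem_singleton_iff, In]

theorem sp_eq (j : Fin 8) (r : Fin 240) : cE8.sp j (cE8.vec r) = tabE8.car j r := by
  rw [← cE8.A_simple, tabOf8.car]

theorem d1 : ∀ r : Fin 240, (xv 40 (gl (xs 7)) r = 0 ↔ ∃ j, In j r) ∧ (∃ i : Fin 8, tabE8.vec r i ≠ 0) ∧
    ∀ j, (In j (aF w0 r) ↔ In j r) ∧ (In (j + 1) (aF (wd3 7) r) ↔ In j r) ∧
    (In j r ↔ r = al j ∨ r = cE8.neg (al j)) ∧ ∀ k, In k r → k ≠ j → tabE8.car (jj j) r = 0 ∧ ¬ In j r := by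
  simp only [Fin.ext_iff (n := 240), tabOf8.neg, tabOf8.sim, forall_and]
  refine ⟨?_, ?_, ?_, ?_, ?_, ?_⟩ <;> decide +kernel

theorem d2 : ∀ (j : Fin 4) (i l : Fin 8), (if i = jj (j + 1) then
    ∑ m : Fin 8, tabE8.car m (tabE8.sim (jj (j + 1))) * gd E5a.D.M m l else 0) =
      gd E5a.D.M i (jj j) * tabE8.car l (tabE8.sim (jj j)) := by decide +kernel

variable (K : Type*) [Field K]

/-- The projections. -/
noncomputable def pj (j : Fin 4) : End K (Ix → K) := LinearMap.pi (Sum.elim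
  (fun i => if i = jj j then -ev K (al j) else 0) fun r => if In j r then .proj (inr r) else 0)

/-- The components. -/
abbrev SS (j : Fin 4) : Submodule K (Ix → K) := Wc K {jj j} {r | cE8.InSub {jj j} r}

/-- The roots of the centralizer. -/
abbrev R0 : Set (Fin 240) := {r | xv 40 (gl (xs 7)) r = 0}

variable {K} {j k : Fin 4} {v : Ix → K}

theorem pj_inl (i : Fin 8) : pj K j v (inl i) = if i = jj j then -ev K (al j) v else 0 := by
  rw [pj, LinearMap.pi_apply, elim_inl]; split_ifs <;> rfl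

theorem pj_inr (r : Fin 240) : pj K j v (inr r) = if In j r then v (inr r) else 0 := by
  rw [pj, LinearMap.pi_apply, elim_inr]; split_ifs <;> rfl

theorem pj_mem : pj K j v ∈ SS K j :=
  ⟨fun i h => (pj_inl i).trans (if_neg h), fun r h => (pj_inr r).trans (if_neg (mt in_iff.2 h))⟩

theorem ev_SS (h : v ∈ SS K k) (r : Fin 240) : ev K r v = tabE8.car (jj k) r * v (inl (jj k)) := by
  rw [ev_apply, sum_eq_single (jj k) (fun i _ e => by rw [h.1 i e, mul_zero]) (by simp), sp_eq]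

theorem in_al : In j (al j) := (((d1 _).2.2 j).2.2.1).2 (.inl rfl)

theorem pj_ne (h : v ∈ SS K k) (e : j ≠ k) : pj K j v = 0 := funext fun a => by
  rcases a with i | r
  · rw [pj_inl, ev_SS h, (((d1 _).2.2 k).2.2.2 j in_al e).1]; simp
  · rw [pj_inr]
    split_ifs with a
    exacts [h.2 r (mt in_iff.1 (((d1 _).2.2 k).2.2.2 j a e).2), rfl]

theorem ort : Ort cE8 {jj j} R0 := by
  rintro r hr h _ rfl
  obtain ⟨k, a⟩ := (d1 r).1.1 hr
  exact (sp_eq _ r).trans (((d1 r).2.2 j).2.2.2 k a fun e => h (in_iff.2 (e ▸ a))).1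

theorem pj_V0 (r : Fin 240) (h : r ∉ R0) : pj K j v (inr r) = 0 :=
  (pj_inr r).trans (if_neg fun a => h ((d1 r).1.2 ⟨j, a⟩))

theorem rt0 (h : ∀ r ∉ R0, v (inr r) = 0) (e : ∀ j, pj K j v = 0) (r : Fin 240) : v (inr r) = 0 := by
  by_contra n
  obtain ⟨j, a⟩ := (d1 r).1.1 (not_not.1 (mt (h r) n))
  exact n ((if_pos a).symm.trans ((pj_inr r).symm.trans (congrFun (e j) _)))

theorem pj_nw {G : Type*} [Group G] {f : G →* GL Ix K} {n : G} {w : Equiv.Perm (Fin 240)} {γ : Fin 240 → K}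
    (h : ∀ v : Ix → K, (∀ i, RR f n v (inl i) = ∑ j, (Mw cE8 w i j : K) * v (inl j)) ∧
      ∀ s, RR f n v (inr (w s)) = γ s * v (inr s)) (h1 : ∀ s, In k (w s) ↔ In j s)
    (h2 : ∀ i l, (if i = jj k then ∑ m, cE8.sp m (cE8.vec (al k)) * Mw cE8 w m l else 0) =
      Mw cE8 w i (jj j) * cE8.sp l (cE8.vec (al j))) : pj K k (RR f n v) = RR f n (pj K j v) := funext fun a => by
  rcases a with i | r
  · rw [(h _).1, sum_eq_single (jj j) (fun l _ e => by rw [pj_inl, if_neg e, mul_zero]) (by simp), pj_inl, pj_inl,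
      if_pos rfl, ev_apply, ev_apply, mul_neg, mul_sum]
    simp only [← mul_assoc, ← Int.cast_mul, ← h2, (h _).1, mul_sum]
    split_ifs
    · rw [sum_comm]; simp only [Int.cast_sum, sum_mul]
    · simp
  · obtain ⟨s, rfl⟩ := w.surjective r
    simp only [(h _).2, pj_inr, h1, mul_ite, mul_zero]

variable [CharP K 3]

theorem pj_eq (h : v ∈ SS K j) : pj K j v = v := funext fun a => by
  rcases a with i | r
  · rw [pj_inl, ev_SS h, ← tabOf8.car, cE8.A_self]
    split_ifs with e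
    · have : (3 : K) = 0 := CharP.cast_eq_zero K 3
      rw [e]; push_cast; linear_combination -v (inl (jj j)) * this
    · exact (h.1 i e).symm
  · rw [pj_inr]
    split_ifs with a
    exacts [rfl, (h.2 r (mt in_iff.1 a)).symm]

theorem pj_sum {x : Fin 4 → Ix → K} (h : ∀ k, x k ∈ SS K k) : pj K j (∑ k, x k) = x j := by
  rw [map_sum, sum_eq_single j (fun k _ e => pj_ne (h k) e.symm) (by simp), pj_eq (h j)]

theorem pj_fr : pj K j (frK K v) = frK K (pj K j v) := funext fun a => by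
  rcases a with i | r
  · show _ = frobenius K 3 _
    rw [pj_inl, pj_inl, apply_ite (frobenius K 3), map_zero, map_neg, ev_apply, ev_apply, map_sum]
    simp only [map_mul, map_intCast]; rfl
  · show _ = frobenius K 3 _
    rw [pj_inr, pj_inr, apply_ite (frobenius K 3), map_zero]; rfl

variable {G : Type*} [Group G] {ρ : StRep cE8 K G} {f : G →* GL Ix K} (hf : ρ.IsAdHom f) {g : G}
  (hg : g ∈ ρ.U R0 ⊔ ρ.H) (h : ∀ r ∉ R0, v (inr r) = 0)
include hf hg h

omit [CharP K 3] in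
theorem fix0 (e : ∀ j, pj K j v = 0) : RR f g v = v := by
  have := orb_mem hf sameLenE8 (J := ∅) (fun _ _ _ _ h => h.elim) hg (v := v) ⟨fun r _ => rt0 h e r, fun r hr _ => by
    obtain ⟨j, a⟩ := (d1 r).1.1 hr
    have : ev K (al j) v = 0 := neg_eq_zero.1 ((if_pos rfl).symm.trans ((pj_inl _).symm.trans (congrFun (e j) _)))
    rw [← ev_apply]
    rcases ((d1 r).2.2 j).2.2.1.1 a with rfl | rfl
    exacts [this, by rw [ev_neg, this, neg_zero]]⟩
  refine sub_eq_zero.1 (funext fun a => ?_)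
  rcases a with i | r
  · exact this.1 i id
  · exact this.2 r fun a => (d1 r).2.1.elim fun i n => n (tabOf8.vec r i ▸ a i id)

theorem pj_g : pj K j (RR f g v) = RR f g (pj K j v) := by
  have a : ∀ k, RR f g (pj K k v) ∈ SS K k := fun k => by
    have := add_mem (orb_mem hf sameLenE8 ort hg (v := pj K k v) (Dm_of ort (v := 0) ⟨by simp, by simp⟩
      (by simpa using pj_mem))) (pj_mem (v := v))
    rwa [sub_add_cancel] at this
  have b : ∀ k, pj K k (v - ∑ k, pj K k v) = 0 := fun k => by rw [map_sub, pj_sum fun _ => pj_mem, sub_self]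
  have c := fix0 hf hg (v := v - ∑ k, pj K k v) (fun r hr => by simp [h r hr, pj_V0 r hr]) b
  rw [map_sub, sub_eq_iff_eq_add, map_sum] at c
  rw [c, map_add, b, pj_sum a, zero_add]

end E5b

variable {X : Type*} [Group X] {L : LS cE8 1 3 3 1 X} {f : L.G →* GL Ix L.K} (hf : L.ρ.IsAdHom f)
  {c : ℕ} {y u : X} {μ : L.Kˣ} {z : L.G}
include hf

open E5b E6a in
theorem c7_X (h : Mt L 7 y μ z) : C7 (rX L f) y := fun u e d => by
  have cm {g : L.G} (k : Commute g (L.h.r3.tor (tc L μ (xs 7)))) : g ∈ L.ρ.U R0 ⊔ L.ρ.H := by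
    have := cent_mem L.h (tc_fin h.ord _) k
    rwa [show {r | rv cE8 (tc L μ (xs 7)) r = 1} = R0 from Set.ext fun r => by
      have := xv_eq (m := 40) (by decide) (gl (xs 7)) r
      rw [Set.mem_setOf, rv_eq h.ord, ← orderOf_dvd_iff_pow_eq_one, h.ord, Set.mem_setOf]
      omega] at this
  have m0 (v : Ix → L.K) : RR f z v ∈ fs (rX L f y) ↔ ∀ r ∉ R0, v (inr r) = 0 := by
    have := eig_X hf h 0 v
    rw [End.mem_eigenspace_iff, pow_zero, one_smul] at this
    simpa using mem_fs.trans this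
  obtain ⟨v0, a0, n0⟩ := Submodule.exists_mem_ne_zero_of_ne_bot (p := fs (rX L f y) ⊓ fs (rX L f u))
    fun k => by rw [k, finrank_bot] at d; omega
  obtain ⟨N, hN⟩ := Ev.D.exists_N L hf
  obtain ⟨v1, n1, r1, k1⟩ := descend n0
  replace k1 {x : X} (a : v0 ∈ fs (rX L f x)) : v1 ∈ fs (rX L f x) := by
    have := k1 (N x)
    rw [hN] at this
    exact mem_fs.2 (this (mem_fs.1 a))
  obtain ⟨v, rfl⟩ : ∃ v, v1 = RR f z v := ⟨_, (cc z v1).symm⟩
  have a1 := (m0 v).1 (k1 a0.1)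
  obtain ⟨γ, -, g0⟩ := coord hf (StRep.nW_nw (ρ := L.ρ) w0)
  obtain ⟨δ, -, g1⟩ := coord hf (StRep.nW_nw (ρ := L.ρ) (wd3 7))
  have fx {x : X} {w : Ix → L.K} : RR f z w ∈ fs (rX L f x) ↔ RR f (z⁻¹ * jG L x * z) w = w := by
    rw [mem_fs, MonoidHom.comp_apply, cj, (inj z).eq_iff]
  have a2 := fx.1 (k1 a0.2)
  have eu (w : Ix → L.K) : RR f (z⁻¹ * jG L u * z) w =
      RR f (z⁻¹ * jG L u * z * (L.ρ.nw w0)⁻¹) (RR f (L.ρ.nw w0) w) := by
    rw [← End.mul_apply, ← map_mul, inv_mul_cancel_right]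
  have p0 (j : Fin 4) : pj L.K j (RR f (L.ρ.nw w0) v) = RR f (L.ρ.nw w0) (pj L.K j v) :=
    pj_nw g0 (fun s => wp_eq w0 s ▸ ((d1 s).2.2 j).1) fun i l => by
      rw [Mw_w0]; by_cases k : i = jj j <;> simp [k, one_apply]
  have p1 (j : Fin 4) : frK L.K (pj L.K (j + 1) v) = RR f (L.ρ.nw (wd3 7)) (pj L.K j v) := by
    have := (h.fr hf v).symm.trans (funext r1)
    rw [← pj_fr, ← cc (f := f) (L.ρ.nw (wd3 7)) (frK L.K v), inj z this]
    exact pj_nw g1 (fun s => wp_eq (wd3 7) s ▸ ((d1 s).2.2 j).2.1) fun i l => by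
      have e : ∀ i j : Fin 8, Mw cE8 (cE8.wp (wd3 7)) i j = gd E5a.D.M i j := fun i j =>
        (tabOf8.Mw _ i j).trans (E5a.ok.2.1 i j)
      simpa only [sp_eq, e, tabOf8.sim] using d2 j i l
  have a3 : ∀ r ∉ R0, RR f (L.ρ.nw w0) v (inr r) = 0 := fun r hr => by
    obtain ⟨s, rfl⟩ := (cE8.wp w0).surjective r
    rw [(g0 v).2, a1 s fun k => hr ?_, mul_zero]
    obtain ⟨j, k⟩ := (d1 s).1.1 k
    exact (d1 _).1.2 ⟨j, wp_eq w0 s ▸ ((d1 s).2.2 j).1.2 k⟩
  have nz (j : Fin 4) : pj L.K j v ≠ 0 := fun k => by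
    have s {j : Fin 4} (k : pj L.K j v = 0) : pj L.K (j + 1) v = 0 := funext fun a => by
      have := p1 j
      rw [k, map_zero] at this
      exact eq_zero_of_pow_eq_zero (n := 3) (congrFun this a)
    have k' : ∀ i, pj L.K i v = 0 := fun i => by
      have : i = j ∨ i = j + 1 ∨ i = j + 1 + 1 ∨ i = j + 1 + 1 + 1 := by omega
      rcases this with rfl | rfl | rfl | rfl
      exacts [k, s k, s (s k), s (s (s k))]
    have e0 : RR f (L.ρ.nw w0) v = -v := funext fun a => by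
      rcases a with i | r
      · rw [(g0 v).1, Mw_w0]; simp [one_apply]
      · obtain ⟨s, rfl⟩ := (cE8.wp w0).surjective r
        simp [(g0 v).2, rt0 a1 k']
    rw [eu, e0, map_neg, fix0 hf (cm (h.inv e)) a1 k'] at a2
    have : ((3 : ℕ) : L.K) • v = 0 := by rw [CharP.cast_eq_zero, zero_smul]
    exact n1 (by rw [show v = 0 by linear_combination (norm := module) this + a2, map_zero])
  have li : LinearIndependent L.K fun j => RR f z (pj L.K j v) :=
    LinearIndependent.map' (Fintype.linearIndependent_iff.2 fun a k j => by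
      have := pj_sum (j := j) fun k => Submodule.smul_mem _ (a k) (pj_mem (j := k) (v := v))
      rw [k, map_zero, eq_comm] at this
      exact (smul_eq_zero.1 this).resolve_right (nz j)) _ (LinearMap.ker_eq_bot.2 (inj z))
  have sp : Submodule.span L.K (Set.range fun j => RR f z (pj L.K j v)) = fs (rX L f y) ⊓ fs (rX L f u) :=
    Submodule.eq_of_le_of_finrank_le (Submodule.span_le.2 (Set.range_subset_iff.2 fun j =>
      ⟨(m0 _).2 pj_V0, fx.2 (by rw [eu, ← p0, ← pj_g hf (cm (h.inv e)) a3, ← eu, a2])⟩))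
      (by rw [finrank_span_eq_card li, d]; rfl)
  refine (big7 hf h (funext r1) (mem_fs.1 (k1 a0.1))).trans_eq (Nat.card_congr (Equiv.subtypeEquivRight
    fun g => and_congr_right fun k => ⟨fun a w hw => mem_fs.1 ?_, fun a => a _ ⟨k1 a0.1, k1 a0.2⟩⟩))
  refine (Submodule.span_le.2 (Set.range_subset_iff.2 fun j => fx.2 ?_) : _ ≤ fs (rX L f g)) (sp.ge hw)
  rw [← pj_g hf (cm ?_) a1, fx.1 (mem_fs.2 a)]
  have := congrArg (fun x => z⁻¹ * jG L x * z) k
  simpa [Commute, SemiconjBy, h.eq, mul_assoc] using this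

end CF.Ez
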