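import Cfsg.Agent.Ez.E6a
import Cfsg.Agent.Ez.E1

/-! The regular elements of order `40` of `E₈(3)`: the key lemma. -/

set_option autoImplicit false

namespace CF.Ez

open Module CF.E83 CF.Chev CF.BN CF.ExA Cfsg.Lie Finset CF.Geom.Sm Matrix Sum
open CF.Ey (Ix brK fmK Inv ed Fm brK_apply)
open CF.Ey.E3 (ev ev_apply)

open E6a

namespace E6b

/-- The roots of value `3 ^ i`. -/
def sI (c i a : ℕ) : Fin 240 := Fin.ofNat 240 (((if c = 2 then [[120, 121, 123, 126, 130, 135, 141],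
  [143, 125, 137, 162, 147, 132, 128], [172, 158, 175, 2, 159, 184, 168], [35, 233, 57, 44, 232, 49, 48]] else
  [[0, 121, 126, 130, 135, 141, 162], [147, 1, 137, 123, 143, 122, 164], [146, 154, 156, 172, 140, 5, 175],
    [35, 44, 223, 80, 52, 59, 229]]).getD i []).getD a 0)

/-- The Gram matrices. -/
def gm (c i b a : ℕ) : ℕ := (if c = 2 then
  1438880966521993689376693172762989226264974115284487782528313737961492997877846298227178192099627698504106986254794762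
  else
  2542979401409227530681114175283838902844132708661807976628769897774208354366555471989342006484067050915340083112574978)
  / 4 ^ ((i * 7 + b) * 7 + a) % 4

theorem gm_eq : ∀ c ∈ [2, 6], ∀ i < 4, ∀ b < 7, ∀ a < 7,
    (∑ j : Fin 8, tabE8.cov (sI c 0 a) j * tabE8.car j (sI c i b)) % 3 = gm c i b a := by decide +kernel

theorem sI_w : ∀ c ∈ [2, 6], ∀ i < 3, ∀ a < 7, Ev.aF (wd3 c) (sI c (i + 1) a) = sI c i a := by decide +kernel

theorem sI_all : ∀ c ∈ [2, 6], (∀ r : Fin 240, xv 40 (gl (xs c)) r = 1 → ∃ a : Fin 7, sI c 0 a = r) ∧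
    Function.Injective fun a : Fin 7 => sI c 0 a := by decide +kernel

/-- A value. -/
def dt (c i b : ℕ) (l : Fin 7 → ℕ) : ℕ := (l 0 * gm c i b 0 + l 1 * gm c i b 1 + l 2 * gm c i b 2 +
  l 3 * gm c i b 3 + l 4 * gm c i b 4 + l 5 * gm c i b 5 + l 6 * gm c i b 6) % 3

/-- The conditions on a root of the support. -/
def Gd (c : ℕ) (l : Fin 7 → ℕ) (b : Fin 7) : Prop :=
  dt c 0 b l = 1 ∧ dt c 1 b l = 0 ∧ dt c 2 b l = 0 ∧ dt c 3 b l = 0

instance instDecGd (c : ℕ) (l : Fin 7 → ℕ) (b : Fin 7) : Decidable (Gd c l b) := by unfold Gd; infer_instance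

/-- The conclusion. -/
def Ok (c : ℕ) (l : Fin 7 → ℕ) : Prop := (∀ b, l b ≠ 0 → Gd c l b) →
  (∀ a b, Gd c l a → Gd c l b → xv 2 (gl (tv c)) (sI c 0 a) = xv 2 (gl (tv c)) (sI c 0 b)) ∨
    (c = 6 ∧ l 3 ≠ 0 ∧ l 5 ≠ 0 ∧ ∀ b, Gd c l b → b = 3 ∨ b = 5)

instance instDecOk (c : ℕ) (l : Fin 7 → ℕ) : Decidable (Ok c l) := by unfold Ok; infer_instance

set_option synthInstance.maxSize 4096 in
theorem chk : ∀ c ∈ [2, 6], ∀ a < 3, ∀ b < 3, ∀ d < 3, ∀ e < 3, ∀ g < 3, ∀ h < 3, ∀ k < 3,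
    Ok c ![a, b, d, e, g, h, k] := by decide +kernel

theorem vec6 : cE8.vec 176 = cE8.vec 172 + cE8.vec 130 ∧ cE8.vec 176 ≠ cE8.vec 5 + cE8.vec 130 ∧
    cE8.vec 176 ≠ cE8.vec 172 + cE8.vec 141 ∧ cE8.vec 176 ≠ cE8.vec 5 + cE8.vec 141 := by decide +kernel

variable {K : Type*} [Field K]

theorem br_inr {v : Ix → K} (w : Ix → K) {u : Fin 240} (hv : ∀ i, v (inl i) = 0) (hu : v (inr u) = 0) :
    brK K v w (inr u) = ∑ r, ∑ s, v (inr r) * w (inr s) *
      if cE8.vec u = cE8.vec s + cE8.vec r then (cE8.N r s : K) else 0 := by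
  rw [brK_apply, cE8.ad_apply, sum_mulVec, Finset.sum_apply, Fintype.sum_sum_type,
    sum_eq_zero fun j _ => by simp [hv], zero_add]
  refine sum_congr rfl fun r _ => ?_
  by_cases e : u = r
  · simp [← e, hu]
  · simp [smul_mulVec, cE8.br_inr, mulVec, dotProduct, LieBasis.E, RootSys.EZ, e, mul_sum, mul_assoc, mul_comm,
      mul_left_comm]

variable [CharP K 3] {c : ℕ} {N P : Submodule K (Ix → K)} {U T : End K (Ix → K)} {Φ : (Ix → K) → Ix → K}
  {γ : Fin 240 → K} {D : ℕ → K}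

theorem ev_eq (hc : c ∈ [2, 6]) {v : Ix → K} (hU : ∀ r, U v (inr (cE8.neg r)) = γ r * v (inr r))
    (hv : ∀ r : Fin 240, xv 40 (gl (xs c)) r ≠ 1 → v (inr r) = 0) (φ : K →+ ZMod 3) {i : ℕ} (hi : i < 4) (b : Fin 7) :
    (φ (ev K (sI c i b) (brK K v (U v)))).val =
      dt c i b fun a => (φ (v (inr (sI c 0 a)) * (γ (sI c 0 a) * v (inr (sI c 0 a))))).val := by
  rw [ev_br, ← Fintype.sum_of_injective _ (sI_all c hc).2 (fun a => _) _ (fun r hr => by
    rw [hv r fun e => hr ((sI_all c hc).1 r e), zero_mul, zero_mul]) fun _ => rfl, map_sum, dt, ← ZMod.val_natCast]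
  congr 1
  have : ∀ (a : Fin 7) (x : K), φ (x * cE8.A (sI c 0 a) (sI c i b)) = φ x * gm c i b a := fun a x => by
    rw [mul_comm, ← zsmul_eq_mul, map_zsmul, zsmul_eq_mul, mul_comm, ← Int.cast_natCast, ← gm_eq c hc i hi b b.2 a a.2,
      cE8.A_def, cE8.cor_apply]
    simp only [tabOf8.cov, ← cE8.A_simple, tabOf8.car]
    exact congrArg _ (ZMod.intCast_mod _ 3).symm
  simp [this, hU, Fin.sum_univ_seven]

theorem core (hc : c ∈ [2, 6]) (hU : ∀ v r, U v (inr (cE8.neg r)) = γ r * v (inr r))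
    (hΦ : ∀ v s, Φ v (inr s) ≠ 0 ↔ v (inr (cE8.wp (wd3 c) s)) ≠ 0)
    (hT : ∀ v, (∀ i, T v (inl i) = v (inl i)) ∧ ∀ r, T v (inr r) = D (xv 2 (gl (tv c)) r) * v (inr r))
    (hN : ∀ h ∈ N, ∀ r, h (inr r) = 0)
    (hP : ∀ v ∈ P, (∀ i, v (inl i) = 0) ∧ ∀ r : Fin 240, xv 40 (gl (xs c)) r ≠ 1 → v (inr r) = 0)
    (np : ∀ h ∈ N, ∀ v ∈ P, brK K h v ∈ P) (pn : ∀ v ∈ P, brK K v (U v) ∈ N)
    (ns : ∀ h ∈ N, ∀ v ∈ P, ∀ i ∈ [1, 2, 3], brK K h (Φ^[i] v) = 0) (ps : ∀ v ∈ P, brK K v (Φ (Φ v)) = 0)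
    (nd : ∀ v ∈ P, (∀ h ∈ N, ∃ c : K, brK K h v = c • v) → brK K (brK K v (U v)) v = 0 → v = 0)
    (v : Ix → K) (hv : v ∈ P) : T v ∈ P := by
  classical
  induction hn : #{r | v (inr r) ≠ 0} using Nat.strong_induction_on generalizing v with
  | _ n ih =>
  by_cases hA : ∃ h ∈ N, ∃ r s, v (inr r) ≠ 0 ∧ v (inr s) ≠ 0 ∧ ev K r h ≠ ev K s h
  · obtain ⟨h, hh, r, s, hr, hs, e⟩ := hA
    have key : ∀ r, v (inr r) ≠ 0 → T (brK K h v - ev K r h • v) ∈ P := fun r hr =>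
      ih _ (hn ▸ card_lt_card ⟨fun x hx => by
        simp only [mem_filter, mem_univ, true_and, Pi.sub_apply, br_tor v (hN h hh)] at hx ⊢
        exact fun a => hx (by simp [a]), fun a => by
          simpa [br_tor v (hN h hh)] using a (mem_filter.2 ⟨mem_univ r, hr⟩)⟩) _
        (sub_mem (np h hh v hv) (P.smul_mem _ hv)) rfl
    have := P.smul_mem (ev K s h - ev K r h)⁻¹ (sub_mem (key r hr) (key s hs))
    rwa [← map_sub, sub_sub_sub_cancel_left, ← sub_smul, map_smul, smul_smul,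
      inv_mul_cancel₀ (sub_ne_zero.2 e.symm), one_smul] at this
  push Not at hA
  by_cases h0 : v = 0
  · simp [h0]
  obtain ⟨r, hr⟩ : ∃ r, v (inr r) ≠ 0 := by
    by_contra! a
    exact h0 (funext fun x => x.rec (hP v hv).1 a)
  have sc : ∀ h ∈ N, brK K h v = ev K r h • v := fun h hh => funext fun x => by
    rcases x with i | s
    · simp [br_tor' v (hN h hh), (hP v hv).1]
    · by_cases a : v (inr s) = 0
      · simp [br_tor v (hN h hh), a]
      · simp [br_tor v (hN h hh), hA h hh r s hr a]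
  have hg := pn v hv
  have hκ : ev K r (brK K v (U v)) ≠ 0 := fun a =>
    h0 (nd v hv (fun h hh => ⟨_, sc h hh⟩) (by rw [sc _ hg, a, zero_smul]))
  let _ := ZMod.algebra K 3
  obtain ⟨φ, hφ⟩ := Module.Projective.exists_dual_eq_one (ZMod 3) hκ
  obtain ⟨l, hl⟩ : ∃ l : Fin 7 → ℕ, l = fun a : Fin 7 =>
    (φ (v (inr (sI c 0 a)) * (γ (sI c 0 a) * v (inr (sI c 0 a))))).val := ⟨_, rfl⟩
  have E := fun i hi b => ev_eq hc (hU v) (hP v hv).2 φ.toAddMonoidHom (i := i) hi b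
  simp only [LinearMap.toAddMonoidHom_coe, ← hl] at E
  have w : ∀ i < 3, ∀ (b : Fin 7) u, u (inr (sI c i b)) ≠ 0 → Φ u (inr (sI c (i + 1) b)) ≠ 0 := fun i hi b u a => by
    rwa [hΦ, Ev.wp_eq, sI_w c hc i hi b b.2]
  have G : ∀ b : Fin 7, v (inr (sI c 0 b)) ≠ 0 → Gd c l b := fun b hb => by
    have z : ∀ i ∈ [1, 2, 3], Φ^[i] v (inr (sI c i b)) ≠ 0 → dt c i b l = 0 := fun i hi a => by
      have := congrFun (ns _ hg v hv i hi) (inr (sI c i b))
      rw [br_tor _ (hN _ hg), Pi.zero_apply, mul_eq_zero_iff_right a] at this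
      rw [← E i (by simp only [List.mem_cons, List.not_mem_nil, or_false] at hi; omega), this, map_zero, ZMod.val_zero]
    have a1 := w 0 (by decide) b v hb
    have a2 := w 1 (by decide) b _ a1
    exact ⟨by rw [← E 0 (by decide), hA _ hg _ r hb hr, hφ]; rfl, z 1 (by decide) a1, z 2 (by decide) a2,
      z 3 (by decide) (w 2 (by decide) b _ a2)⟩
  have L : ∀ b, l b ≠ 0 → v (inr (sI c 0 b)) ≠ 0 := fun b a e => a (by simp [hl, e])
  have S : ∀ s, v (inr s) ≠ 0 → ∃ a : Fin 7, sI c 0 a = s := fun s a =>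
    (sI_all c hc).1 s (not_not.1 (mt ((hP v hv).2 s) a))
  have l3 : ∀ a, l a < 3 := fun a => hl ▸ ZMod.val_lt _
  have ok := chk c hc _ (l3 0) _ (l3 1) _ (l3 2) _ (l3 3) _ (l3 4) _ (l3 5) _ (l3 6)
  rw [show ![l 0, l 1, l 2, l 3, l 4, l 5, l 6] = l from funext fun a => by fin_cases a <;> rfl] at ok
  rcases ok fun b a => G b (L b a) with a | ⟨rfl, a3, a5, a⟩
  · rw [show T v = D (xv 2 (gl (tv c)) r) • v from funext fun x => ?_]
    · exact P.smul_mem _ hv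
    rcases x with i | s
    · simp [(hT v).1, (hP v hv).1]
    · by_cases e : v (inr s) = 0
      · simp [(hT v).2, e]
      obtain ⟨b, rfl⟩ := S r hr
      obtain ⟨b', rfl⟩ := S s e
      rw [(hT v).2, a _ _ (G b' e) (G b hr)]; rfl
  have s1 : ∀ s, v (inr s) ≠ 0 → s = 130 ∨ s = 141 := fun s e => by
    obtain ⟨b, rfl⟩ := S s e
    rcases a b (G b e) with rfl | rfl
    exacts [.inl rfl, .inr rfl]
  have s2 : ∀ s, Φ (Φ v) (inr s) ≠ 0 → s = 172 ∨ s = 5 := fun s e => by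
    rw [hΦ, hΦ] at e
    refine (s1 _ e).imp (fun k => ?_) fun k => ?_ <;> refine (cE8.wp (wd3 6)).injective ((cE8.wp (wd3 6)).injective ?_) <;>
      rw [k, Ev.wp_eq, Ev.wp_eq] <;> decide +kernel
  have := congrFun (ps v hv) (inr 176)
  rw [br_inr _ (hP v hv).1 (by by_contra e; exact absurd (s1 _ e) (by decide)), sum_eq_single 130, sum_eq_single 172,
    if_pos vec6.1, Pi.zero_apply] at this
  · exact absurd this (mul_ne_zero (mul_ne_zero (L 3 a3) (w 1 (by decide) 3 _ (w 0 (by decide) 3 v (L 3 a3))))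
      (Ey.E1.N_ne Ey.E1.sl vec6.1))
  · intro s _ k
    by_cases e : Φ (Φ v) (inr s) = 0
    · simp [e]
    · obtain rfl := (s2 s e).resolve_left k
      simp [vec6.2.1]
  · simp
  · intro t _ k
    by_cases e' : v (inr t) = 0
    · simp [e']
    obtain rfl := (s1 t e').resolve_left k
    refine sum_eq_zero fun s _ => ?_
    by_cases e : Φ (Φ v) (inr s) = 0
    · simp [e]
    · rcases s2 s e with rfl | rfl <;> simp [vec6.2.2.1, vec6.2.2.2]
  · simp

end E6b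

variable {X : Type*} [Group X] {L : LS cE8 1 3 3 1 X} {f : L.G →* GL Ix L.K} (hf : L.ρ.IsAdHom f)
  {c : ℕ} {y u : X} {μ : L.Kˣ} {z : L.G}
include hf

theorem rg_X (hc : c = 2 ∨ c = 6) (h : Mt L c y μ z) (e : u * y * u⁻¹ = y⁻¹) :
    ∃ t, Rg (rX L f) (brK L.K) (frK L.K) y u t μ := by
  obtain ⟨t, iv, ht⟩ := iv_X hf (c := c) (by rcases hc with rfl | rfl <;> decide) h
  obtain ⟨γ, g0, g1⟩ := mono_X hf hc h e
  obtain ⟨δ, d0, d1⟩ := coord hf (StRep.nW_nw (ρ := L.ρ) (wd3 c))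
  have ex : ∀ v, ∃ v', v = RR f z v' := fun v => ⟨_, (cc z v).symm⟩
  have f0 : ∀ v, RR f z v ∈ fs (rX L f y) → ∀ r, v (inr r) = 0 := fun v hv r =>
    ((eig_X hf h 0 v).1 (End.mem_eigenspace_iff.2 (by simpa using mem_fs.1 hv))).2 r (reg c (by simpa) r r.2)
  have hu : ∀ v, rX L f u (RR f z v) = RR f z (RR f (z⁻¹ * jG L u * z) v) := fun v => cj _ _ v
  refine ⟨t, iv, jG_inj L ?_, fun v hv => ?_, fun v hv w hw => ?_, fun N P k v hv => ?_⟩
  · have h1 := conj_tor L.h.r3 (nw_X hc h e).acts (tc L (-1) (tv c))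
    rw [Mw_w0, show mp (-1 : Matrix (Fin 8) (Fin 8) ℤ) (tc L (-1) (tv c)) = tc L (-1) (tv c) by
      rw [mp_zpow]
      funext i
      rw [neg_mulVec, one_mulVec, Pi.neg_apply, ← _root_.inv_zpow', inv_neg_one]] at h1
    rw [map_mul, map_mul, ht]
    conv_lhs => rw [← h1]
    group
  · obtain ⟨v, rfl⟩ := ex v
    rw [hu, ← map_neg]
    refine congrArg _ (funext fun a => ?_)
    rcases a with i | r
    · exact (g1 v).1 i
    · rw [← cE8.neg_neg r, (g1 v).2]; simp [f0 v hv]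
  · obtain ⟨v, rfl⟩ := ex v
    obtain ⟨w, rfl⟩ := ex w
    rw [← brG hf, show brK L.K v w = 0 from funext fun a => ?_, map_zero]
    rcases a with i | r
    · exact br_tor' w (f0 v hv) i
    · simp [br_tor w (f0 v hv), f0 w hw]
  obtain ⟨v, rfl⟩ := ex v
  have sj : Function.Semiconj (RR f z) (fun v => RR f (L.ρ.nw (wd3 c))⁻¹ (frK L.K v)) (frK L.K) :=
    fun v => (h.fr hf v).symm
  have i0 : ∀ {a}, RR f z a = 0 → a = 0 := (map_eq_zero_iff _ (inj z)).1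
  rw [MonoidHom.comp_apply, cj, ht, show z⁻¹ * (z * _ * z⁻¹) * z = L.h.r3.tor (tc L (-1) (tv c)) by group]
  refine E6b.core (N := N.comap (RR f z)) (P := P.comap (RR f z)) (U := RR f (z⁻¹ * jG L u * z))
    (Φ := fun v => RR f (L.ρ.nw (wd3 c))⁻¹ (frK L.K v)) (D := fun k => (-1) ^ k) (c := c) (by simpa)
    (fun v => (g1 v).2) (fun v s => ?_) (fun v => ⟨fun i => by simp [tor_v hf], fun r => ?_⟩)
    (fun a ha => f0 a (k.hN ha)) (fun a ha => ?_) (fun a ha b hb => ?_) (fun a ha => ?_)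
    (fun a ha b hb i hi => i0 ?_) (fun a ha => i0 ?_) (fun a ha b d => i0 ?_) v hv
  · have := (d1 (RR f (L.ρ.nw (wd3 c))⁻¹ (frK L.K v))).2 s
    rw [cc] at this
    rw [← mul_ne_zero_iff_left (d0 s), ← this]
    exact pow_ne_zero_iff (by decide)
  · rw [tor_v hf, RootSys.wt_inr, show (cE8.torChar _).ev _ = _ from rv_zp _ _ r,
      zpow_eq_zpow_emod _ (n := (2 : ℕ)) (by simp), ← xv_eq (by decide)]
    simp
  · have := (eig_X hf h 1 a).1 (by simpa using k.hP ha)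
    exact ⟨this.1 (by decide), this.2⟩
  · exact Submodule.mem_comap.2 (brG hf z a b ▸ k.np _ ha _ hb)
  · exact Submodule.mem_comap.2 (by rw [brG hf, ← hu]; exact k.pn _ ha)
  · rw [brG hf, sj.iterate_right i]; exact k.ns _ ha _ hb i hi
  · rw [brG hf, sj, sj]; exact k.ps _ ha
  · refine zero_of hf (c := c) (k := 1) (by rcases hc with rfl | rfl <;> decide) h e (by simpa using k.hP ha)
      (k.nd _ ha (fun x hx => ?_) (by rw [hu, ← brG hf, ← brG hf, d, map_zero]))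
    obtain ⟨x, rfl⟩ := ex x
    exact (b x hx).imp fun s hs => by rw [← brG hf, hs, map_smul]

end CF.Ez
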