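import Cfsg.Agent.Ez.A
import Cfsg.Agent.Known.Aut.PSL
import Cfsg.Agent.Classical.LowDim

/-! The covering map and the centralizer of an element of order `40`. -/

set_option autoImplicit false

namespace CF.Ez

open Module Matrix CF.E83 CF.Ey Finset Cfsg
open CF.Geom.Sm (JJ LL Rr)

namespace G

variable {F X : Type*} [Field F] [Group X] {j : SL F →* X} {H : Subgroup X}

theorem cen_iff {g : SL F} : g ∈ Subgroup.center (SL F) ↔ g = 1 ∨ g = -1 := by
  refine ⟨fun h => ?_, ?_⟩
  · obtain ⟨r, h, e⟩ := Matrix.SpecialLinearGroup.mem_center_iff.1 h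
    refine (sq_eq_one_iff.1 (by simpa using h : r ^ 2 = 1)).imp (fun k => ?_) fun k => ?_ <;>
      exact Subtype.ext (by ext i i'; fin_cases i <;> fin_cases i' <;> simp [← e, k])
  · rintro (rfl | rfl)
    · exact one_mem _
    · exact Subgroup.mem_center_iff.2 fun g => by simp

theorem aut [Finite F] (J : Jm H j) {h : X} (hh : h ∈ H) : ∃ (g : GL (Fin 2) F) (τ : F ≃+* F),
    ∀ x, ∃ x' : SL F, h * j x * h⁻¹ = j x' ∧ x'.1 * g.1 = g.1 * x.1.map τ := by
  have z : Subgroup.center (SL F) = j.ker := Subgroup.ext fun g => cen_iff.trans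
    ⟨by rintro (rfl | rfl); exacts [one_mem _, J.neg], J.ker g⟩
  let e := (QuotientGroup.quotientMulEquivOfEq z).trans (QuotientGroup.quotientKerEquivRange j)
  let c := j.range.normalizerMonoidHom ⟨h, J.nor hh⟩
  obtain ⟨γ, hγ⟩ := CF.Known.psi_sl'_surjective (ι := Fin 2) (F := F) (by simp)
    (e.trans (MulEquiv.trans c e.symm))
  refine ⟨γ.1.left, γ.1.right, fun x => ⟨CF.Known.stab_sl'.res γ x, ?_, ?_⟩⟩
  · have h1 := CF.Known.stab_sl'.psi_mk γ x
    rw [hγ] at h1
    exact congrArg Subtype.val (e.symm_apply_eq.1 h1)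
  · have := congrArg Units.val (CF.Known.stab_sl'.res_spec γ x)
    rw [CF.Known.toAut_apply] at this
    rw [show (CF.Known.stab_sl'.res γ x).1 = _ from this]
    simp [mul_assoc]

/-- Conjugation by a diagonal matrix. -/
def cj (l : Fˣ) (x : SL F) : SL F :=
  ⟨!![x.1 0 0, l * x.1 0 1; (l : F)⁻¹ * x.1 1 0, x.1 1 1], by
    have := x.2
    have := l.ne_zero
    rw [det_fin_two] at *
    simp
    field_simp
    assumption⟩

theorem cj_one (x : SL F) : cj 1 x = x :=
  Subtype.ext (by ext i k; fin_cases i <;> fin_cases k <;> simp [cj])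

theorem cj_tt (c : Fˣ) (x : SL F) : tt c * x = cj (c ^ 2) x * tt c :=
  Subtype.ext (by
    have := c.ne_zero
    rw [S.mul, S.mul]
    ext i k; fin_cases i <;> fin_cases k <;> simp [cj, tt, mul_apply] <;> field_simp)

theorem tt_pow (a : Fˣ) (k : ℕ) : tt a ^ k = tt (a ^ k) := by
  induction k with
  | zero => rw [pow_zero, pow_zero]; exact Subtype.ext (by simp [tt, one_fin_two])
  | succ k ih => rw [pow_succ, ih, ← tt_mul, ← pow_succ]

variable [Fintype F]

theorem gen (hF : Fintype.card F = 81) {a : Fˣ} (ha : orderOf a = 80) {x : F} (hx : x ≠ 0) :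
    ∃ k : ℕ, x = a ^ k := by
  have : Subgroup.zpowers a = ⊤ := Subgroup.eq_top_of_card_eq _ (by
    rw [Nat.card_zpowers, ha, Nat.card_units, Nat.card_eq_fintype_card, hF])
  obtain ⟨k, e⟩ := mem_powers_iff_mem_zpowers.2 (this.ge trivial : Units.mk0 x hx ∈ _)
  exact ⟨k, by simpa using congrArg Units.val e.symm⟩

theorem diag (hF : Fintype.card F = 81) (J : Jm H j) {a : Fˣ} (ha : orderOf a = 80) {h : X}
    (hh : h ∈ H) (e : h * j (tt a) = j (tt a) * h) : ∃ l, ∀ x, h * j x * h⁻¹ = j (cj l x) := by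
  have : CharP F 3 := charP_of_card_eq_prime_pow (f := 4) hF
  have t : (3 : F) = 0 := CharP.cast_eq_zero F 3
  have n : ∀ k : ℕ, (a : F) ^ k = 1 → 80 ∣ k := fun k e =>
    ha ▸ orderOf_dvd_of_pow_eq_one (Units.ext (by simpa using e))
  have a0 := a.ne_zero
  have a1 : (a : F) + 1 ≠ 0 := fun k => absurd (n 2 (by linear_combination (a - 1) * k)) (by decide)
  obtain ⟨g, τ, hg⟩ := aut J hh
  obtain ⟨y, y1, y2⟩ := hg (tt a)
  obtain ⟨ε, ε2, y3⟩ : ∃ ε : F, ε ^ 2 = 1 ∧ y.1 = ε • (tt a).1 := by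
    rcases J.ker (y * (tt a)⁻¹) (by rw [map_mul, map_inv, ← y1, e]; group) with k | k
    · exact ⟨1, by simp, by simp [mul_inv_eq_one.1 k]⟩
    · exact ⟨-1, by simp, by simp [mul_inv_eq_iff_eq_mul.1 k]⟩
  rw [y3] at y2
  have z00 := congrFun₂ y2 0 0
  have z01 := congrFun₂ y2 0 1
  have z10 := congrFun₂ y2 1 0
  have z11 := congrFun₂ y2 1 1
  simp [tt, mul_apply, -mul_eq_mul_left_iff, -mul_eq_mul_right_iff] at z00 z01 z10 z11
  have d := g.det_ne_zero
  rw [det_fin_two] at d
  have t0 : τ a ≠ 0 := by simp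
  obtain ⟨k, hk⟩ := gen hF ha a1
  have hk' : τ a + 1 = τ a ^ k := by rw [← map_pow, ← hk, map_add, map_one]
  have no : τ a * a ≠ ε := fun b => by
    have b2 : (((a : F) + 1) * (τ a + 1)) ^ 2 = 1 := by
      rw [hk, hk', ← mul_pow, ← pow_mul, mul_comm k, pow_mul, mul_comm, b, ε2, one_pow]
    have b3 : (((a : F) + 1) * (ε + a)) ^ 2 = (a : F) ^ 2 := by
      rw [← b]; linear_combination (a : F) ^ 2 * b2
    rcases sq_eq_one_iff.1 ε2 with rfl | rfl
    · exact absurd (n 12 (by
        linear_combination ((a : F) ^ 2 - 1) * ((a : F) ^ 2 - a + 1) *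
          ((a : F) ^ 4 - a ^ 2 + 1) * (b3 - a * (a ^ 2 + a + 1) * t))) (by decide)
    · exact absurd (n 8 (by linear_combination ((a : F) ^ 4 - 1) * (b3 + a ^ 2 * t))) (by decide)
  have g01 : g.1 0 1 = 0 := by
    by_contra k
    field_simp at z01
    exact no (by linear_combination ε * z01 - τ a * a * ε2)
  have g10 : g.1 1 0 = 0 := by
    by_contra k
    field_simp at z10
    exact no (by linear_combination -z10)
  have g00 : g.1 0 0 ≠ 0 := fun k => d (by simp [k, g01])
  have g11 : g.1 1 1 ≠ 0 := fun k => d (by simp [k, g01])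
  have b : τ a = ε * a := mul_left_cancel₀ g00 (by linear_combination -z00)
  have ε1 : ε = 1 := by
    have b2 : (ε * a + 1) ^ 2 = ((a : F) + 1) ^ 2 := by
      rw [← b, hk, hk', b, mul_pow, mul_pow, ← pow_mul, mul_comm k, pow_mul, ε2, one_pow, one_mul]
    exact mul_right_cancel₀ a0 (by linear_combination -b2 + a ^ 2 * ε2 + (ε * a - a) * t)
  have τ1 : ∀ x, τ x = x := fun x => by
    rcases eq_or_ne x 0 with rfl | k
    · simp
    · obtain ⟨k, rfl⟩ := gen hF ha k
      rw [map_pow, b, ε1, one_mul]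
  refine ⟨Units.mk0 _ (div_ne_zero g00 g11), fun x => ?_⟩
  obtain ⟨x', x1, x2⟩ := hg x
  rw [x1]
  congr 1
  have w00 := congrFun₂ x2 0 0
  have w01 := congrFun₂ x2 0 1
  have w10 := congrFun₂ x2 1 0
  have w11 := congrFun₂ x2 1 1
  simp [mul_apply, g01, g10, τ1, -mul_eq_mul_left_iff, -mul_eq_mul_right_iff] at w00 w01 w10 w11
  refine Subtype.ext ?_
  ext i k; fin_cases i <;> fin_cases k <;> simp [cj]
  · exact mul_right_cancel₀ g00 (by linear_combination w00)
  · field_simp; linear_combination w01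
  · field_simp; linear_combination w10
  · exact mul_right_cancel₀ g11 (by linear_combination w11)

omit [Fintype F] in
theorem eq_of (J : Jm H j) {h h' : X} (hh : h ∈ H) (hh' : h' ∈ H)
    (e : ∀ x, h * j x * h⁻¹ = h' * j x * h'⁻¹) : h = h' :=
  (inv_mul_eq_one.1 (J.cen _ (mul_mem (inv_mem hh') hh) fun x => by
    rw [mul_assoc, eq_mul_of_mul_inv_eq (e x)]; group)).symm

end G

section X
variable {F K V : Type*} [Field F] [Fintype F] [Field K] [IsAlgClosed K] [CharP K 3]
  [AddCommGroup V] [Module K V] [FiniteDimensional K V] {ι : F →+* K}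
  {X : Type*} [Group X] {R : X →* End K V} {j : SL F →* X} {H : Subgroup X}
  {br : V →ₗ[K] V →ₗ[K] V} {b : V →ₗ[K] V →ₗ[K] K} {σ : V →+ V}

theorem exists_j [Finite X] (hF : 3 < Fintype.card F)
    (φ : generalizedFittingSubgroup H ≃* ProjectiveSpecialLinearGroup (Fin 2) F) :
    ∃ j : SL F →* X, Jm H j := by
  set S := generalizedFittingSubgroup H with hS
  have : S.Normal := inferInstance
  let i : ProjectiveSpecialLinearGroup (Fin 2) F →* X :=
    (H.subtype.comp S.subtype).comp φ.symm.toMonoidHom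
  have hi : Function.Injective i :=
    (H.subtype_injective.comp S.subtype_injective).comp φ.symm.injective
  let j : SL F →* X := i.comp (QuotientGroup.mk' _)
  have k : ∀ g, j g = 1 ↔ g = 1 ∨ g = -1 := fun g =>
    (map_eq_one_iff i hi).trans ((QuotientGroup.eq_one_iff g).trans G.cen_iff)
  have e1 : j.range = S.map H.subtype := by
    rw [MonoidHom.range_comp, MonoidHom.range_eq_top.2 (QuotientGroup.mk'_surjective _),
      ← MonoidHom.range_eq_map, MonoidHom.range_comp, MonoidHom.range_eq_top.2 φ.symm.surjective,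
      ← Subgroup.map_map, ← MonoidHom.range_eq_map, Subgroup.range_subtype]
  refine ⟨j, (k _).2 (.inr rfl), fun g => (k g).1, fun g => (φ.symm _).1.2, ?_, fun h hh c => ?_⟩
  · rw [e1]
    exact (H.range_subtype.ge.trans (MonoidHom.range_eq_map _).le).trans
      ((Subgroup.map_mono (Subgroup.normalizer_eq_top S).ge).trans (S.le_normalizer_map _))
  · have c' : ∀ x : S, (x : H) * ⟨h, hh⟩ = ⟨h, hh⟩ * (x : H) := fun x => by
      obtain ⟨g, e⟩ : (x : X) ∈ j.range := e1 ▸ ⟨x, x.2, rfl⟩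
      exact Subtype.ext (by simpa [e] using (c g).symm)
    have m : (⟨h, hh⟩ : H) ∈ S := CF.Sig.centralizer_fstar_le fun x hx => c' ⟨x, hx⟩
    have z : φ ⟨_, m⟩ ∈ Subgroup.center _ := Subgroup.mem_center_iff.2 fun y => by
      obtain ⟨x, rfl⟩ := φ.surjective y
      rw [← map_mul, ← map_mul]
      exact congrArg φ (Subtype.ext (c' x))
    rw [CF.Classical.center_PSL_eq_bot, Subgroup.mem_bot, map_eq_one_iff φ φ.injective] at z
    exact congrArg (fun x : S => (x : X)) z

theorem Jm.cy [Finite X] (hF : Fintype.card F = 81) (J : Jm H j) {a : Fˣ} (ha : orderOf a = 80) :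
    (∀ h ∈ H, h * j (tt a) = j (tt a) * h → h * h = 1 → h = 1 ∨ h = j (tt a) ^ 20) ∧
      Nat.card {h // h ∈ H ∧ h * j (tt a) = j (tt a) * h} ≤ 80 := by
  refine ⟨fun h hh e s => ?_, ?_⟩
  · obtain ⟨l, hl⟩ := G.diag hF J ha hh e
    have k : j ((uu 1)⁻¹ * G.cj l (G.cj l (uu 1))) = 1 := by
      rw [map_mul, ← hl, ← hl, map_inv, inv_eq_of_mul_eq_one_right s, ← mul_assoc h, ← mul_assoc h, s,
        mul_assoc _ h, s]
      simp
    have l2 : (l : F) ^ 2 = 1 := by
      have : ((uu 1)⁻¹ * G.cj l (G.cj l (uu 1))).1 0 1 = 0 := by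
        rcases J.ker _ k with k | k <;> simp [k]
      rw [inv_eq_of_mul_eq_one_left (show uu (-1 : F) * uu 1 = 1 from
        Subtype.ext (by rw [S.mul]; simp [uu, one_fin_two])), S.mul] at this
      simp [G.cj, uu] at this
      linear_combination this
    refine (sq_eq_one_iff.1 l2).imp (fun k => ?_) fun k => ?_
    · exact G.eq_of J hh (one_mem _) fun x => by rw [hl, show l = 1 from Units.ext k, G.cj_one]; simp
    · refine G.eq_of J hh (pow_mem (J.mem _) _) fun x => ?_
      have a40 : (a ^ 20) ^ 2 = l := Units.ext (by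
        have e : ((a : F) ^ 40) ^ 2 = 1 := by
          rw [← pow_mul, ← Units.val_pow_eq_pow_val, show 40 * 2 = orderOf a from ha.symm,
            pow_orderOf_eq_one, Units.val_one]
        rw [← pow_mul, k, Units.val_pow_eq_pow_val]
        exact (sq_eq_one_iff.1 e).resolve_left fun e => absurd (ha ▸ orderOf_dvd_of_pow_eq_one
          (x := a) (n := 40) (Units.ext (by simpa using e))) (by decide))
      rw [hl, ← map_pow, G.tt_pow, ← map_mul, G.cj_tt, a40, map_mul, mul_inv_cancel_right]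
  · choose l hl using fun h : {h // h ∈ H ∧ h * j (tt a) = j (tt a) * h} => G.diag hF J ha h.2.1 h.2.2
    refine (Nat.card_le_card_of_injective l fun h h' e => Subtype.ext
      (G.eq_of J h.2.1 h'.2.1 fun x => by rw [hl, hl, e])).trans ?_
    rw [Nat.card_units, Nat.card_eq_fintype_card, hF]

end X

end CF.Ez
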