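import Cfsg.Agent.Ez.A

/-! Arithmetic of the characters of `L₂(81)` and some elements. -/

set_option autoImplicit false

namespace CF.Ez

open Module Matrix CF.E83 CF.Ey Finset Cfsg
open CF.Geom.Sm (JJ LL Rr)

namespace U1

/-- The formal characters. -/
def cc (m k : ℕ) : ℕ := cond (o3 (2 * m) (k + m)) 1 0

/-- A closed form of `cw`. -/
def cl (N m i : ℕ) : ℕ := cc m i + cc m (N - i) + if i = 0 ∧ N = 40 then cc m 40 else 0

theorem ws_congr {Q : ℕ} (n : Fin Q → ℕ) {w w' : ℕ → ℕ} (h : ∀ m : Fin Q, w m = w' m) :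
    ws n w = ws n w' := sum_congr rfl fun m _ => by rw [h]

theorem ws_add' {Q : ℕ} (n : Fin Q → ℕ) (w w' : ℕ → ℕ) : ws n (fun m => w m + w' m) = ws n w + ws n w' := by
  simp only [ws, mul_add, sum_add_distrib]

theorem cw_mod (N m i : ℕ) : cw N m (i % N) = cw N m i := by
  unfold cw
  rw [Nat.add_mod_mod]

theorem cf_cl : ∀ N ∈ [40, 41], ∀ m : Fin 41, ∀ i < N, cf N m i = cl N m i := by decide +kernel

theorem cw_cl {N : ℕ} (hN : N = 40 ∨ N = 41) (m : Fin 41) (i : ℕ) : cw N m i = cl N m (i % N) := by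
  rw [← cw_mod, cw_eq, cf_cl N (by simpa using hN) m _ (Nat.mod_lt _ (by omega))]

theorem c_tri : ∀ m k : Fin 41, cc m 41 = 0 ∧ (m = k → cc m k = 1) ∧ (m < k → cc m k = 0) := by decide +kernel

theorem c_tw : ∀ N ∈ [40, 41], ∀ m : Fin 41, ∀ i < N,
    cl N (tw m) (3 * i % N) = cl N m i ∧ cl N m ((N - 1) * i % N) = cl N m i := by decide +kernel

theorem tt_pow' {F : Type*} [Field F] (a : Fˣ) (k : ℕ) : tt (a ^ k) = tt a ^ k := by
  induction k with
  | zero => rw [pow_zero, pow_zero]; exact Subtype.ext (by simp [tt, one_fin_two])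
  | succ k ih => rw [pow_succ, tt_mul, ih, pow_succ]

end U1

open U1

theorem uniq {n n' : Fin 41 → ℕ} (h40 : ∀ i, ws n (cw 40 · i) = ws n' (cw 40 · i))
    (h41 : ∀ i, ws n (cw 41 · i) = ws n' (cw 41 · i)) : n = n' := by
  have e : ∀ {N : ℕ}, N = 40 ∨ N = 41 → ∀ i < N, ∀ n : Fin 41 → ℕ, ws n (cw N · i) =
      ws n (cc · i) + ws n (cc · (N - i)) + if i = 0 ∧ N = 40 then ws n (cc · 40) else 0 := fun hN i hi n => by
    rw [ws_congr n (w' := (cl _ · i)) fun m => by rw [cw_cl hN, Nat.mod_eq_of_lt hi]]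
    unfold cl
    split_ifs <;> simp only [ws_add', add_zero]
  have z : ∀ n : Fin 41 → ℕ, ws n (cc · 41) = 0 := fun n => sum_eq_zero fun m _ => mul_eq_zero_of_right _ (c_tri m m).1
  have p : ∀ j < 41, ws n (cc · j) = ws n' (cc · j) := fun j => by
    induction j with
    | zero =>
      have := h41 0
      rw [e (.inr rfl) 0 (by decide), e (.inr rfl) 0 (by decide), Nat.sub_zero, z, z] at this
      exact fun _ => by simpa using this
    | succ j ih =>
      intro hj
      have a := ih (by omega)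
      have b := h40 j
      have c := h41 (j + 1)
      rw [e (.inl rfl) j (by omega), e (.inl rfl) j (by omega)] at b
      rw [e (.inr rfl) _ hj, e (.inr rfl) _ hj, show 41 - (j + 1) = 40 - j by omega, if_neg (by omega),
        if_neg (by omega)] at c
      obtain rfl | k := eq_or_ne j 0
      · simp only [and_self, if_true, Nat.sub_zero] at b c
        omega
      · simp only [k, false_and, if_false] at b
        omega
  funext k
  induction k using WellFoundedGT.induction with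
  | ind k ih =>
    have := p k k.2
    simp only [ws] at this
    rw [← add_sum_erase _ _ (mem_univ k), ← add_sum_erase _ _ (mem_univ k), (c_tri k k).2.1 rfl,
      sum_congr rfl (g := fun m => n' m * cc m k) fun m hm => by
        rcases lt_or_gt_of_ne (ne_of_mem_erase hm) with e | e
        · rw [(c_tri m k).2.2 e, mul_zero, mul_zero]
        · rw [ih m e]] at this
    omega

theorem cw_tw {N : ℕ} (hN : N = 40 ∨ N = 41) (m : Fin 41) (i : ℕ) :
    cw N (tw m) (3 * i) = cw N m i ∧ cw N m ((N - 1) * i) = cw N m i := by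
  have := c_tw N (by simpa using hN) m (i % N) (Nat.mod_lt _ (by omega))
  rwa [Nat.mul_mod_mod, Nat.mul_mod_mod, ← cw_cl hN, ← cw_cl hN, ← cw_cl hN] at this

theorem tw_bij : Function.Bijective tw := by decide +kernel

variable {F K : Type*} [Field F] [Fintype F] [Field K] [IsAlgClosed K] [CharP K 3]

theorem exists_80 (hF : Fintype.card F = 81) : ∃ a : Fˣ, orderOf a = 80 := by
  obtain ⟨a, ha⟩ := IsCyclic.exists_monoid_generator (α := Fˣ)
  exact ⟨a, by rw [orderOf_eq_card_of_forall_mem_powers ha, Nat.card_units, Nat.card_eq_fintype_card, hF]⟩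

theorem tt_pow {a : Fˣ} (hF : Fintype.card F = 81) (ha : orderOf a = 80) (c : Fˣ) :
    ∃ k : ℕ, tt c = tt a ^ k := by
  have : Subgroup.zpowers a = ⊤ := Subgroup.eq_top_of_card_eq _ (by
    rw [Nat.card_zpowers, ha, Nat.card_units, Nat.card_eq_fintype_card, hF])
  obtain ⟨k, rfl⟩ := (mem_powers_iff_mem_zpowers.2 (this.ge (Subgroup.mem_top c)) : c ∈ Submonoid.powers a)
  exact ⟨k, tt_pow' a k⟩

theorem exists_ev (ι : F →+* K) {N : ℕ} (hN : N ∣ Fintype.card F + 1) (h2 : 2 < N) :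
    ∃ (g : SL F) (l : Kˣ), Ev ι g l ∧ orderOf l = N := by
  have := ι.charP ι.injective 3
  obtain ⟨k, -, hF⟩ := FiniteField.card F 3
  have : NeZero (N : K) := ⟨fun e => by
    have := (Nat.dvd_add_right (hF ▸ dvd_pow_self 3 k.ne_zero)).1 (((CharP.cast_eq_zero_iff K 3 N).1 e).trans hN)
    omega⟩
  obtain ⟨z, hz⟩ := HasEnoughRootsOfUnity.exists_primitiveRoot K N
  obtain ⟨l, rfl⟩ := hz.isUnit (by omega)
  have ol : orderOf l = N := by rw [← orderOf_units, ← hz.eq_orderOf]
  have e1 : (l : K) ^ 3 ^ (k : ℕ) = (l : K)⁻¹ :=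
    eq_inv_of_mul_eq_one_left (by rw [← pow_succ, ← hF]; exact (hz.pow_eq_one_iff_dvd _).2 hN)
  have h : ((l : K) + (l : K)⁻¹) ^ Fintype.card F = l + (l : K)⁻¹ := by
    rw [hF, add_pow_char_pow, inv_pow, e1, inv_inv, add_comm]
  have h3 : (l : K) + (l : K)⁻¹ ∈ ((Polynomial.X ^ Nat.card F - Polynomial.X : Polynomial F).map ι).roots := by
    simp [h, FiniteField.X_pow_card_sub_X_ne_zero K Fintype.one_lt_card]
  obtain ⟨a, -, e⟩ := Multiset.mem_map.1 ((Polynomial.splits_X_pow_nat_card_sub_X (K := F)).roots_map ι ▸ h3)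
  exact ⟨⟨!![0, -1; 1, a], by simp⟩, l, S.ev_of (by simpa using e)
    fun n => absurd (Nat.le_of_dvd two_pos (hz.dvd_of_pow_eq_one 2 n)) (by omega), ol⟩

theorem exists_ι (K : Type*) [Field K] [IsAlgClosed K] [CharP K 3] {k : ℕ}
    (hF : Fintype.card F = 3 ^ k) : Nonempty (F →+* K) := by
  have : CharP F 3 := charP_of_card_eq_prime_pow hF
  let _ := ZMod.algebra F 3
  let _ := ZMod.algebra K 3
  exact ⟨(IsAlgClosed.lift : F →ₐ[ZMod 3] K)⟩

end CF.Ez
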