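import Cfsg.Agent.Ez.M
import Cfsg.Agent.Ez.U1

/-! Inverted elements, and the group `L₂(2187)`. -/

set_option autoImplicit false

namespace CF.Ez

open Module Matrix CF.E83 CF.Ey Finset Cfsg
open CF.Geom.Sm (JJ LL Rr)

namespace IV

section
variable {K V : Type*} [Field K] [AddCommGroup V] [Module K V] [FiniteDimensional K V]

theorem swap {a D : End K V} {P : Submodule K V} (h : ∀ v, a (D v) = -D (a v))
    (k : LinearMap.ker D = P) (d : LinearMap.range D ⊓ P = ⊥) :
    finrank K (fs a) + fw P (-a) ≤ finrank K (fs (-a)) + fw P a := by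
  have h1 := rk_map D (fs a)
  have h2 := Submodule.finrank_sup_add_finrank_inf_eq ((fs a).map D) (P ⊓ fs (-a))
  have h3 : (fs a).map D ⊓ (P ⊓ fs (-a)) = ⊥ :=
    eq_bot_iff.2 (d ▸ inf_le_inf LinearMap.map_le_range inf_le_left)
  have h4 : (fs a).map D ⊔ (P ⊓ fs (-a)) ≤ fs (-a) := sup_le (by
    rintro _ ⟨v, hv, rfl⟩
    exact mem_fs_neg.2 (by rw [h, mem_fs.1 hv])) inf_le_right
  have := Submodule.finrank_mono h4
  rw [h3, finrank_bot] at h2
  rw [k, inf_comm] at h1
  rw [fw, fw]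
  omega

omit [FiniteDimensional K V] in
theorem fs_pow {X : Type*} [Group X] {R : X →* End K V} {x : X} {v : V} (h : v ∈ fs (R x)) (k : ℕ) :
    v ∈ fs (R (x ^ k)) := by
  induction k with
  | zero => exact mem_fs.2 (by simp)
  | succ k ih => exact mem_fs.2 (by rw [pow_succ, map_mul, End.mul_apply, mem_fs.1 h, mem_fs.1 ih])

omit [FiniteDimensional K V] in
theorem ed_one {X : Type*} [Group X] (R : X →* End K V) (x : X) : ed R ⊤ x 1 = dm R x := by
  rw [ed, dm, top_inf_eq, show (R x).eigenspace 1 = fs (R x) from Submodule.ext fun v => by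
    rw [End.mem_eigenspace_iff, mem_fs, one_smul]]

end

theorem ch (j : ℕ) (h : j < 3 ^ 7) : ¬ 3 ∣ (3 ^ 7 - 1).choose j := by
  induction j with
  | zero => simp
  | succ j ih =>
    intro d
    have := Nat.prime_three.dvd_choose_pow (n := 7) (k := j + 1) (by omega) h.ne
    rw [show 3 ^ 7 = (3 ^ 7 - 1) + 1 by norm_num, Nat.choose_succ_succ] at this
    exact ih (by omega) ((Nat.dvd_add_left d).1 this)

theorem dj_top : dj 1093 = 2187 := by
  rw [dj, JJ, show 2 * 1093 = 3 ^ 7 - 1 by norm_num,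
    filter_true_of_mem fun j hj => ch j (by simpa using hj), card_range]
  norm_num

theorem cw_lt {m : ℕ} (h : m < 1093) : cw 1094 m 0 = cw 1093 m 0 := by
  rw [cw, cw]
  refine congrArg _ (filter_congr fun j hj => ?_)
  have := mem_range.1 (mem_filter.1 hj).1
  omega

end IV

section X
variable {F K V : Type*} [Field F] [Fintype F] [Field K] [IsAlgClosed K] [CharP K 3]
  [AddCommGroup V] [Module K V] [FiniteDimensional K V] {ι : F →+* K}
  {X : Type*} [Group X] {R : X →* End K V} {j : SL F →* X} {H : Subgroup X}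
  {br : V →ₗ[K] V →ₗ[K] V} {b : V →ₗ[K] V →ₗ[K] K} {σ : V →+ V}

omit [IsAlgClosed K] in
theorem bt_inv {y n : X} {N : ℕ} (hN : (N : K) ≠ 0) (hy : y ^ N = 1) (hn : R n * R n = 1)
    (e : n * y * n⁻¹ = y⁻¹) :
    bt R n + dm R (y ^ 2) = 2 * finrank K ↥(fs (R (y ^ 2)) ⊓ fs (R n)) := by
  have h2 : (2 : K) ≠ 0 := by
    exact_mod_cast (CharP.cast_eq_zero_iff K 3 2).not.2 (by decide)
  have m : ∀ s t v, R s (R t v) = R (s * t) v := fun s t v => by rw [map_mul, End.mul_apply]
  have e1 : n * y = y⁻¹ * n := by rw [← e]; group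
  have e2 : n * y⁻¹ = y * n := by
    rw [← _root_.inv_inj, _root_.mul_inv_rev, _root_.mul_inv_rev, inv_inv, ← e]; group
  have c : ∀ v, R n ((R y - R y⁻¹) v) = -(R y - R y⁻¹) (R n v) := fun v => by
    simp only [LinearMap.sub_apply, map_sub, m, e1, e2, neg_sub]
  have k : LinearMap.ker (R y - R y⁻¹) = fs (R (y ^ 2)) := by
    ext v
    rw [LinearMap.mem_ker, LinearMap.sub_apply, sub_eq_zero, mem_fs]
    refine ⟨fun h => by rw [sq, ← m, h, m]; simp, fun h => ?_⟩
    conv_rhs => rw [← h, m]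
    congr 2; group
  have d : LinearMap.range (R y - R y⁻¹) ⊓ fs (R (y ^ 2)) = ⊥ := by
    rw [eq_bot_iff, ← fs_range (r := R) (g := y ^ 2) hN (by rw [← pow_mul, mul_comm, pow_mul, hy, one_pow])]
    refine inf_le_inf_right _ ?_
    rintro _ ⟨v, rfl⟩
    refine ⟨R y⁻¹ v, ?_⟩
    simp only [LinearMap.sub_apply, m, End.one_apply]
    congr 3; group
  have h3 := IV.swap c k d
  have h4 := IV.swap (a := -R n) (fun v => by
    rw [LinearMap.neg_apply, LinearMap.neg_apply, c, map_neg]) k d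
  have h5 := split h2 (P := fs (R (y ^ 2))) (a := R n) (fun v hv => mem_fs.2 (by
    have := mem_fs.1 hv
    conv_rhs => rw [← show R (y ^ 2)⁻¹ v = v by conv_lhs => rw [← this, m, inv_mul_cancel, map_one, End.one_apply]]
    rw [m, m, sq, mul_assoc, ← e2, ← mul_assoc, ← e2, _root_.mul_inv_rev, mul_assoc]))
    fun v _ => by rw [← End.mul_apply, hn, End.one_apply]
  rw [neg_neg] at h4
  rw [bt_eq, dm, h5, ← fw]
  omega

namespace IV

theorem ex (hF : Fintype.card F = 2187) (D : Dt R br b σ) (J : Jm H j) : ∃ (ι : F →+* K) (f : ℕ → ℕ),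
    f 1094 = f 1093 ∧ ∀ g l, Ev ι g l → dm R (j g) = f (orderOf (l ^ 2)) := by
  obtain ⟨ι⟩ := exists_ι (F := F) K (k := 7) (hF.trans (by norm_num))
  have h1 : (R.comp j) (-1) = 1 := by rw [MonoidHom.comp_apply, J.neg, map_one]
  obtain ⟨n, hn⟩ := (cp_bot (ι := ι) (r := R.comp j) 1094).ext (B := ⊤) (by rw [hF]) h1
    (fun _ _ _ => trivial) bot_le
  rw [zero_add] at hn
  refine ⟨ι, fun N => ws n (cw N · 0), sum_congr rfl fun m _ => ?_, fun g l e => ?_⟩
  swap
  · have := hn.ch g l 0 e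
    rwa [pow_zero, Units.val_one, ed_one] at this
  by_cases h : (m : ℕ) < 1093
  · exact congrArg _ (cw_lt h)
  · have k := hn.rk
    rw [finrank_top, D.dim, ws] at k
    have := single_le_sum (f := fun m : Fin 1094 => n m * dj m) (fun _ _ => Nat.zero_le _)
      (mem_univ m)
    rw [← k, show (m : ℕ) = 1093 by omega, dj_top] at this
    rw [show n m = 0 by omega, zero_mul, zero_mul]

omit [IsAlgClosed K] [CharP K 3] [Fintype F] in
theorem ev_w {t : Kˣ} (o4 : orderOf t = 4) : Ev ι (ww F) t := by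
  have s2 : (t : K) ^ 2 ≠ 1 := fun h => by
    have := orderOf_dvd_of_pow_eq_one (show t ^ 2 = 1 from Units.ext h)
    rw [o4] at this
    omega
  refine S.ev_of ?_ s2
  have h4 : (t : K) ^ 4 = 1 := by
    rw [← Units.val_pow_eq_pow_val, ← o4, pow_orderOf_eq_one, Units.val_one]
  have h0 := t.ne_zero
  have : (t : K) ^ 2 + 1 = 0 := (mul_eq_zero.1
    (by linear_combination h4 : ((t : K) ^ 2 - 1) * (t ^ 2 + 1) = 0)).resolve_left (sub_ne_zero.2 s2)
  simp only [ww, of_apply, cons_val', cons_val_zero, cons_val_one, cons_val_fin_one, add_zero,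
    map_zero]
  field_simp
  linear_combination -this

omit [IsAlgClosed K] [Fintype F] in
theorem dm_w (D : Dt R br b σ) (J : Jm H j) {c : Fˣ} (ot : orderOf (tt c) = 1093) :
    dm R (j (tt c)) = 10 ∧ dm R (j (ww F)) = 120 := by
  have y2 : j (tt c) ^ 2 ≠ 1 := fun h => by
    have : tt c ^ 4 = 1 := by
      rw [show 4 = 2 * 2 from rfl, pow_mul]
      rcases J.ker _ (by rw [map_pow, h]) with h | h <;> simp [h]
    have := orderOf_dvd_of_pow_eq_one this
    rw [ot] at this
    omega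
  have py : j (tt c) ^ 1093 = 1 := by rw [← map_pow, ← ot, pow_orderOf_eq_one, map_one]
  have d2 := D.t1093 (j (tt c) ^ 2) (by rw [← pow_mul, mul_comm, pow_mul, py, one_pow]) y2
  refine ⟨D.t1093 _ py fun h => y2 (by rw [h, one_pow]), ?_⟩
  have w2 : j (ww F) * j (ww F) = 1 := by
    rw [← map_mul, ← J.neg]
    congr 1
    exact Subtype.ext (by rw [S.mul]; ext a b; fin_cases a <;> fin_cases b <;> simp [ww])
  have w1 : j (ww F) ≠ 1 := fun h => by
    rcases J.ker _ h with h | h <;> simpa [ww] using congrArg (fun g : SL F => g.1 1 0) h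
  have bi := bt_inv (R := R) (n := j (ww F)) (N := 1093)
    ((CharP.cast_eq_zero_iff K 3 1093).not.2 (by norm_num)) py
    (by rw [← map_mul, w2, map_one]) (by
      rw [mul_inv_eq_iff_eq_mul, eq_inv_mul_iff_mul_eq, ← map_mul, ← map_mul, ← mul_assoc, tt_ww,
        mul_assoc, ← tt_mul, inv_mul_cancel]
      congr 1
      exact mul_eq_left.2 (Subtype.ext (by ext a b; fin_cases a <;> fin_cases b <;> simp [tt])))
  have le := Submodule.finrank_mono (inf_le_left : fs (R (j (tt c) ^ 2)) ⊓ fs (R (j (ww F))) ≤ _)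
  have d4 := dm_two (r := R) (by exact_mod_cast (CharP.cast_eq_zero_iff K 3 2).not.2 (by decide)) w2
  have := D.t2 _ w2 w1
  rw [D.dim] at d4
  rw [d2] at bi
  rw [← dm, d2] at le
  omega

omit [IsAlgClosed K] [CharP K 3] [FiniteDimensional K V] in
theorem fs_eq {z : X} (pg : z ^ 2188 = 1) : fs (R (z ^ 547)) ⊓ fs (R (z ^ 4)) = fs (R z) :=
  le_antisymm (fun v hv => by
    have : (z ^ 547) ^ 3 * (z ^ 4) ^ 137 = z := by
      rw [← pow_mul, ← pow_mul, ← pow_add, show 547 * 3 + 4 * 137 = 2188 + 1 by norm_num, pow_succ,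
        pg, one_mul]
    rw [← this, map_mul, mem_fs, End.mul_apply, mem_fs.1 (fs_pow hv.2 _), mem_fs.1 (fs_pow hv.1 _)])
    fun v hv => ⟨fs_pow hv _, fs_pow hv _⟩

end IV

theorem no2187 (hF : Fintype.card F = 2187) (D : Dt R br b σ) (J : Jm H j) : False := by
  obtain ⟨ι, f, hf, dmE⟩ := IV.ex hF D J
  have : Fact (Nat.Prime 1093) := ⟨by norm_num⟩
  obtain ⟨c, hc⟩ := exists_prime_orderOf_dvd_card' (G := Fˣ) 1093 (by
    rw [Nat.card_units, Nat.card_eq_fintype_card, hF]; norm_num)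
  have ec := ev_tt (ι := ι) c
  have oc := (orderOf_injective (Units.map (ι : F →* K)) (Units.map_injective ι.injective) c).trans hc
  obtain ⟨d1, d2⟩ := IV.dm_w D J (ec.ord.trans oc)
  obtain ⟨g, l, eg, ol⟩ := exists_ev ι (N := 2188) (by rw [hF]) (by norm_num)
  have pg : j g ^ 2188 = 1 := by rw [← ol, ← eg.ord, ← map_pow, pow_orderOf_eq_one, map_one]
  have d3 : dm R (j g) = 10 := by
    have e1 : orderOf (l ^ 2) = 1094 := by rw [orderOf_pow' _ two_ne_zero, ol]; norm_num
    have e2 : orderOf (Units.map (ι : F →* K) c ^ 2) = 1093 := by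
      rw [orderOf_pow' _ two_ne_zero, oc]; norm_num
    rw [← d1, dmE _ _ eg, e1, hf, ← e2]
    exact (dmE _ _ ec).symm
  have d5 : dm R (j g ^ 547) = 120 := by
    rw [← map_pow, dmE _ _ (eg.pow 547), ← d2,
      dmE _ (l ^ 547) (IV.ev_w (by rw [orderOf_pow' _ (by norm_num), ol]; norm_num))]
  have t := D.t547 (j g ^ 547) (j g ^ 4) (pow_mul_comm _ _ _)
    (by rw [← pow_mul, show 4 * 547 = 2188 by norm_num, pg])
  rw [IV.fs_eq pg, d5, ← dm, d3] at t
  exact absurd t (by decide +kernel)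

end X

end CF.Ez
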