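import Cfsg.Agent.Ez.A

/-! Submodules of dimension three. -/

set_option autoImplicit false

namespace CF.Ez

open Module Matrix CF.E83 CF.Ey Finset Cfsg
open CF.Geom.Sm (JJ LL Rr vand)

namespace WL

variable {F K V : Type*} [Field F] [Field K] [AddCommGroup V] [Module K V] {ι : F →+* K}
  {r : SL F →* End K V} {h h' v v' : V} {j k : ℕ}

theorem uu0 : uu (0 : F) = 1 := Subtype.ext (by
  change _ = (1 : Matrix (Fin 2) (Fin 2) F)
  rw [one_fin_two]; rfl)

theorem tt1 : tt (1 : Fˣ) = 1 := Subtype.ext (by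
  change _ = (1 : Matrix (Fin 2) (Fin 2) F)
  simp [tt, one_fin_two])

theorem ww2 : ww F * ww F = -1 := Subtype.ext (by
  change (ww F).1 * (ww F).1 = -(1 : Matrix (Fin 2) (Fin 2) F)
  simp [ww, one_fin_two])

theorem rel (t : Fˣ) :
    uu ((t : F)⁻¹) * ww F * uu (t : F) = -1 * (ww F * uu (-(t : F)) * tt t * ww F) * -1 * -1 :=
  Subtype.ext (by
    simp only [mul_neg, neg_mul, mul_one, one_mul, neg_neg, SpecialLinearGroup.coe_neg]
    change (uu _).1 * (ww F).1 * (uu _).1 = -((ww F).1 * (uu _).1 * (tt _).1 * (ww F).1)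
    simp [uu, tt, ww])

theorem ap (g g' : SL F) (v : V) : r (g * g') v = r g (r g' v) := by rw [map_mul, End.mul_apply]

theorem nn (h1 : r (-1) = 1) (v : V) : r (ww F) (r (ww F) v) = v := by
  rw [← ap, ww2, h1, End.one_apply]

theorem rel' (h1 : r (-1) = 1) (t : Fˣ) (v : V) : r (uu ((t : F)⁻¹)) (r (ww F) (r (uu (t : F)) v)) =
    r (ww F) (r (uu (-(t : F))) (r (tt t) (r (ww F) v))) := by
  simp only [← ap, ← mul_assoc]
  rw [rel]
  simp only [map_mul, h1, one_mul, mul_one]

theorem wt (H : Hv ι r k h v) (c : Fˣ) : r (tt c) v = (ι c ^ 2) ^ k • v := by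
  have := congrArg (fun g => r g h) (tt_uu c 1)
  simp only [ap, H.t, H.u, map_add, map_one, one_pow, one_smul, mul_one, map_pow] at this
  exact add_left_cancel this

theorem wt' (H : Hv ι r k h v) (c : Fˣ) :
    r (tt c) (r (ww F) v) = (ι c⁻¹ ^ 2) ^ k • r (ww F) v := by
  rw [← ap, tt_ww, ap, wt H, map_smul, Units.val_inv_eq_inv_val]

variable [CharP K 3]

variable (K) in
include K in
theorem two (v : V) : v + v = -v := by
  rw [eq_neg_iff_add_eq_zero, ← two_smul K, ← one_smul K v, smul_smul, ← add_smul,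
    show (2 * 1 + 1 : K) = (3 : ℕ) by norm_num, CharP.cast_eq_zero, zero_smul]

theorem uv (H : Hv ι r (3 ^ j) h v) (s : F) : r (uu s) v = v := by
  have := congrArg (fun g => r g h) (uu_add s 1)
  simp only [ap, H.u, map_add, map_one, one_pow, one_smul, add_pow_char_pow, add_smul] at this
  rw [add_assoc] at this
  exact (add_left_cancel (add_left_cancel this)).symm

theorem ua (h1 : r (-1) = 1) (H : Hv ι r (3 ^ j) h v) (s : F) : r (uu s) (r (ww F) v) =
    r (ww F) v - ι s ^ 3 ^ j • h + (ι s ^ 3 ^ j * ι s ^ 3 ^ j) • v := by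
  have h0 : 3 ^ j ≠ 0 := by positivity
  by_cases hs : s = 0
  · simp [hs, uu0, h0]
  have := rel' h1 (Units.mk0 s hs)⁻¹ h
  simp only [H.w, H.t, H.u, map_add, map_neg, map_smul, Units.val_inv_eq_inv_val, Units.val_mk0,
    inv_inv, map_inv₀, (Odd.pow (by decide : Odd 3)).neg_pow, inv_pow, neg_neg] at this
  have n : ι s ^ 3 ^ j ≠ 0 := pow_ne_zero _ ((map_ne_zero ι).2 hs)
  generalize ι s ^ 3 ^ j = c at this n
  have e : c⁻¹ • r (uu s) (r (ww F) v) = (h + h) + c • v + c⁻¹ • r (ww F) v := by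
    rw [← sub_eq_zero] at this ⊢
    rw [← this]
    module
  rw [two K] at e
  rw [← smul_inv_smul₀ n (r (uu s) (r (ww F) v)), e, smul_add, smul_add, smul_inv_smul₀ n]
  module

omit [CharP K 3] in
theorem anti {br : V →ₗ[K] V →ₗ[K] V} (hb : Bk r br) (u v : V) : br u v = -br v u := by
  have := hb.alt (u + v)
  simp only [map_add, LinearMap.add_apply, hb.alt, zero_add, add_zero] at this
  rw [eq_neg_iff_add_eq_zero, add_comm, this]

omit [CharP K 3]
variable [Fintype F] (hF : Fintype.card F = 81)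

variable (ι r) in
/-- The coefficients of the root elements. -/
noncomputable def E (c : ℕ) : End K V :=
  ∑ t : F, (1 - (Polynomial.X - Polynomial.C (ι t)) ^ 80 : Polynomial K).coeff c • r (uu t)

omit [Fintype F] in
theorem deg (t : F) :
    (1 - (Polynomial.X - Polynomial.C (ι t)) ^ 80 : Polynomial K).natDegree < 81 :=
  Nat.lt_succ_of_le (by compute_degree)

theorem E_big {c : ℕ} (hc : 81 ≤ c) : E ι r c = 0 :=
  sum_eq_zero fun t _ => by
    rw [Polynomial.coeff_eq_zero_of_natDegree_lt ((deg t).trans_le hc), zero_smul]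

theorem E_mem {A : Submodule K V} (hA : Inv r A) (c : ℕ) (hh : h ∈ A) : E ι r c h ∈ A := by
  rw [E, LinearMap.sum_apply]
  exact A.sum_mem fun t _ => A.smul_mem _ (hA _ _ hh)

include hF

theorem u_eq (s : F) : r (uu s) = ∑ c ∈ range 81, ι s ^ c • E ι r c := by
  classical
  simp only [E, smul_sum, smul_smul]
  rw [sum_comm]
  simp only [← sum_smul, mul_comm (ι s ^ _), ← Polynomial.eval_eq_sum_range' (deg _)]
  rw [sum_eq_single s (fun t _ ht => ?_) (by simp)]
  · simp
  · have := FiniteField.pow_card_sub_one_eq_one (s - t) (sub_ne_zero.2 ht.symm)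
    rw [hF] at this
    simp [← map_sub, ← map_pow, this]

theorem vz {W : Type*} [AddCommGroup W] [Module K W] {x y : ℕ → W}
    (e : ∀ t : F, ∑ c ∈ range 81, ι t ^ c • x c = ∑ c ∈ range 81, ι t ^ c • y c) {c : ℕ}
    (hc : c < 81) : x c = y c :=
  sub_eq_zero.1 (vand (d := 80) ι.injective (by omega) ⊥ (fun c => x c - y c) (fun t => by
    simp only [smul_sub, sum_sub_distrib, Submodule.mem_bot]
    exact sub_eq_zero.2 (e t)) c (by omega))

theorem E0 : E ι r 0 = 1 := by
  have := u_eq (ι := ι) (r := r) hF 0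
  rw [uu0, map_one, sum_eq_single 0 (fun c _ hc => by simp [hc]) (by simp)] at this
  simpa using this.symm

theorem E_tt (a : Fˣ) {c : ℕ} (hc : c < 81) :
    r (tt a) * E ι r c = (ι a ^ 2) ^ c • (E ι r c * r (tt a)) :=
  vz (ι := ι) hF (x := fun c => r (tt a) * E ι r c)
    (y := fun c => (ι a ^ 2) ^ c • (E ι r c * r (tt a))) (fun t => by
      have := congrArg r (tt_uu a t)
      rw [map_mul, map_mul, u_eq (ι := ι) hF, u_eq (ι := ι) hF, mul_sum, sum_mul] at this
      simpa only [mul_smul_comm, smul_mul_assoc, map_mul, map_pow, mul_pow, smul_smul,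
        mul_comm (ι t ^ _)] using this) hc

theorem E_mul {a c : ℕ} (ha : a < 81) (hc : c < 81) :
    E ι r a * E ι r c = ((a + c).choose a : K) • E ι r (a + c) := by
  refine vz (ι := ι) hF (x := fun c => E ι r a * E ι r c)
    (y := fun c => ((a + c).choose a : K) • E ι r (a + c)) (fun t => ?_) hc
  refine vz (ι := ι) hF (x := fun a => ∑ c ∈ range 81, ι t ^ c • (E ι r a * E ι r c))
    (y := fun a => ∑ c ∈ range 81, ι t ^ c • (((a + c).choose a : K) • E ι r (a + c)))
    (fun s => ?_) ha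
  have := congrArg r (uu_add s t)
  rw [map_mul, u_eq (ι := ι) hF, u_eq (ι := ι) hF s, u_eq (ι := ι) hF t, sum_mul_sum] at this
  calc _ = _ := sum_congr rfl fun a _ => by
          simp only [smul_sum, mul_smul_comm, smul_mul_assoc, smul_comm (ι s ^ a)]
    _ = _ := this.symm
    _ = ∑ m ∈ range 81, ∑ k ∈ range (m + 1), (fun a c => ι s ^ a • ι t ^ c •
          ((a + c).choose a : K) • E ι r (a + c)) k (m - k) := sum_congr rfl fun m _ => by
        rw [map_add, add_pow, sum_smul]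
        refine sum_congr rfl fun k hk => ?_
        simp only [smul_smul, mul_assoc]
        rw [Nat.add_sub_cancel' (Nat.lt_succ_iff.1 (mem_range.1 hk))]
    _ = _ := by
        refine (sum_range_diag_flip 81 fun a c => ι s ^ a • ι t ^ c •
          ((a + c).choose a : K) • E ι r (a + c)).trans (sum_congr rfl fun a _ => ?_)
        rw [smul_sum]
        refine sum_subset (range_subset_range.2 (Nat.sub_le _ _)) fun c _ hc => ?_
        rw [E_big (by rw [mem_range] at hc; omega)]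
        simp

omit hF [Fintype F] in
theorem tab : ∀ j < 4, ∀ c < 81, c = 0 ∨ c = 3 ^ j ∨ c = 2 * 3 ^ j ∨
    ∃ i < 4, i ≠ j ∧ o3 c (3 ^ i) = true := by decide +kernel

theorem tri {p q : ℕ} (hp : p + q < 81) (h0 : p ≠ 0) (h0' : q ≠ 0) (hpq : p ≠ q) {x y z : V}
    (e : ∀ s : F, ι s ^ p • x + ι s ^ q • y + ι s ^ (p + q) • z = 0) : x = 0 ∧ z = 0 := by
  have := fun c => vz (ι := ι) hF (y := 0) (c := c) (x := fun c => (if c = p then x else 0) +
    (if c = q then y else 0) + if c = p + q then z else 0) fun s => by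
      simp only [smul_add, sum_add_distrib, smul_ite, smul_zero, sum_ite_eq', mem_range,
        Pi.zero_apply, sum_const_zero]
      rw [if_pos (by omega), if_pos (by omega), if_pos hp, e]
  exact ⟨by simpa [hpq, h0'] using this p (by omega), by simpa [h0, h0'] using this _ hp⟩

end WL

open WL

variable {F K V : Type*} [Field F] [Fintype F] [Field K] [IsAlgClosed K] [CharP K 3]
  [AddCommGroup V] [Module K V] [FiniteDimensional K V] {ι : F →+* K} {r : SL F →* End K V}
  {A B : Submodule K V} {g : SL F} {l : Kˣ} {m : ℕ}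
  {br : V →ₗ[K] V →ₗ[K] V} {b : V →ₗ[K] V →ₗ[K] K} {σ : V →+ V}
  (hF : Fintype.card F = 81) (h1 : r (-1) = 1) {a : Fˣ} (ha : orderOf a = 80) {h h' v v' : V}
  {i j k : ℕ}
include hF h1

set_option linter.unusedSectionVars false

include ha in
theorem wl (hA : Inv r A) (hj : j < 4) (e1 : ∀ i < 4, i ≠ j → ed r A (tt a) ((ι a ^ 2) ^ 3 ^ i) = 0)
    (e2 : ed r A (tt a) ((ι a ^ 2) ^ (2 * 3 ^ j)) = 0) (hh : h ∈ A) (ht : r (tt a) h = h) :
    ∃ v ∈ A, ∀ s, r (uu s) h = h + ι s ^ 3 ^ j • v := by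
  have lt : ∀ i < 4, 3 ^ i ≤ 27 := fun i hi => Nat.pow_le_pow_right (n := 3) (by decide)
    (show i ≤ 3 by omega)
  have z : ∀ c < 81, ed r A (tt a) ((ι a ^ 2) ^ c) = 0 → E ι r c h = 0 := fun c hc e => by
    refine (Submodule.eq_bot_iff _).1 (Submodule.finrank_eq_zero.1 e) _ ⟨E_mem hA c hh, ?_⟩
    refine End.mem_eigenspace_iff.2 ?_
    rw [← End.mul_apply, E_tt hF a hc, LinearMap.smul_apply, End.mul_apply, ht]
  refine ⟨_, E_mem (ι := ι) hA (3 ^ j) hh, fun s => ?_⟩
  have := lt j hj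
  rw [u_eq (ι := ι) hF, LinearMap.sum_apply, sum_eq_add_of_mem 0 (3 ^ j) (by simp)
    (mem_range.2 (by omega)) (by positivity) fun c hc hc' => ?_]
  · simp [E0 hF]
  rw [mem_range] at hc
  rw [LinearMap.smul_apply, smul_eq_zero]
  right
  rcases tab j hj c hc with e | e | e | ⟨i, hi, hij, e⟩
  · exact (hc'.1 e).elim
  · exact (hc'.2 e).elim
  · exact z c hc (e ▸ e2)
  have := lt i hi
  obtain ⟨o1, o2⟩ := (ch3 c hc (3 ^ i) (by omega)).1 e
  have k := LinearMap.congr_fun (E_mul (ι := ι) (r := r) hF (a := c - 3 ^ i) (c := 3 ^ i)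
    ((Nat.sub_le _ _).trans_lt hc) (by omega)) h
  rw [End.mul_apply, z (3 ^ i) (by omega) (e1 i hi hij), map_zero, Nat.sub_add_cancel (by omega),
    Nat.choose_symm (by omega), LinearMap.smul_apply, eq_comm, smul_eq_zero,
    CharP.cast_eq_zero_iff K 3, Nat.choose_eq_descFactorial_div_factorial] at k
  exact k.resolve_left o2

theorem Hv.inv (H : Hv ι r (3 ^ j) h v) : Inv r (Submodule.span K {h, v, r (ww F) v}) := by
  set W := Submodule.span K {h, v, r (ww F) v}
  have m1 : h ∈ W := Submodule.subset_span (by simp)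
  have m2 : v ∈ W := Submodule.subset_span (by simp)
  have m3 : r (ww F) v ∈ W := Submodule.subset_span (by simp)
  have k : ∀ g, r g h ∈ W → r g v ∈ W → r g (r (ww F) v) ∈ W → ∀ w ∈ W, r g w ∈ W :=
    fun g a b c => (Submodule.span_le (p := W.comap (r g))).2 (by
      rintro _ (rfl | rfl | rfl)
      exacts [a, b, c])
  have ku : ∀ s, ∀ w ∈ W, r (uu s) w ∈ W := fun s => k _
    (by rw [H.u]; exact add_mem m1 (W.smul_mem _ m2)) (by rwa [uv H])
    (by rw [ua h1 H]; exact add_mem (sub_mem m3 (W.smul_mem _ m1)) (W.smul_mem _ m2))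
  have kt : ∀ c, ∀ w ∈ W, r (tt c) w ∈ W := fun c => k _ (by rwa [H.t])
    (by rw [wt H]; exact W.smul_mem _ m2) (by rw [wt' H]; exact W.smul_mem _ m3)
  have kw : ∀ w ∈ W, r (ww F) w ∈ W := k _ (by rw [H.w]; exact neg_mem m1) m3 (by rwa [nn h1])
  intro g w hw
  rcases bruhat g with ⟨a, c, rfl⟩ | ⟨s, a, c, rfl⟩
  · rw [ap]; exact kt _ _ (ku _ _ hw)
  · simp only [ap]; exact ku _ _ (kw _ (kt _ _ (ku _ _ hw)))

theorem Hv.wt (H : Hv ι r k h v) (c : Fˣ) : r (tt c) v = (ι c ^ 2) ^ k • v := WL.wt H c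

theorem Hv.inj (H : Hv ι r k h 0) : h = 0 := by
  have := rel' h1 1 h
  simp only [H.w, H.t, H.u, map_neg, smul_zero, add_zero, neg_neg] at this
  rw [← two K] at this
  simpa using this

theorem Hv.same (hb : Bk r br) (hn : ∀ x, (∀ c, r (tt c) x = x) → r (ww F) x = -x)
    (H : Hv ι r (3 ^ j) h v) (H' : Hv ι r (3 ^ j) h' v') :
    Hv ι r (3 ^ j) (br v (r (ww F) v')) (br h' v) := by
  have t : ∀ c, r (tt c) (br v (r (ww F) v')) = br v (r (ww F) v') := fun c => by
    rw [hb.inv, WL.wt H, wt' H', map_smul, map_smul, LinearMap.smul_apply, smul_smul, ← mul_pow,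
      ← mul_pow, ← map_mul, inv_mul_cancel₀ c.ne_zero]
    simp
  have w := hn _ t
  have u : ∀ s, r (uu s) (br v (r (ww F) v')) = br v (r (ww F) v') - ι s ^ 3 ^ j • br v h' +
      (ι s ^ 3 ^ j * ι s ^ 3 ^ j) • br v v' := fun s => by
    rw [hb.inv, uv H, ua h1 H', map_add, map_sub, map_smul, map_smul]
  have u' : ∀ s, -r (uu s) (br v (r (ww F) v')) = -br v (r (ww F) v') - ι s ^ 3 ^ j • br h v' +
      (ι s ^ 3 ^ j * ι s ^ 3 ^ j) • br v v' := fun s => by
    rw [← map_neg, ← w, hb.inv, nn h1, hb.inv, uv H', ua h1 H]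
    simp only [map_add, map_sub, map_smul, LinearMap.add_apply, LinearMap.sub_apply,
      LinearMap.smul_apply]
  have z : br v v' = 0 := by
    have a := u' 1
    have b := u' (-1)
    rw [u] at a b
    simp only [map_one, map_neg, one_pow, (Odd.pow (by decide : Odd 3)).neg_pow, mul_one, one_smul,
      neg_mul_neg, neg_smul] at a b
    have c : br v v' + br v v' + (br v v' + br v v') = 0 := by
      rw [← sub_eq_zero] at a b
      rw [← neg_eq_zero, ← add_zero 0]
      nth_rewrite 1 [← a, ← b]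
      abel
    rwa [two K, two K, neg_neg] at c
  exact ⟨t, w, fun s => by rw [u, z, anti hb h' v]; simp [sub_eq_add_neg]⟩

theorem Hv.diff (hb : Bk r br) (hi : i < 4) (hj : j < 4) (hij : i ≠ j)
    (H : Hv ι r (3 ^ i) h v) (H' : Hv ι r (3 ^ j) h' v') (e : br h h' = 0) :
    br h v' = 0 ∧ br v v' = 0 := by
  have lt : ∀ i < 4, 3 ^ i ≤ 27 := fun i hi => Nat.pow_le_pow_right (n := 3) (by decide)
    (show i ≤ 3 by omega)
  have := lt i hi
  have := lt j hj
  refine tri (ι := ι) hF (p := 3 ^ j) (q := 3 ^ i) (y := br v h') (by omega) (by positivity)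
    (by positivity) (fun e => hij (Nat.pow_right_injective (by decide) e).symm) fun s => ?_
  have := hb.inv (uu s) h h'
  rw [e, map_zero, H.u, H'.u] at this
  simp only [map_add, map_smul, LinearMap.add_apply, LinearMap.smul_apply, e] at this
  rw [this, pow_add]
  module

theorem Pp_fr (hs : F3 r σ) : σ v ∈ Pp ι r (3 * k) ↔ v ∈ Pp ι r k := by
  refine ⟨fun ⟨h, H⟩ => ?_, fun ⟨h, H⟩ => ⟨σ h, fun c => by rw [← hs.comm, H.t],
    by rw [← hs.comm, H.w, map_neg],
    fun s => by rw [← hs.comm, H.u, map_add, hs.smul, ← pow_mul, mul_comm]⟩⟩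
  obtain ⟨h, rfl⟩ := hs.bij.2 h
  exact ⟨h, fun c => hs.bij.1 (by rw [hs.comm, H.t]), hs.bij.1 (by rw [hs.comm, H.w, map_neg]),
    fun s => hs.bij.1 (by rw [hs.comm, H.u, map_add, hs.smul, ← pow_mul, mul_comm])⟩

theorem Pp_81 : Pp ι r 81 = Pp ι r 1 := by
  have e : ∀ s : F, ι s ^ 81 = ι s ^ 1 := fun s => by
    rw [← map_pow, ← hF, FiniteField.pow_card, pow_one]
  ext v
  exact exists_congr fun h => ⟨fun H => ⟨H.t, H.w, fun s => by rw [H.u, e]⟩,
    fun H => ⟨H.t, H.w, fun s => by rw [H.u, e]⟩⟩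

end CF.Ez
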