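import Cfsg.Agent.Ez.U2
import Cfsg.Agent.Ez.WL

/-! A submodule of dimension three in the regular cases. -/

set_option autoImplicit false

namespace CF.Ez

open Module Matrix CF.E83 CF.Ey Finset CF.Ey.G

namespace K2

/-- The modules of dimension three. -/
def T3 : List (Fin 41) := [1, 3, 9, 27]

/-- The other modules of multiplicity at least two. -/
def S7 : List (Fin 41) := [2, 6, 14, 18, 5, 15, 20]

/-- A weight of the module `m`. -/
def kk (m : Fin 41) : ℕ := if m = 5 then 4 else if m = 15 then 12 else if m = 20 then 7 else m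

/-- Another weight. -/
def k' (m : Fin 41) : ℕ := if m = 20 then 20 else kk m

/-- The weight `k` does not occur in the alternating square. -/
def BR (m : Fin 41) (k : ℕ) : Prop := ∀ i < 40, ∀ i' < 40, (i + i') % 40 = k →
  cf 40 m i = 0 ∨ cf 40 m i' = 0 ∨ i = i' ∧ cf 40 m i = 1

noncomputable instance (m : Fin 41) (k : ℕ) : Decidable (BR m k) := by unfold BR; infer_instance

theorem t1 : ∀ m ∈ T3, ∃ j < 4, m.1 = 3 ^ j ∧ cf 40 m 0 ≠ 0 ∧ ∀ m' ∈ [m, 20],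
    (∀ i < 4, i ≠ j → cf 40 m' (3 ^ i) = 0) ∧ cf 40 m' (2 * 3 ^ j) = 0 := by decide +kernel

theorem t2 : ∀ m : Fin 41, (2 ≤ tb 6 m → m = 20) ∧ (2 ≤ tb 2 m → m ∈ T3 ∨ m ∈ S7) ∧
    (tb 2 m ≠ 0 → cf 40 m 0 ≠ 0 → m ∈ T3) := by decide +kernel

theorem t3 : ∀ m ∈ S7, cf 40 m (kk m) ≠ 0 ∧ cf 40 m (k' m) ≠ 0 ∧ kk m ∈ [2, 6, 14, 18, 4, 12, 7] ∧
    k' m < 40 ∧ ∀ m' ∈ S7, m' = 20 ∨ m ≠ 20 → BR m (k' m') := by decide +kernel

theorem ws_zero {n : Fin 41 → ℕ} {w : ℕ → ℕ} : ws n w = 0 ↔ ∀ m, n m ≠ 0 → w m = 0 := by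
  simp [ws, or_iff_not_imp_left]

theorem ws_single (m : Fin 41) (w : ℕ → ℕ) : ws (Pi.single m 1) w = w m := by
  simp [ws, Pi.single_apply]

section Lin
variable {K V : Type*} [Field K] [AddCommGroup V] [Module K V] {T : End K V} {N : ℕ} {μ : K}

theorem sum_pj (hN : (N : K) ≠ 0) (h : IsPrimitiveRoot μ N) (v : V) :
    ∑ i ∈ range N, pj T N (μ ^ i) v = v := by
  have N0 : N ≠ 0 := by rintro rfl; simp at hN
  simp only [pj, LinearMap.smul_apply, LinearMap.sum_apply, ← smul_sum]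
  rw [sum_comm, sum_eq_single 0 (fun k hk k0 => ?_) (by simp [N0])]
  · simp [← Nat.cast_smul_eq_nsmul K, smul_smul, hN]
  · rw [← sum_smul]
    have e : ∀ i, (μ ^ i)⁻¹ ^ k = (μ⁻¹ ^ k) ^ i := fun i => by rw [← inv_pow, ← pow_mul, ← pow_mul, mul_comm]
    have := geom_sum_eq (x := μ⁻¹ ^ k) (h.inv.pow_ne_one_of_pos_of_lt k0 (mem_range.1 hk)) N
    simp only [e, this]
    rw [← pow_mul, mul_comm, pow_mul, h.inv.pow_eq_one]
    simp

theorem pj_ne (hN : (N : K) ≠ 0) (hT : T ^ N = 1) (hμ : μ ^ N = 1) {ν : K} (h : ν ≠ μ) {v : V}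
    (hv : v ∈ T.eigenspace ν) : pj T N μ v = 0 := by
  have h1 := End.mem_eigenspace_iff.1 (pj_eig hN hT hμ v)
  have h2 := End.mem_eigenspace_iff.1 (pj_mem (N := N) (μ := μ) (A := T.eigenspace ν)
    (fun w hw => by
      rw [End.mem_eigenspace_iff] at hw ⊢
      rw [hw, map_smul, hw]) hv)
  rw [h1, ← sub_eq_zero, ← sub_smul, smul_eq_zero, sub_eq_zero] at h2
  exact h2.resolve_left h.symm

end Lin

variable {F K V : Type*} [Field F] [Fintype F] [Field K] [IsAlgClosed K] [CharP K 3]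
  [AddCommGroup V] [Module K V] [FiniteDimensional K V] {ι : F →+* K} {r : SL F →* End K V}
  {A C M : Submodule K V} {br : V →ₗ[K] V →ₗ[K] V} {b : V →ₗ[K] V →ₗ[K] K}
  (hF : Fintype.card F = 81) (h1 : r (-1) = 1) {a : Fˣ} (ha : orderOf a = 80)

omit [Fintype F] [IsAlgClosed K] [FiniteDimensional K V] in
include h1 ha in
theorem y40 : ((40 : ℕ) : K) ≠ 0 ∧ r (tt a) ^ 40 = 1 ∧ IsPrimitiveRoot (ι a ^ 2) 40 := by
  have p : IsPrimitiveRoot (a : F) 80 := IsPrimitiveRoot.coe_units_iff.2 (ha ▸ .orderOf a)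
  refine ⟨(CharP.cast_eq_zero_iff K 3 40).not.2 (by decide), ?_,
    (p.map_of_injective ι.injective).pow (by decide) rfl⟩
  have e : ∀ k : ℕ, tt a ^ k = tt (a ^ k) := fun k => by
    induction k with
    | zero => rw [pow_zero]; exact Subtype.ext (by simp [tt, one_fin_two])
    | succ k ih => rw [pow_succ, ih, pow_succ, tt_mul]
  have := (p.pow (a := 40) (b := 2) (by decide) rfl).eq_neg_one_of_two_right
  rw [← map_pow, e, ← h1]
  exact congrArg r (Subtype.ext (by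
    ext i j; fin_cases i <;> fin_cases j <;> simp [tt, this]))

omit [IsAlgClosed K] [CharP K 3] [FiniteDimensional K V] in
theorem span3 (h v w : V) : finrank K (Submodule.span K {h, v, w}) ≤ 3 := by
  classical
  have := finrank_span_finset_le_card (R := K) ({h, v, w} : Finset V)
  rw [Set.finrank, coe_insert, coe_insert, coe_singleton] at this
  exact this.trans card_le_three

include hF h1 ha

theorem ex_eig (hA : Inv r A) {m : Fin 41} (h : np ι r A m ≠ 0) {k : ℕ} (e : cf 40 m k ≠ 0) :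
    ∃ z ∈ A ⊓ (r (tt a)).eigenspace ((ι a ^ 2) ^ k), z ≠ 0 := by
  refine Submodule.exists_mem_ne_zero_of_ne_bot fun c => e ?_
  have := np_ed hF h1 ι hA ha k
  rw [ed, c, finrank_bot, ws_cw, eq_comm, ws_zero] at this
  exact this m h

theorem fin (hn : ∀ x ∈ fs (r (tt a)), r (ww F) x = -x) (hA : Inv r A) {m : Fin 41} (hm : m ∈ T3)
    (h : np ι r A m ≠ 0) (e : ∀ m', np ι r A m' ≠ 0 → m' ∈ [m, 20]) :
    ∃ j < 4, ∃ h ∈ A, ∃ v ∈ A, h ≠ 0 ∧ Hv ι r (3 ^ j) h v := by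
  obtain ⟨j, hj, -, h2, h3⟩ := t1 m hm
  obtain ⟨z, ⟨z1, z2⟩, z0⟩ := ex_eig hF h1 ha hA h h2
  have z3 : r (tt a) z = z := by simpa using z2
  obtain ⟨v, v1, v2⟩ := wl (ι := ι) hF h1 ha hA hj
    (fun i hi n => by rw [np_ed hF h1 ι hA ha, ws_cw, ws_zero]; exact fun c k => (h3 c (e c k)).1 i hi n)
    (by rw [np_ed hF h1 ι hA ha, ws_cw, ws_zero]; exact fun c k => (h3 c (e c k)).2) z1 z3
  refine ⟨j, hj, z, z1, v, v1, z0, fun c => ?_, hn z (mem_fs.2 z3), v2⟩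
  obtain ⟨k, q⟩ := tt_pow hF ha c
  rw [q, map_pow, End.pow_apply, Function.iterate_fixed z3]

omit ha in
theorem step (fm : Fm r b) (hC : Inv r C) (h : ∃ m ∈ T3, np ι r C m ≠ 0) :
    ∃ A R : Submodule K V, ∃ m ∈ T3, Inv r A ∧ Inv r R ∧ R ≤ C ∧ (∀ m ∈ T3, np ι r R m = 0) ∧
      np ι r A = np ι r R + Pi.single m 1 ∧ ∀ m, 2 * np ι r R m ≤ np ι r ⊤ m := by
  obtain ⟨A, ⟨a1, a2, m, a3, a4⟩, mn⟩ := exists_minimalFor_of_wellFoundedLT
    (fun A => Inv r A ∧ A ≤ C ∧ ∃ m ∈ T3, np ι r A m ≠ 0) (fun A => finrank K A) ⟨C, hC, le_rfl, h⟩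
  have lt : ∀ D, Inv r D → D < A → ∀ m ∈ T3, np ι r D m = 0 := fun D d1 d2 m hm => by_contra fun k =>
    (Submodule.finrank_lt_finrank_of_lt d2).not_ge
      (mn ⟨d1, d2.le.trans a2, m, hm, k⟩ (Submodule.finrank_mono d2.le))
  obtain ⟨R, c⟩ := exists_cov' a1 (by rintro rfl; simp [np_bot hF h1] at a4)
  obtain ⟨m', e⟩ := cov_np hF h1 ι c
  have r0 := lt R c.a c.lt
  obtain rfl : m = m' := by_contra fun k => a4 (by simp [e, r0 m a3, k])
  have p := np_perp hF h1 ι fm c.a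
  have i := fm.inv_perp c.a
  have le : A ≤ LinearMap.BilinForm.orthogonal b R := by_contra fun k => by
    have q1 := congrFun (np_sup hF h1 ι a1 i) m
    have q2 := congrFun p m
    have q3 : _ ≤ np ι r ⊤ m := np_mono hF h1 ι (a1.sup i) (Ey.K.inv_top r) le_top m
    rw [Pi.add_apply, Pi.add_apply, lt _ (a1.inf i) (inf_lt_left.2 k) m a3] at q1
    rw [Pi.add_apply, r0 m a3] at q2
    omega
  refine ⟨A, R, m, a3, a1, c.a, c.lt.le.trans a2, r0, e, fun k => ?_⟩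
  have q1 : np ι r A k ≤ _ := np_mono hF h1 ι a1 i le k
  have q2 := congrFun p k
  have q3 : np ι r R k ≤ np ι r A k := np_mono hF h1 ι c.a a1 c.lt.le k
  rw [Pi.add_apply] at q2
  omega

theorem br0 (hb : Bk r br) (hM : Inv r M) {m : Fin 41} (e : np ι r M = Pi.single m 1) {k : ℕ}
    (h : BR m k) (hk : k < 40) :
    Submodule.map₂ br M M ⊓ (r (tt a)).eigenspace ((ι a ^ 2) ^ k) = ⊥ := by
  obtain ⟨y1, y2, y3⟩ := y40 (ι := ι) h1 ha
  have u : ∀ i, ((ι a ^ 2) ^ i) ^ 40 = 1 := fun i => by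
    rw [← pow_mul, mul_comm, pow_mul, y3.pow_eq_one, one_pow]
  have d : ∀ i, finrank K ↥(M ⊓ (r (tt a)).eigenspace ((ι a ^ 2) ^ i)) = cf 40 m i := fun i => by
    have := np_ed hF h1 ι hM ha i
    rwa [e, ws_cw, ws_single] at this
  have key : Submodule.map₂ br M M ≤ LinearMap.ker (pj (r (tt a)) 40 ((ι a ^ 2) ^ k)) := by
    refine Submodule.map₂_le.2 fun x hx x' hx' => ?_
    rw [← sum_pj (T := r (tt a)) y1 y3 x, ← sum_pj (T := r (tt a)) y1 y3 x', map_sum br,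
      LinearMap.sum_apply]
    refine sum_mem fun i hi => ?_
    rw [map_sum]
    refine sum_mem fun i' hi' => ?_
    have m1 : ∀ i, ∀ x ∈ M, pj (r (tt a)) 40 ((ι a ^ 2) ^ i) x ∈
        M ⊓ (r (tt a)).eigenspace ((ι a ^ 2) ^ i) := fun i x hx => ⟨pj_mem (hM _) hx, pj_eig y1 y2 (u i) x⟩
    have p := m1 i x hx
    have p' := m1 i' x' hx'
    generalize pj (r (tt a)) 40 ((ι a ^ 2) ^ i) x = w at p
    generalize pj (r (tt a)) 40 ((ι a ^ 2) ^ i') x' = w' at p'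
    by_cases q : (i + i') % 40 = k
    · have z : ∀ i, ∀ w ∈ M ⊓ (r (tt a)).eigenspace ((ι a ^ 2) ^ i), cf 40 m i = 0 → w = 0 :=
        fun i w hw c => (Submodule.finrank_eq_zero.1 ((d i).trans c)).le hw
      obtain c | c | ⟨rfl, o⟩ := h i (mem_range.1 hi) i' (mem_range.1 hi') q
      · simp [z i w p c]
      · simp [z i' w' p' c]
      obtain ⟨v, hv⟩ := finrank_le_one_iff.1 ((d i).trans o).le
      obtain ⟨s, hs⟩ := hv ⟨w, p⟩
      obtain ⟨t, ht⟩ := hv ⟨w', p'⟩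
      rw [show w = s • v.1 from congrArg Subtype.val hs.symm,
        show w' = t • v.1 from congrArg Subtype.val ht.symm]
      simp [hb.alt]
    · refine pj_ne y1 y2 (u k) (ν := (ι a ^ 2) ^ (i + i')) (fun c => q ?_) ?_
      · rw [pow_eq_pow_mod _ y3.pow_eq_one] at c
        exact y3.pow_inj (Nat.mod_lt _ (by decide)) hk c
      · rw [End.mem_eigenspace_iff, hb.inv, End.mem_eigenspace_iff.1 p.2, End.mem_eigenspace_iff.1 p'.2]
        simp [smul_smul, pow_add, mul_comm]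
  exact eq_bot_iff.2 fun w hw => (pj_of y1 (u k) hw.2).symm.trans (key hw.1)

theorem sq (hb : Bk r br) (h : np ι r ⊤ = tb 2) (nz : Nz r br (tt a) (ww F) (ι a ^ 2)) (hM : Inv r M)
    {m : Fin 41} (hm : m ∈ S7) (e : np ι r M = Pi.single m 1) :
    ∃ C, Inv r C ∧ (∃ m ∈ T3, np ι r C m ≠ 0) ∧ ∀ m' ∈ S7, m' = 20 ∨ m ≠ 20 → np ι r C m' = 0 := by
  obtain ⟨q1, -, q3, -, q5⟩ := t3 m hm
  have i : Inv r (Submodule.map₂ br M M) := fun g v hv =>
    (show Submodule.map₂ br M M ≤ (Submodule.map₂ br M M).comap (r g) from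
      Submodule.map₂_le.2 fun u hu v hv => by
        rw [Submodule.mem_comap, hb.inv]
        exact Submodule.apply_mem_map₂ _ (hM g u hu) (hM g v hv)) hv
  refine ⟨_, i, ?_, fun m' c k => by_contra fun n => ?_⟩
  · obtain ⟨z, ⟨z1, z2⟩, z0⟩ := ex_eig (ι := ι) hF h1 ha hM (m := m) (by simp [e]) q1
    have w : br z (r (ww F) z) ∈ Submodule.map₂ br M M ⊓ (r (tt a)).eigenspace ((ι a ^ 2) ^ 0) := by
      refine ⟨Submodule.apply_mem_map₂ _ z1 (hM _ z z1), End.mem_eigenspace_iff.2 ?_⟩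
      have z3 := End.mem_eigenspace_iff.1 z2
      have : r (tt a) (r (ww F) (r (tt a) z)) = r (ww F) z := by
        rw [← End.mul_apply, ← map_mul, tt_ww, map_mul, End.mul_apply, ← End.mul_apply (r (tt a⁻¹)),
          ← map_mul, ← tt_mul, inv_mul_cancel, show tt (1 : Fˣ) = 1 from
            Subtype.ext (by simp [tt, one_fin_two]), map_one, End.one_apply]
      rw [hb.inv, pow_zero, one_smul, z3, map_smul, LinearMap.smul_apply, ← map_smul, ← map_smul,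
        ← map_smul, ← z3, this]
    by_contra! k
    have := np_ed hF h1 ι i ha 0
    rw [ws_cw, ws_zero.2 fun c n => by_contra fun o => n (k c ((t2 c).2.2 (fun s => n
      (Nat.le_zero.1 ((np_mono hF h1 ι i (Ey.K.inv_top r) le_top c).trans_eq (h ▸ s)))) o)), ed,
      Submodule.finrank_eq_zero] at this
    exact z0 (nz _ q3 z z2 (this.le w))
  · obtain ⟨-, q2, -, q4, -⟩ := t3 m' c
    obtain ⟨z, z1, z0⟩ := ex_eig hF h1 ha i n q2
    exact z0 ((br0 hF h1 ha hb hM e (q5 m' c k) q4).le z1)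

end K2

open K2

variable {F K V : Type*} [Field F] [Fintype F] [Field K] [IsAlgClosed K] [CharP K 3]
  [AddCommGroup V] [Module K V] [FiniteDimensional K V] {ι : F →+* K} {r : SL F →* End K V}
  {br : V →ₗ[K] V →ₗ[K] V} {b : V →ₗ[K] V →ₗ[K] K}

theorem ex3 (hF : Fintype.card F = 81) (h1 : r (-1) = 1) {a : Fˣ} (ha : orderOf a = 80)
    (fm : Fm r b) (hb : Bk r br) (hn : ∀ x ∈ fs (r (tt a)), r (ww F) x = -x)
    (h : np ι r ⊤ = tb 6 ∨ np ι r ⊤ = tb 2 ∧ Nz r br (tt a) (ww F) (ι a ^ 2)) :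
    ∃ A, Inv r A ∧ A ≠ ⊥ ∧ finrank K A ≤ 3 := by
  by_contra! hc
  have f : ∀ A R m, m ∈ T3 → Inv r A → np ι r A = np ι r R + Pi.single m 1 →
      ∃ m', np ι r R m' ≠ 0 ∧ m' ≠ 20 := fun A R m m1 a1 e => by
    by_contra! k
    obtain ⟨j, -, z, -, v, -, z0, H⟩ := K2.fin (ι := ι) hF h1 ha hn a1 m1 (by simp [e]) fun c n => by
      by_cases q : c = m
      · simp [q]
      · simpa [q] using k c (by simpa [e, q] using n)
    exact (hc _ (H.inv hF h1) fun e => z0 (e.le (Submodule.subset_span (by simp)))).not_ge (span3 _ _ _)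
  rcases h with h | ⟨h, nz⟩
  · obtain ⟨A, R, m, m1, a1, -, -, -, e, q⟩ := step (ι := ι) hF h1 fm (Ey.K.inv_top r) ⟨1, by decide, by rw [h]; decide⟩
    obtain ⟨c, c1, c2⟩ := f A R m m1 a1 e
    have := q c
    rw [h] at this
    exact c2 ((t2 c).1 (by omega))
  have go : ∀ C, Inv r C → (∃ m ∈ T3, np ι r C m ≠ 0) → ∃ m ∈ S7, np ι r C m ≠ 0 ∧
      ∃ C, Inv r C ∧ (∃ m ∈ T3, np ι r C m ≠ 0) ∧ ∀ m' ∈ S7, m' = 20 ∨ m ≠ 20 → np ι r C m' = 0 :=
    fun C c1 c2 => by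
    obtain ⟨A, R, m, m1, a1, r1, r2, r3, e, q⟩ := step (ι := ι) hF h1 fm c1 c2
    obtain ⟨c, c3, -⟩ := f A R m m1 a1 e
    obtain ⟨M, m2, cv⟩ := exists_cov (Ey.K.inv_bot r) r1 (bot_lt_iff_ne_bot.2 (by
      rintro rfl; simp [np_bot hF h1] at c3))
    obtain ⟨k, e'⟩ := cov_np hF h1 ι cv
    rw [np_bot hF h1, zero_add] at e'
    have k1 : np ι r M k ≤ np ι r R k := np_mono hF h1 ι cv.b r1 m2 k
    have k2 : np ι r R k ≤ np ι r C k := np_mono hF h1 ι r1 c1 r2 k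
    have k3 := q k
    rw [e', Pi.single_eq_same] at k1
    rw [h] at k3
    have k4 := ((t2 k).2.1 (by omega)).resolve_left fun s => by have := r3 k s; omega
    exact ⟨k, k4, by omega, sq hF h1 ha hb h nz cv.b k4 e'⟩
  obtain ⟨m1, -, -, C1, i1, p1, q1⟩ := go ⊤ (Ey.K.inv_top r) ⟨1, by decide, by rw [h]; decide⟩
  obtain ⟨m2, s2, n2, C2, i2, p2, q2⟩ := go C1 i1 p1
  obtain ⟨m3, s3, n3, -⟩ := go C2 i2 p2
  exact n3 (q2 m3 s3 (.inr fun e => n2 (q1 m2 s2 (.inl e))))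

end CF.Ez
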