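import Cfsg.Agent.Ez.K2

/-! The sum of the submodules of dimension three in the regular cases. -/

set_option autoImplicit false

namespace CF.Ez

open Module Matrix CF.E83 CF.Ey Finset CF.Ey.G K2

namespace K3

theorem t1 : ∀ m : Fin 41, (m ≠ 0 → 3 ≤ cf 1 m 0) ∧ (m ≠ 0 → cf 1 m 0 ≤ 3 → m ∈ T3) ∧
    (m ∈ T3 → cf 40 m 2 = 0) := by decide +kernel

variable {F K V : Type*} [Field F] [Fintype F] [Field K] [IsAlgClosed K] [CharP K 3]
  [AddCommGroup V] [Module K V] [FiniteDimensional K V] {ι : F →+* K} {r : SL F →* End K V}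
  {A : Submodule K V} {br : V →ₗ[K] V →ₗ[K] V} {σ : V →+ V}
  (hF : Fintype.card F = 81) (h1 : r (-1) = 1) {a : Fˣ}
include hF h1

theorem small (h0 : np ι r ⊤ 0 = 0) (hA : Inv r A) (n : A ≠ ⊥) (e : finrank K A ≤ 3) :
    finrank K A = 3 ∧ ∃ m ∈ T3, np ι r A m ≠ 0 ∧ ∀ m', np ι r A m' ≠ 0 → m' = m := by
  have c := (inv_cp hF h1 ι hA).rk
  have z : ∀ m, np ι r A m ≠ 0 → m ≠ 0 := by
    rintro _ k rfl
    exact k (Nat.le_zero.1 ((np_mono hF h1 ι hA (Ey.K.inv_top r) le_top 0).trans_eq h0))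
  have g : ∀ m, np ι r A m ≠ 0 → 3 ≤ np ι r A m * dj m ∧ dj m ≤ np ι r A m * dj m := fun m k => by
    have := Nat.le_mul_of_pos_left (dj m) (Nat.pos_of_ne_zero k)
    have := (t1 m).1 (z m k)
    rw [← dj_eq] at this
    omega
  obtain ⟨m, hm⟩ : ∃ m, np ι r A m ≠ 0 := by
    by_contra! k
    exact n (Submodule.finrank_eq_zero.1 (c.trans (ws_zero.2 fun m q => (q (k m)).elim)))
  have s : np ι r A m * dj m ≤ finrank K A :=
    c ▸ single_le_sum (f := fun m : Fin 41 => np ι r A m * dj m) (fun _ _ => Nat.zero_le _) (mem_univ m)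
  have g1 := g m hm
  refine ⟨by omega, m, (t1 m).2.1 (z m hm) (by rw [← dj_eq]; omega), hm, fun m' k => by_contra fun q => ?_⟩
  have g2 := g m' k
  have : np ι r A m' * dj m' + np ι r A m * dj m ≤ finrank K A :=
    c ▸ add_le_sum (f := fun m : Fin 41 => np ι r A m * dj m) (fun _ _ => Nat.zero_le _) (mem_univ m')
      (mem_univ m) q
  omega

theorem ky (hb : Bk r br) (fr : F3 r σ) (neg : ∀ h ∈ fs (r (tt a)), r (ww F) h = -h)
    (ab : ∀ h ∈ fs (r (tt a)), ∀ h' ∈ fs (r (tt a)), br h h' = 0) :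
    Ky r br σ (tt a) (ww F) (ι a ^ 2) (Nn ι r (3 ^ 0)) (Pp ι r (3 ^ 0)) := by
  have hn : ∀ x, (∀ c, r (tt c) x = x) → r (ww F) x = -x := fun x e => neg x (mem_fs.2 (e a))
  have it : ∀ i, ∀ v ∈ Pp ι r (3 ^ 0), σ^[i] v ∈ Pp ι r (3 ^ i) := fun i v hv => by
    induction i with
    | zero => exact hv
    | succ i ih => rw [Function.iterate_succ_apply', pow_succ']; exact (Pp_fr hF h1 fr).2 ih
  have df : ∀ i ∈ [1, 2, 3], ∀ h v, Hv ι r (3 ^ 0) h v → ∀ w ∈ Pp ι r (3 ^ 0),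
      br h (σ^[i] w) = 0 ∧ br v (σ^[i] w) = 0 := fun i hi h v H w hw => by
    obtain ⟨h', H'⟩ := it i w hw
    have : i < 4 ∧ 0 ≠ i := by simp at hi; omega
    exact H.diff hF h1 hb (by decide) this.1 this.2 H' (ab _ (mem_fs.2 (H.t a)) _ (mem_fs.2 (H'.t a)))
  refine ⟨fun h ⟨_, H⟩ => mem_fs.2 (H.t a), fun v ⟨_, H⟩ => End.mem_eigenspace_iff.2 ?_,
    fun h' ⟨_, H'⟩ v ⟨_, H⟩ => ⟨_, H.same hF h1 hb hn H'⟩, fun v ⟨_, H⟩ => ⟨_, H.same hF h1 hb hn H⟩,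
    fun h ⟨_, H⟩ v hv i hi => (df i hi _ _ H v hv).1, fun v hv => hv.elim fun _ H => (df 2 (by decide) _ _ H v hv).2,
    fun v ⟨h, H⟩ e k => ?_⟩
  · simpa using H.wt hF h1 a
  obtain ⟨c, e⟩ := e h ⟨v, H⟩
  have H' := H.same hF h1 hb hn H
  rw [e] at H'
  have : br v (r (ww F) v) - c • h = 0 := Hv.inj (ι := ι) (k := 3 ^ 0) hF h1
    ⟨fun s => by rw [map_sub, H'.t, map_smul, H.t], by rw [map_sub, H'.w, map_smul, H.w, smul_neg]; abel,
      fun s => by rw [map_sub, H'.u, map_smul, H.u, smul_add, smul_comm c, smul_zero]; abel⟩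
  rw [sub_eq_zero] at this
  rw [this, map_smul, LinearMap.smul_apply, e, smul_smul, smul_eq_zero, mul_self_eq_zero] at k
  rcases k with k | k
  · rw [this, k, zero_smul]
  · simp [k]

end K3

open K3

variable {F K V : Type*} [Field F] [Fintype F] [Field K] [IsAlgClosed K] [CharP K 3]
  [AddCommGroup V] [Module K V] [FiniteDimensional K V] {ι : F →+* K}
  {X : Type*} [Group X] {R : X →* End K V} {j : SL F →* X} {H : Subgroup X}
  {br : V →ₗ[K] V →ₗ[K] V} {b : V →ₗ[K] V →ₗ[K] K} {σ : V →+ V}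

theorem reg (hF : Fintype.card F = 81) (J : Jm H j) {a : Fˣ} (ha : orderOf a = 80)
    (fm : Fm R b) (hb : Bk R br) (fr : F3 R σ) {t : X}
    (rg : Rg R br σ (j (tt a)) (j (ww F)) t (ι a ^ 2))
    (h : np ι (R.comp j) ⊤ = tb 6 ∨
      np ι (R.comp j) ⊤ = tb 2 ∧ Nz R br (j (tt a)) (j (ww F)) (ι a ^ 2)) :
    ∃ W : Submodule K V, W ≠ ⊥ ∧ W ≠ ⊤ ∧ (∀ h ∈ H, ∀ v ∈ W, R h v ∈ W) ∧ ∀ v ∈ W, R t v ∈ W := by
  have h1 : R.comp j (-1) = 1 := by rw [MonoidHom.comp_apply, J.neg, map_one]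
  have fm' : Fm (R.comp j) b := ⟨fm.symm, fm.nd, fun g => fm.inv _⟩
  have hb' : Bk (R.comp j) br := ⟨fun g => hb.inv _, hb.alt⟩
  have fr' : F3 (R.comp j) σ := ⟨fr.smul, fr.bij, fun g => fr.comm _⟩
  have h0 : np ι (R.comp j) ⊤ 0 = 0 ∧ np ι (R.comp j) ⊤ 2 ≠ 0 := by
    rcases h with h | ⟨h, -⟩ <;> rw [h] <;> decide
  let W : Submodule K V := sSup {A | Inv (R.comp j) A ∧ finrank K A ≤ 3}
  have st : ∀ f : End K V, ∀ U : Submodule K V, (∀ A, Inv (R.comp j) A → finrank K A ≤ 3 → ∀ v ∈ A, f v ∈ U) →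
      ∀ v ∈ W, f v ∈ U := fun f U e v hv =>
    (show W ≤ U.comap f from sSup_le fun A a => e A a.1 a.2) hv
  have le : ∀ A, Inv (R.comp j) A → finrank K A ≤ 3 → A ≤ W := fun A a c => le_sSup ⟨a, c⟩
  have iW : Inv (R.comp j) W := fun g => st _ _ fun A a c v hv => le A a c (a g v hv)
  have pW : ∀ k, ∀ v ∈ Pp ι (R.comp j) (3 ^ k), v ∈ W := fun k v ⟨_, q⟩ =>
    le _ (q.inv hF h1) (span3 _ _ _) (Submodule.subset_span (by simp))
  have k0 := ky (ι := ι) (a := a) hF h1 hb' fr' rg.neg rg.ab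
  have p0 := rg.key _ _ ⟨k0.hN, k0.hP, k0.np, k0.pn, k0.ns, k0.ps, k0.nd⟩
  have dn : ∀ k, (∀ v ∈ Pp ι (R.comp j) (3 * k), R t v ∈ Pp ι (R.comp j) (3 * k)) →
      ∀ v ∈ Pp ι (R.comp j) k, R t v ∈ Pp ι (R.comp j) k := fun k e v hv =>
    (Pp_fr hF h1 fr').1 (fr.comm t v ▸ e _ ((Pp_fr hF h1 fr').2 hv))
  have p3 := dn 27 (by rw [show 3 * 27 = 81 from rfl, Pp_81 hF h1]; exact p0)
  have p2 := dn 9 p3
  have p1 := dn 3 p2
  obtain ⟨y1, y2, y3⟩ := y40 (ι := ι) h1 ha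
  have u : ((ι a ^ 2) ^ 2) ^ 40 = 1 := by rw [← pow_mul, mul_comm, pow_mul, y3.pow_eq_one, one_pow]
  refine ⟨W, ?_, fun e => ?_, fun g hg => st _ _ fun A a c v hv => le _ (Ey.K.inv_map (J.nor hg) a)
    ((Submodule.finrank_map_le _ _).trans c) ⟨v, hv, rfl⟩, st _ _ fun A a c => ?_⟩
  · obtain ⟨A, a1, a2, a3⟩ := ex3 hF h1 ha fm' hb' rg.neg h
    exact fun e => a2 (eq_bot_iff.2 (e ▸ le A a1 a3))
  · obtain ⟨z, z1, z0⟩ := ex_eig (ι := ι) hF h1 ha (Ey.K.inv_top _) h0.2 (k := 2) (by decide +kernel)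
    refine z0 ((pj_of y1 u z1.2).symm.trans (st _ ⊥ (fun A a c v hv => ?_) z (e.ge trivial)))
    by_cases n : A = ⊥
    · exact n ▸ pj_mem (a _) hv
    obtain ⟨-, m, m1, -, m3⟩ := small hF h1 h0.1 a n c
    have := np_ed hF h1 ι a ha 2
    rw [ws_cw, ws_zero.2 fun k q => m3 k q ▸ (K3.t1 m).2.2 m1, ed, Submodule.finrank_eq_zero] at this
    exact this.le ⟨pj_mem (a _) hv, pj_eig y1 y2 u v⟩
  · by_cases n : A = ⊥
    · simp [n]
    obtain ⟨-, m, m1, m2, m3⟩ := small hF h1 h0.1 a n c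
    obtain ⟨k, hk, z, z1, v, v1, z0, q⟩ := K2.fin hF h1 ha rg.neg a m1 m2 fun k q => by simp [m3 k q]
    have s : Submodule.span K {z, v, R.comp j (ww F) v} = A := Submodule.eq_of_le_of_finrank_le
      (Submodule.span_le.2 (by rintro _ (rfl | rfl | rfl); exacts [z1, v1, a _ v v1]))
      (c.trans (small hF h1 h0.1 (q.inv hF h1) (fun e => z0 (e.le (Submodule.subset_span (by simp))))
        (span3 _ _ _)).1.ge)
    have tv : R t v ∈ W := pW k _ (by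
      have : v ∈ Pp ι (R.comp j) (3 ^ k) := ⟨z, q⟩
      interval_cases k
      exacts [p0 v this, p1 v this, p2 v this, p3 v this])
    refine (show A ≤ W.comap (R t) from s ▸ Submodule.span_le.2 ?_)
    rintro _ (rfl | rfl | rfl)
    · exact Submodule.mem_comap.2 (by rw [rg.iv.fix _ (mem_fs.2 (q.t _))]; exact le A a c z1)
    · exact tv
    · have := iW (ww F) _ tv
      rwa [MonoidHom.comp_apply, ← End.mul_apply, ← map_mul, ← rg.cn, map_mul] at this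

end CF.Ez
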