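import Cfsg.Agent.Ez.A

/-! The simple modules of `SL₂(q)` in characteristic three. -/

set_option autoImplicit false

namespace CF.Ez

open Module Matrix CF.E83 CF.Ey Finset Cfsg
open CF.Geom.Sm (JJ LL Rr LL_eq finrank_LL Rr_apply Rr_lf)

namespace L

variable {F K : Type*} [Field F] [Field K] {ι : F →+* K} {d : ℕ}

/-- The matrix with the bottom row `(1, s)`. -/
def pp (s : F) : SL F := ⟨!![0, -1; 1, s], by simp⟩

theorem pp_uu (s : F) : pp 0 * uu s = pp s :=
  Subtype.ext (show (!![0, -1; 1, 0] * !![1, s; 0, 1] : Matrix _ _ F) = !![0, -1; 1, s] by simp)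

theorem lf_pp (a b : K) (s : F) : Geom.Sm.lf ι a b (pp s) = a + b * ι s := by
  show a * ι 1 + b * ι s = _
  rw [map_one, mul_one]

theorem lf_tt (a b : K) (l : Fˣ) : Geom.Sm.lf ι a b (pp 0 * tt l) = ι l * a := by
  have e : (pp 0 * tt l).1 = !![0, -(l : F)⁻¹; l, 0] :=
    show (!![0, -1; 1, 0] * !![(l : F), 0; 0, (l : F)⁻¹] : Matrix _ _ F) = _ by simp
  show a * ι ((pp 0 * tt l).1 1 0) + b * ι ((pp 0 * tt l).1 1 1) = _
  rw [e]
  simp [mul_comm]

/-- The monomials. -/
def mo (ι : F →+* K) (p q : Fin 2 → K) (d j : ℕ) : SL F → K :=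
  Geom.Sm.lf ι (p 0) (p 1) ^ j * Geom.Sm.lf ι (q 0) (q 1) ^ (d - j)

theorem hom {φ : SL F → K} (h : φ ∈ LL ι d) (l : Fˣ) : φ (pp 0 * tt l) = ι l ^ d * φ (pp 0) := by
  induction h using Submodule.span_induction with
  | mem f hf =>
    obtain ⟨a, b, rfl⟩ := hf
    simp [lf_pp, lf_tt, mul_pow]
  | zero => simp
  | add f g _ _ a b => simp [a, b, mul_add]
  | smul c f _ a => simp [a, mul_left_comm]

variable [Fintype F] [CharP K 3]

theorem LL_mo (hd : d < Fintype.card F) {p q : Fin 2 → K} (h : p 0 * q 1 ≠ p 1 * q 0) :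
    LL ι d = Submodule.span K (mo ι p q d '' JJ 3 d) := by
  rw [LL_eq (p := 3) hd (sub_ne_zero.2 h), Set.image_eq_range]
  rfl

theorem aff (hd : d < Fintype.card F) {φ : SL F → K} (h : φ ∈ LL ι d) :
    ∃ a : ℕ → K, φ = ∑ j ∈ JJ 3 d, a j • mo ι ![0, 1] ![1, 0] d j ∧
      ∀ s, φ (pp s) = ∑ j ∈ JJ 3 d, a j * ι s ^ j := by
  rw [LL_mo hd (p := ![0, 1]) (q := ![1, 0]) (by simp)] at h
  obtain ⟨c, rfl⟩ := (Submodule.mem_span_image_finset_iff_exists_fun' K).1 h
  refine ⟨c, rfl, fun s => (Finset.sum_apply _ _ _).trans (sum_congr rfl fun j _ => ?_)⟩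
  show c j * (Geom.Sm.lf ι 0 1 (pp s) ^ j * Geom.Sm.lf ι 1 0 (pp s) ^ (d - j)) = _
  simp [lf_pp]

omit [CharP K 3] in
theorem poly {P : Polynomial K} (h : P.natDegree < Fintype.card F) (e : ∀ s, P.eval (ι s) = 0) :
    P = 0 := Polynomial.eq_zero_of_natDegree_lt_card_of_eval_eq_zero P ι.injective e h

omit [CharP K 3] in
theorem deg (a : ℕ → K) : (∑ j ∈ JJ 3 d, Polynomial.monomial j (a j)).natDegree ≤ d :=
  Polynomial.natDegree_sum_le_of_forall_le _ _ fun _ hj => (Polynomial.natDegree_monomial_le _).trans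
    (Nat.le_of_lt_succ (mem_range.1 (mem_filter.1 hj).1))

theorem ext0 (hd : d < Fintype.card F) {φ : SL F → K} (h : φ ∈ LL ι d) (e : ∀ s, φ (pp s) = 0) :
    φ = 0 := by
  obtain ⟨a, h1, h2⟩ := aff hd h
  have := poly (ι := ι) ((deg a).trans_lt hd) fun s => by
    simpa [Polynomial.eval_finset_sum] using (h2 s).symm.trans (e s)
  rw [h1]
  refine sum_eq_zero fun j hj => ?_
  rw [show a j = 0 by simpa [Polynomial.coeff_monomial, hj] using congrArg (Polynomial.coeff · j) this,
    zero_smul]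

/-- The exponents. -/
def kk (m : ℕ) (b : Bool) : ℕ := (if m = 0 then 40 else m) + cond b 40 0

/-- The exponent `k` can occur. -/
def ok (m k : ℕ) : Bool := (List.range k).all fun j => !o3 k j || o3 (2 * m) j

theorem tab : ∀ m : Fin 41, cond (ok m (kk m false)) 1 0 + cond (ok m (kk m true)) 1 0 ≤
    cf 40 m 0 + (if m.1 ∈ [2, 6, 14, 18] then 1 else 0) - if m.1 = 0 then 1 else 0 := by
  decide +kernel

theorem bad {m k : ℕ} (hm : m < 41) (hk : k < 81) (h : ok m k = false) :
    ∃ j < k, (k.choose j : K) ≠ 0 ∧ j ∉ JJ 3 (2 * m) := by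
  rw [← Bool.not_eq_true, ok, List.all_eq_true] at h
  push Not at h
  obtain ⟨j, h1, h2⟩ := h
  rw [List.mem_range] at h1
  simp only [ne_eq, Bool.or_eq_true, Bool.not_eq_true', not_or, Bool.not_eq_false] at h2
  refine ⟨j, h1, fun h => ?_, fun h => ?_⟩
  · have : j ∈ JJ 3 k := by rw [JJ_eq hk]; exact mem_filter.2 ⟨mem_range.2 (by omega), h2.1⟩
    exact (mem_filter.1 this).2 ((CharP.cast_eq_zero_iff K 3 _).1 h)
  · rw [JJ_eq (by omega)] at h
    exact h2.2 (mem_filter.1 h).2

end L

open L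

variable {F K : Type*} [Field F] [Fintype F] [Field K] [IsAlgClosed K] [CharP K 3]
  {ι : F →+* K} {g : SL F} {l : Kˣ} {m : ℕ}

set_option linter.unusedSectionVars false

theorem LL_ed (hm : 2 * m < Fintype.card F) (h : Ev ι g l) (i : ℕ) :
    ed (Rr K (SL F)) (LL ι (2 * m)) g (((l ^ 2) ^ i : Kˣ) : K) = cw (orderOf (l ^ 2)) m i := by
  classical
  obtain ⟨p, q, h1, h2, h3⟩ := h
  have h4 : LinearIndepOn K (mo ι p q (2 * m)) (JJ 3 (2 * m)) := L1.rk_iff.2 (by
    rw [← LL_mo hm h1, finrank_LL (p := 3) hm])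
  have k : ∀ (p : Fin 2 → K) (c : K), g.1.map ι *ᵥ p = c • p → ∀ x,
      Geom.Sm.lf ι (p 0) (p 1) (x * g) = c * Geom.Sm.lf ι (p 0) (p 1) x := fun p c e x => by
    have e0 := congrFun e 0
    have e1 := congrFun e 1
    have := congrFun (Rr_lf ι g (p 0) (p 1) 1) x
    simp only [pow_one, Rr_apply] at this
    simp [mulVec, dotProduct, Fin.sum_univ_two] at e0 e1
    rw [this]
    simp only [Geom.Sm.lf]
    linear_combination ι (x 1 0) * e0 + ι (x 1 1) * e1
  rw [ed, LL_mo hm h1, L1.eig h4 (l := fun j => l ^ j * (l : K)⁻¹ ^ (2 * m - j)), cw]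
  · refine congrArg _ (filter_congr fun j hj => ?_)
    have : j ≤ 2 * m := Nat.le_of_lt_succ (mem_range.1 (mem_filter.1 hj).1)
    rw [← Nat.ModEq, ← pow_eq_pow_iff_modEq, ← Units.val_inj, inv_pow,
      mul_inv_eq_iff_eq_mul₀ (by simp), ← mul_left_inj' (c := (l : K) ^ j) (by simp)]
    simp only [Units.val_pow_eq_pow_val, ← pow_add, ← pow_mul]
    rw [two_mul j, show 2 * i + (2 * m - j) + j = 2 * (m + i) by omega]
  · refine fun j _ => funext fun x => ?_
    simp only [Rr_apply, mo, Pi.mul_apply, Pi.pow_apply, k p _ h2, k q _ h3, mul_pow, Pi.smul_apply,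
      smul_eq_mul]
    ring

theorem LL_sum (hm : 2 * m + 1 < Fintype.card F) {φ : SL F → K} (h : φ ∈ LL ι (2 * m)) :
    ∑ s : F, Rr K (SL F) (uu s) φ = 0 := by
  induction h using Submodule.span_induction with
  | mem f hf =>
    obtain ⟨a, b, rfl⟩ := hf
    funext x
    have e : ∀ s, Rr K (SL F) (uu s) (Geom.Sm.lf ι a b ^ (2 * m)) x =
        (b * ι (x 1 0) * ι s + Geom.Sm.lf ι a b x) ^ (2 * m) := fun s => by
      rw [Rr_lf, Pi.pow_apply]
      congr 1
      simp [Geom.Sm.lf, uu]
      ring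
    simp only [Finset.sum_apply, e, add_pow, mul_pow]
    rw [sum_comm]
    refine sum_eq_zero fun j hj => ?_
    have := congrArg ι (FiniteField.sum_pow_lt_card_sub_one F j (by
      have := mem_range.1 hj
      omega))
    rw [map_sum, map_zero] at this
    simp only [map_pow] at this
    rw [← sum_mul, ← sum_mul, ← mul_sum, this]
    simp
  | zero => simp
  | add f g _ _ a b => simp [a, b, sum_add_distrib]
  | smul c f _ a => simp [← smul_sum, a]

theorem LL_z (hF : Fintype.card F = 81) (hm : m < 41) :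
    finrank K (Zc (Rr K (SL F)) (LL ι (2 * m))) ≤ zb m := by
  classical
  obtain ⟨n, hn⟩ := IsCyclic.exists_generator (α := Fˣ)
  have o80 : orderOf n = 80 := by
    rw [orderOf_eq_card_of_forall_mem_zpowers hn, Nat.card_units, Nat.card_eq_fintype_card, hF]
  have p80 : ∀ l : Fˣ, ι l ^ 80 = 1 := fun l => by
    rw [← map_pow, show (l : F) ^ 80 = 1 by
      simpa [hF] using FiniteField.pow_card_sub_one_eq_one (l : F) l.ne_zero, map_one]
  have n40 : ι n ^ 40 = -1 := by
    refine (sq_eq_one_iff.1 (by rw [← pow_mul]; exact p80 n)).resolve_left fun h => ?_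
    rw [← map_pow, map_eq_one_iff _ ι.injective, ← Units.val_pow_eq_pow_val, Units.val_eq_one,
      ← orderOf_dvd_iff_pow_eq_one, o80] at h
    exact absurd h (by decide)
  have n0 : ι n ≠ 0 := by simp
  have c3 : (3 : K) = 0 := CharP.cast_eq_zero K 3
  obtain ⟨k, hk⟩ : ∃ k, k = kk m false := ⟨_, rfl⟩
  have hk' : kk m true = k + 40 := by rw [hk]; rfl
  have k1 : 0 < k ∧ k ≤ 40 ∧ ∀ l : Fˣ, ι l ^ (2 * k) = ι l ^ (2 * m) := by
    rw [hk, kk]
    split_ifs with h
    · exact ⟨by decide, by decide, fun l => by simpa [h] using p80 l⟩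
    · exact ⟨by simp; omega, by simp; omega, fun l => rfl⟩
  let E : Bool → (F → SL F → K) →ₗ[K] K := fun b =>
    ⟨⟨fun f => -f 1 (pp 0) + cond b 1 (-1) * (ι n ^ k)⁻¹ * f n (pp 0), fun _ _ => by
      simp only [Pi.add_apply]; ring⟩, fun _ _ => by simp only [Pi.smul_apply, smul_eq_mul, RingHom.id_apply]; ring⟩
  have key : ∀ f ∈ Zc (Rr K (SL F)) (LL ι (2 * m)), ∀ s d, f d (pp s) =
      E false f * (ι (s + d) ^ k - ι s ^ k) + E true f * (ι (s + d) ^ (k + 40) - ι s ^ (k + 40)) := by
    intro f hf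
    have h1 : ∀ c d, f (c + d) (pp 0) = f c (pp 0) + f d (pp c) := fun c d => by
      rw [hf.2.1, Pi.add_apply, Rr_apply, pp_uu]
    have h2 : ∀ (l : Fˣ) c, f (l ^ 2 * c) (pp 0) = ι l ^ (2 * m) * f c (pp 0) := fun l c => by
      rw [hf.2.2, Rr_apply, hom (hf.1 c)]
    have h3 : ∀ (l : Fˣ) c, f c (pp 0) = E false f * ι c ^ k + E true f * ι c ^ (k + 40) →
        f (l ^ 2 * c) (pp 0) = E false f * ι (l ^ 2 * c) ^ k + E true f * ι (l ^ 2 * c) ^ (k + 40) :=
      fun l c e => by
        rw [h2, e, map_mul, map_pow, mul_pow, mul_pow, ← pow_mul, ← pow_mul, mul_add 2, pow_add (ι l),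
          k1.2.2, p80]
        ring
    have h4 : ∀ c, f c (pp 0) = E false f * ι c ^ k + E true f * ι c ^ (k + 40) := fun c => by
      by_cases e : c = 0
      · have := h1 0 0
        simp only [add_zero, left_eq_add] at this
        simp [e, this, k1.1.ne']
      obtain ⟨i, hi⟩ := mem_powers_iff_mem_zpowers.2 (hn (Units.mk0 c e))
      have hc : c = (n ^ (i / 2) : Fˣ) ^ 2 * (n : F) ^ (i % 2) := by
        rw [Units.val_pow_eq_pow_val, ← pow_mul, ← pow_add, Nat.div_add_mod', ← Units.val_pow_eq_pow_val]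
        exact (congrArg Units.val hi).symm
      rw [hc]
      refine h3 _ _ ?_
      rcases Nat.mod_two_eq_zero_or_one i with e | e <;> rw [e]
      · simp only [pow_zero, map_one, one_pow, E, LinearMap.coe_mk, AddHom.coe_mk, cond]
        linear_combination f 1 (pp 0) * c3
      · simp only [pow_one, E, LinearMap.coe_mk, AddHom.coe_mk, cond, pow_add, n40]
        have := mul_inv_cancel₀ (pow_ne_zero k n0)
        linear_combination f n (pp 0) * c3 + 2 * f n (pp 0) * this
    intro s d
    linear_combination h4 (s + d) - h4 s - h1 s d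
  have co : ∀ f ∈ Zc (Rr K (SL F)) (LL ι (2 * m)), ∀ d, ∀ j ∉ JJ 3 (2 * m),
      E false f * (ι d ^ (k - j) * k.choose j - if j = k then 1 else 0) + E true f *
        (ι d ^ (k + 40 - j) * (k + 40).choose j - if j = k + 40 then 1 else 0) = 0 := by
    intro f hf d j hj
    obtain ⟨a, -, ha⟩ := aff (by omega) (hf.1 d)
    have := poly (ι := ι) (P := Polynomial.C (E false f) * ((Polynomial.X + Polynomial.C (ι d)) ^ k -
      Polynomial.X ^ k) + Polynomial.C (E true f) * ((Polynomial.X + Polynomial.C (ι d)) ^ (k + 40) -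
      Polynomial.X ^ (k + 40)) - ∑ j ∈ JJ 3 (2 * m), Polynomial.monomial j (a j)) (by
        have h1 : ∀ (c : K) k, (Polynomial.C c * ((Polynomial.X + Polynomial.C (ι d)) ^ k -
            Polynomial.X ^ k)).natDegree ≤ k := fun c k => (Polynomial.natDegree_C_mul_le _ _).trans
          ((Polynomial.natDegree_sub_le _ _).trans (max_le (by
            simpa using Polynomial.natDegree_pow_le_of_le k
              (Polynomial.natDegree_X_add_C (ι d)).le) (by simp)))
        have h2 := h1 (E false f) k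
        have h3 := h1 (E true f) (k + 40)
        have h4 := deg (d := 2 * m) a
        refine lt_of_le_of_lt ((Polynomial.natDegree_sub_le _ _).trans (max_le
          ((Polynomial.natDegree_add_le _ _).trans (max_le (h2.trans ?_) (h3.trans ?_)))
          (h4.trans ?_))) (show 80 < _ by omega) <;> omega) (fun s => by
        have := (ha s).symm.trans (key f hf s d)
        simp [Polynomial.eval_finset_sum, this])
    simpa [Polynomial.coeff_monomial, hj, Polynomial.coeff_X_add_C_pow, Polynomial.coeff_X_pow]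
      using congrArg (Polynomial.coeff · j) this
  have z : ∀ f ∈ Zc (Rr K (SL F)) (LL ι (2 * m)), ∀ b, ok m (kk m b) = false → E b f = 0 := by
    intro f hf b hb
    have two : ∀ j < k, j ∉ JJ 3 (2 * m) →
        E false f * k.choose j = 0 ∧ E true f * (k + 40).choose j = 0 := fun j h hj => by
      have h1 := co f hf 1 j hj
      have h2 := co f hf n j hj
      rw [if_neg h.ne, if_neg (by omega)] at h1 h2
      rw [show k + 40 - j = k - j + 40 by omega, pow_add, n40] at h2
      simp only [map_one, one_pow, one_mul, sub_zero] at h1 h2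
      have h3 : E false f * k.choose j - E true f * (k + 40).choose j = 0 :=
        mul_left_cancel₀ (pow_ne_zero (k - j) n0) (by linear_combination h2)
      exact ⟨by linear_combination -h1 - h3 + E false f * k.choose j * c3,
        by linear_combination -h1 + h3 + E true f * (k + 40).choose j * c3⟩
    cases b
    · obtain ⟨j, h1, h2, h3⟩ := bad (K := K) hm (by omega) (hk ▸ hb)
      exact (mul_eq_zero.1 (two j h1 h3).1).resolve_right h2
    · obtain ⟨j, h1, h2, h3⟩ := bad (K := K) hm (by omega) (hk' ▸ hb)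
      refine (mul_eq_zero.1 (?_ : E true f * (k + 40).choose j = 0)).resolve_right h2
      rcases lt_or_ge j k with h | h
      · exact (two j h h3).2
      · have := co f hf 1 j h3
        rw [if_neg h1.ne] at this
        rcases h.eq_or_lt with h | h
        · simpa [h] using this
        · simpa [h.ne', Nat.choose_eq_zero_of_lt h] using this
  refine le_trans (LinearMap.finrank_le_finrank_of_injective (f := (LinearMap.pi
    fun b : {b // ok m (kk m b) = true} => E b).domRestrict _)
    ((injective_iff_map_eq_zero _).2 fun f e => Subtype.ext ?_)) ?_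
  · have h1 : ∀ b, E b f = 0 := fun b => by
      cases h : ok m (kk m b)
      exacts [z _ f.2 b h, congrFun e ⟨b, h⟩]
    exact funext fun d => ext0 (by omega) (f.2.1 d) fun s => by rw [key _ f.2, h1, h1]; simp
  · rw [finrank_fintype_fun_eq_card, Fintype.card_subtype, zb, cw_eq 40 ⟨m, hm⟩]
    refine le_trans (le_of_eq ?_) (tab ⟨m, hm⟩)
    rw [card_filter, Fintype.sum_bool, add_comm]
    simp only [cond_eq_ite]

end CF.Ez
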