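import Cfsg.Agent.Ez.L

/-! Composition series of modules for `L₂(3ⁿ)`. -/

set_option autoImplicit false

namespace CF.Ez

open Module Matrix CF.E83 CF.Ey Finset Cfsg
open CF.Geom.Sm (JJ LL Rr)

namespace M

theorem ws_add {Q : ℕ} (n k : Fin Q → ℕ) (w : ℕ → ℕ) : ws (n + k) w = ws n w + ws k w := by
  simp [ws, add_mul, sum_add_distrib]

theorem ws_single {Q : ℕ} (m : Fin Q) (w : ℕ → ℕ) : ws (Pi.single m 1) w = w m := by
  simp [ws, Pi.single_apply]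

theorem aux {F K : Type*} [Field F] [Finite F] [Field K] {ι : F →+* K} {g : SL F} {l : Kˣ} (e : Ev ι g l) :
    (orderOf l : K) ≠ 0 ∧ g ^ orderOf l = 1 ∧ ∀ i : ℕ, (((l ^ 2) ^ i : Kˣ) : K) ^ orderOf l = 1 := by
  have : NeZero (orderOf l) := ⟨e.ord ▸ (orderOf_pos g).ne'⟩
  refine ⟨(IsPrimitiveRoot.coe_units_iff.2 (IsPrimitiveRoot.orderOf l)).neZero'.ne, e.ord ▸ pow_orderOf_eq_one g,
    fun i => ?_⟩
  rw [← Units.val_pow_eq_pow_val, ← pow_mul l, pow_right_comm, pow_orderOf_eq_one, one_pow, Units.val_one]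

end M

open M

variable {F K V : Type*} [Field F] [Fintype F] [Field K] [IsAlgClosed K] [CharP K 3]
  [AddCommGroup V] [Module K V] [FiniteDimensional K V] {ι : F →+* K} {r : SL F →* End K V}
  {A B : Submodule K V}

theorem cov_tp (ι : F →+* K) (h1 : r (-1) = 1) (h : Cov r A B) :
    ∃ m, 2 * m < Fintype.card F ∧ Tp ι r A B m := by
  let ρ := (Representation.subrepresentation r B h.b).quotient (A.comap B.subtype) fun g v hv => h.a g v hv
  have e : ∀ g (w : B), ρ g (Submodule.Quotient.mk w) = Submodule.Quotient.mk ⟨r g w, h.b g w w.2⟩ := fun _ _ => rfl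
  have : Nontrivial (B ⧸ A.comap B.subtype) := Submodule.Quotient.nontrivial_iff.2 fun k =>
    h.lt.not_ge fun v hv => k.ge (Submodule.mem_top (x := (⟨v, hv⟩ : B)))
  obtain ⟨d, hd, Ψ, i, s, c⟩ := CF.Geom.Sm.exists_emb ι ρ fun W hW => by
    refine (h.mx ((W.comap (Submodule.mkQ _)).map B.subtype) ?_ (fun v hv => ⟨⟨v, h.lt.le hv⟩, ?_, rfl⟩)
      (Submodule.map_subtype_le _ _)).imp (fun k => eq_bot_iff.2 fun x hx => ?_) fun k => eq_top_iff.2 fun x _ => ?_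
    · rintro g _ ⟨w, hw, rfl⟩
      exact ⟨⟨r g w, h.b g w w.2⟩, hW g hw, rfl⟩
    · exact (show W.comap (Submodule.mkQ _) ≥ _ from fun x hx => by
        rw [Submodule.mem_comap, Submodule.mkQ_apply, (Submodule.Quotient.mk_eq_zero _).2 hx]; exact zero_mem _) hv
    · obtain ⟨w, rfl⟩ := Submodule.Quotient.mk_surjective _ x
      exact (Submodule.Quotient.mk_eq_zero _).2 (k.le ⟨w, hx, rfl⟩)
    · obtain ⟨w, rfl⟩ := Submodule.Quotient.mk_surjective _ x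
      obtain ⟨u, hu, k⟩ := k.ge w.2
      exact Subtype.ext k ▸ hu
  obtain ⟨Φ, hΦ⟩ := LinearMap.exists_extend (Ψ ∘ₗ Submodule.mkQ _)
  have f : ∀ w (hw : w ∈ B), Φ w = Ψ (Submodule.Quotient.mk ⟨w, hw⟩) := fun w hw => LinearMap.congr_fun hΦ ⟨w, hw⟩
  obtain ⟨m, rfl⟩ : 2 ∣ d := by
    obtain ⟨x, hx⟩ := s.ge (Submodule.subset_span ⟨1, 0, rfl⟩)
    obtain ⟨w, rfl⟩ := Submodule.Quotient.mk_surjective _ x
    have k := congrFun (c (-1) (Submodule.Quotient.mk w)) (CF.Geom.Sm.lo 1)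
    simp only [e, h1, End.one_apply, Subtype.coe_eta, hx] at k
    refine even_iff_two_dvd.1 ((neg_one_pow_eq_one_iff_even (R := K) fun k => ?_).1 ?_)
    · exact absurd ((CharP.cast_eq_zero_iff K 3 2).1 (by push_cast; linear_combination -k)) (by decide)
    · rw [CF.Geom.Sm.Rr_apply, Pi.pow_apply, Pi.pow_apply, mul_neg_one] at k
      simp only [CF.Geom.Sm.lf, show (-CF.Geom.Sm.lo (1 : F)) 1 0 = -1 from rfl] at k
      simpa [CF.Geom.Sm.lo] using k.symm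
  refine ⟨m, hd, Φ, fun g w hw => by rw [f w hw, ← c, e, f], le_antisymm ?_ fun φ hφ => ?_, le_antisymm
    (fun w hw => (Submodule.Quotient.mk_eq_zero _).1 (i (((f w hw.1).symm.trans hw.2).trans (map_zero _).symm)))
    fun w hw => ⟨h.lt.le hw, (f w (h.lt.le hw)).trans 
      ((congrArg Ψ ((Submodule.Quotient.mk_eq_zero _).2 hw)).trans (map_zero _))⟩⟩
  · rintro _ ⟨w, hw, rfl⟩
    exact s.le ⟨_, (f w hw).symm⟩
  · obtain ⟨x, rfl⟩ := s.ge hφ
    obtain ⟨w, rfl⟩ := Submodule.Quotient.mk_surjective _ x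
    exact ⟨w, w.2, f w w.2⟩

theorem Cp.step {Q : ℕ} {n : Fin Q → ℕ} (h : Cp ι r A n) (hB : Inv r B) {m : Fin Q}
    (hm : 2 * m < Fintype.card F) (t : Tp ι r A B m) : Cp ι r B (n + Pi.single m 1) := by
  obtain ⟨Φ, h1, h2, h3⟩ := t
  refine ⟨hB, fun g l i e => ?_, ?_, fun hF => ?_, fun k v hv e => ?_⟩
  · rw [ws_add, ws_single, ← h.ch g l i e, ed_map (r' := Rr K (SL F)) Φ (aux e).1 (aux e).2.1 ((aux e).2.2 i)
      (hB g) (h1 g), h2, h3, LL_ed hm e]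
  · rw [ws_add, ws_single, ← h.rk, ← rk_map Φ B, h2, h3, CF.Geom.Sm.finrank_LL (p := 3) hm, add_comm, dj]
  · rw [ws_add, ws_single, ← rk_map (Φ.compLeft F) (Zc r B), add_comm]
    refine add_le_add ((Submodule.finrank_mono ?_).trans (h.z hF))
      ((Submodule.finrank_mono ?_).trans (LL_z hF (ι := ι) (m := m) (by omega)))
    · exact fun f hf => ⟨fun c => h3 ▸ ⟨hf.1.1 c, congrFun hf.2 c⟩, hf.1.2⟩
    · rintro _ ⟨f, hf, rfl⟩
      refine ⟨fun c => h2 ▸ ⟨_, hf.1 c, rfl⟩, fun c d => ?_, fun a c => ?_⟩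
      · change Φ (f _) = Φ (f c) + Rr K _ _ (Φ (f d))
        rw [hf.2.1, map_add, h1 _ _ (hf.1 d)]
      · change Φ (f _) = Rr K _ _ (Φ (f c))
        rw [hf.2.2, h1 _ _ (hf.1 c)]
  · have e1 := congrArg Φ e
    rw [map_sum, sum_congr rfl fun s _ => h1 _ _ (hB _ v hv), LL_sum (k m (by simp)) (h2.le ⟨_, hB _ v hv, rfl⟩),
      map_neg, zero_eq_neg] at e1
    exact h.st (fun j hj => k j fun z => hj (Nat.eq_zero_of_add_eq_zero_right z)) v (h3.le ⟨hv, e1⟩) e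

omit [IsAlgClosed K] [CharP K 3] in
theorem cp_bot (Q : ℕ) : Cp ι r ⊥ (0 : Fin Q → ℕ) :=
  ⟨fun _ _ h => by rw [(Submodule.mem_bot K).1 h, map_zero]; exact zero_mem _,
    fun _ _ _ _ => by simp [ed, ws], by simp [ws], fun _ => by
      rw [show Zc r ⊥ = ⊥ from eq_bot_iff.2 fun f hf => funext hf.1]; simp, fun _ _ h _ => h⟩

theorem Cp.cov {Q : ℕ} (hQ : Fintype.card F + 1 = 2 * Q) (h1 : r (-1) = 1) {n : Fin Q → ℕ}
    (h : Cp ι r A n) (c : Cov r A B) : ∃ m : Fin Q, Cp ι r B (n + Pi.single m 1) := by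
  obtain ⟨m, hm, t⟩ := cov_tp ι h1 c
  exact ⟨⟨m, by omega⟩, h.step c.b hm t⟩

theorem Cp.ext {Q : ℕ} (hQ : Fintype.card F + 1 = 2 * Q) (h1 : r (-1) = 1) {n : Fin Q → ℕ}
    (h : Cp ι r A n) (hB : Inv r B) (e : A ≤ B) : ∃ k, Cp ι r B (n + k) := by
  induction A using WellFoundedGT.induction generalizing n with
  | ind A ih =>
  rcases e.eq_or_lt with rfl | e'
  · exact ⟨0, by simpa using h⟩
  obtain ⟨C, c1, c2⟩ := exists_cov h.inv hB e'
  obtain ⟨m, t⟩ := h.cov hQ h1 c2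
  obtain ⟨k, k1⟩ := ih C c2.lt t c1
  exact ⟨_, by rwa [add_assoc] at k1⟩

end CF.Ez
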