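import Cfsg.Agent.Ez.A
import Cfsg.Agent.S0801

/-! Scott's lemma for the first list of multiplicities. -/

set_option autoImplicit false

namespace CF.Ez

open Module Matrix CF.E83 CF.Ey Finset Cfsg
open CF.Geom.Sm (JJ LL Rr)

namespace SC

variable {F : Type*} [Field F] [Fintype F]

theorem top_of (hF : Fintype.card F = 81) {c : F} (h : c ^ 9 ≠ c) :
    Subfield.closure ({c} : Set F) = ⊤ := by
  classical
  set E := Subfield.closure ({c} : Set F)
  have m : c ∈ E := Subfield.subset_closure rfl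
  have e := Module.card_eq_pow_finrank (K := E) (V := F)
  have p : c ^ Fintype.card E = c := congrArg Subtype.val (FiniteField.pow_card (⟨c, m⟩ : E))
  have l := Fintype.card_le_of_injective _ E.subtype.injective
  rw [hF] at e l
  by_cases k : Fintype.card E = 81
  · exact eq_top_iff.2 fun x _ => by
      obtain ⟨y, rfl⟩ := ((Fintype.bijective_iff_injective_and_card E.subtype).2
        ⟨E.subtype.injective, k.trans hF.symm⟩).2 x
      exact y.2
  have d : Fintype.card E ∣ 3 ^ 4 := by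
    rw [show 3 ^ 4 = 81 from rfl, e]
    exact dvd_pow_self _ finrank_pos.ne'
  obtain ⟨i, hi, e'⟩ := (Nat.dvd_prime_pow Nat.prime_three).1 d
  rw [e'] at e p k
  rw [← pow_mul] at e
  have e2 : 4 = i * finrank E F := Nat.pow_right_injective (by decide : 2 ≤ 3) e
  have e3 : i ∣ 4 := ⟨_, e2⟩
  exfalso
  interval_cases i
  · simp at e3
  · exact h (by rw [show 9 = 3 ^ 1 * 3 ^ 1 from rfl, pow_mul, p, p])
  · exact h p
  · simp at e3
  · simp at k

theorem ne9 (hF : Fintype.card F = 81) {a : Fˣ} (ha : orderOf a = 80) :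
    (-((a : F) + (a : F)⁻¹) ^ 2) ^ 9 ≠ -((a : F) + (a : F)⁻¹) ^ 2 := by
  have : CharP F 3 := charP_of_card_eq_prime_pow (f := 4) hF
  have n : ∀ k : ℕ, (a : F) ^ k = 1 → 80 ∣ k := fun k e =>
    ha ▸ orderOf_dvd_of_pow_eq_one (Units.ext (by simpa using e))
  have a0 := a.ne_zero
  intro e
  rw [Odd.neg_pow (by decide), neg_inj, ← pow_mul, mul_comm, pow_mul, show 9 = 3 ^ 2 from rfl,
    add_pow_char_pow, inv_pow, show 3 ^ 2 = 9 from rfl] at e
  field_simp at e
  have k : ((a : F) ^ 16 - 1) * ((a : F) ^ 20 - 1) = 0 := by linear_combination e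
  rcases mul_eq_zero.1 k with k | k
  · exact absurd (n _ (sub_eq_zero.1 k)) (by decide)
  · exact absurd (n _ (sub_eq_zero.1 k)) (by decide)

theorem tab : 2 * ws (tb 1) (cf 1 · 0) < 3 * (ws (tb 1) (cf 40 · 0) + ws (tb 1) (cf 2 · 0)) := by
  decide +kernel

end SC

section S
variable {F K V : Type*} [Field F] [Fintype F] [Field K] [IsAlgClosed K] [CharP K 3]
  [AddCommGroup V] [Module K V] [FiniteDimensional K V] {ι : F →+* K} {r : SL F →* End K V}
  {A B : Submodule K V} {g : SL F} {l : Kˣ} {m : ℕ}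
  {br : V →ₗ[K] V →ₗ[K] V} {b : V →ₗ[K] V →ₗ[K] K} {σ : V →+ V}

theorem fx_ne1 (hF : Fintype.card F = 81) (h1 : r (-1) = 1) (fm : Fm r b) (h : Cp ι r ⊤ (tb 1)) :
    fx r ≠ ⊥ := by
  have : CharP F 3 := charP_of_card_eq_prime_pow (f := 4) hF
  obtain ⟨a, ha⟩ : ∃ a : Fˣ, orderOf a = 80 := by
    obtain ⟨a, ha⟩ := IsCyclic.exists_monoid_generator (α := Fˣ)
    exact ⟨a, by rw [orderOf_eq_card_of_forall_mem_powers ha, Nat.card_units,
      Nat.card_eq_fintype_card, hF]⟩
  have n9 := SC.ne9 hF ha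
  have a0 := a.ne_zero
  set d : F := a + (a : F)⁻¹ with hd
  have d0 : d ≠ 0 := fun e => n9 (by simp [e])
  let s : SL F := ⟨!![0, -d; d⁻¹, 0], by simp [d0]⟩
  have inj : Function.Injective (Units.map (ι : F →* K)) := Units.map_injective ι.injective
  have o : ∀ k, orderOf (Units.map (ι : F →* K) (a ^ k)) = 80 / Nat.gcd 80 k := fun k => by
    rw [orderOf_injective _ inj, orderOf_pow, ha]
  have a40 : (a : F) ^ 40 = -1 := by
    have e : ((a : F) ^ 40) ^ 2 = 1 := by
      rw [← pow_mul, ← Units.val_pow_eq_pow_val, show 40 * 2 = orderOf a from ha.symm,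
        pow_orderOf_eq_one, Units.val_one]
    refine (sq_eq_one_iff.1 e).resolve_left fun e => ?_
    exact absurd (ha ▸ orderOf_dvd_of_pow_eq_one (x := a) (n := 40) (Units.ext (by simpa using e)))
      (by decide)
  have dim : finrank K V = ws (tb 1) (cf 1 · 0) := by
    rw [← finrank_top, h.rk]
    exact sum_congr rfl fun m _ => congrArg _ (dj_eq m)
  have key : ∀ (g : SL F) (k N : ℕ), 80 / Nat.gcd 80 (k * 2) = N → N ≠ 1 →
      g.1 0 0 + g.1 1 1 = (a : F) ^ k + ((a : F) ^ k)⁻¹ → dm r g = ws (tb 1) (cf N · 0) := by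
    intro g k N e n t
    have o2 : orderOf (Units.map (ι : F →* K) (a ^ k) ^ 2) = N := by
      rw [← map_pow, ← pow_mul, o, e]
    have := h.ch g (Units.map (ι : F →* K) (a ^ k)) 0 (S.ev_of (by simp [t]) fun e' =>
      n (o2.symm.trans (orderOf_eq_one_iff.2 (Units.ext e'))))
    rw [pow_zero, Units.val_one, ed_one, top_inf_eq, o2, ws_cw] at this
    exact this
  have e1 := key s 20 2 rfl (by decide) (by
    have : ((a : F) ^ 20)⁻¹ = -(a : F) ^ 20 :=
      inv_eq_of_mul_eq_one_right (by linear_combination -a40)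
    simp [s, this])
  have e2 := key (s * uu (-d ^ 2)) 41 40 rfl (by decide) (by
    rw [S.mul, pow_succ (a : F) 40, a40]
    simp [s, uu, mul_apply]
    field_simp
    rw [hd]
    field_simp
    ring)
  have e3 : finrank K V ≤ 3 * dm r (uu (-d ^ 2)) := by
    have u3 : r (uu (-d ^ 2)) ^ 3 = 1 := by
      rw [← map_pow, pow_succ, sq, ← uu_add, ← uu_add, ← map_one r]
      congr 1
      have t : (3 : F) = 0 := CharP.cast_eq_zero F 3
      rw [show -d ^ 2 + -d ^ 2 + -d ^ 2 = 0 by linear_combination -d ^ 2 * t]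
      exact Subtype.ext (by simp [uu, one_fin_two])
    have t : (3 : End K V) = 0 := by
      rw [← map_ofNat (algebraMap K (End K V)) 3, show (3 : K) = 0 from CharP.cast_eq_zero K 3, map_zero]
    have := rk_cube (N := r (uu (-d ^ 2)) - 1) (by
      generalize r (uu (-d ^ 2)) = x at u3
      rw [show (x - 1) ^ 3 = x ^ 3 - 1 - 3 * (x ^ 2 - x) by noncomm_ring, u3, t]
      simp) (U := ⊤) (by simp)
    have k := rk_fs (r (uu (-d ^ 2)))
    rw [Submodule.map_top, finrank_top] at this
    unfold dm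
    omega
  have f := CF.E72.fix_scott (r := r) (a := s) (b := uu (-d ^ 2)) (by
    have := SC.tab
    omega)
  have c0 : -d ^ 2 ≠ 0 := by simpa using d0
  have gen := ((Cfsg.Agent.S0801.result (F := F) (fun e => by
    have t : (3 : F) = 0 := CharP.cast_eq_zero F 3
    exact one_ne_zero (by linear_combination t - e : (1 : F) = 0)) _ c0
    (SC.top_of hF n9)).resolve_right fun e => by omega).1
  have f' := f.mono (T := ⊤) (gen.ge.trans ((Subgroup.closure_le _).2 (by
    have m1 : s ∈ Subgroup.closure {s, uu (-d ^ 2)} := Subgroup.subset_closure (by simp)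
    have m2 : uu (-d ^ 2) ∈ Subgroup.closure {s, uu (-d ^ 2)} := Subgroup.subset_closure (by simp)
    rintro g (e | e)
    · rw [show g = s * uu (-d ^ 2) * s⁻¹ from eq_mul_inv_of_mul_eq (Subtype.ext (by
        rw [S.mul, S.mul, e]
        ext i j; fin_cases i <;> fin_cases j <;> simp [s, uu, mul_apply]
        field_simp))]
      exact mul_mem (mul_mem m1 m2) (inv_mem m1)
    · exact (show uu (-d ^ 2) = g from Subtype.ext e.symm) ▸ m2)))
  rw [Submodule.ne_bot_iff]
  rcases f' with ⟨v, v0, hv⟩ | ⟨φ, φ0, hφ⟩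
  · exact ⟨v, (Submodule.mem_iInf _).2 fun g => mem_fs.2 (hv g trivial), v0⟩
  · obtain ⟨u, rfl⟩ := (LinearMap.BilinForm.toDual b fm.nd').surjective φ
    refine ⟨u, (Submodule.mem_iInf _).2 fun g => mem_fs.2 (sub_eq_zero.1 (fm.nd _ fun v => ?_)),
      fun e => φ0 (by simp [e])⟩
    have := hφ g⁻¹ trivial v
    simp only [LinearMap.BilinForm.toDual_def] at this
    rw [map_sub, LinearMap.sub_apply, fm.mv, this, sub_self]

end S

end CF.Ez
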