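import Cfsg.Agent.Ez.M
import Cfsg.Agent.Ez.U1

/-! Multiplicities of composition factors of modules for `L₂(81)`. -/

set_option autoImplicit false

namespace CF.Ez

open Module Matrix CF.E83 CF.Ey Finset Cfsg

variable {F K V : Type*} [Field F] [Fintype F] [Field K] [IsAlgClosed K] [CharP K 3]
  [AddCommGroup V] [Module K V] [FiniteDimensional K V] {ι : F →+* K} {r : SL F →* End K V}
  {A B : Submodule K V} {g : SL F} {l : Kˣ} {m : ℕ}
  {br : V →ₗ[K] V →ₗ[K] V} {b : V →ₗ[K] V →ₗ[K] K} {σ : V →+ V}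

namespace U2

theorem ws_add {Q : ℕ} (n k : Fin Q → ℕ) (w : ℕ → ℕ) : ws (n + k) w = ws n w + ws k w := by
  simp [ws, add_mul, sum_add_distrib]

omit [Fintype F] [IsAlgClosed K] [CharP K 3] in
theorem ord_map (ι : F →+* K) {a : Fˣ} (ha : orderOf a = 80) :
    orderOf (Units.map (ι : F →* K) a) = 80 :=
  (orderOf_injective _ (Units.map_injective ι.injective) a).trans ha

theorem uniq' (hF : Fintype.card F = 81) (ι : F →+* K) {n n' : Fin 41 → ℕ}
    (h : ∀ g (l : Kˣ) N, Ev ι g l → orderOf (l ^ 2) = N → orderOf l = 2 * N → N = 40 ∨ N = 41 →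
      ∀ i, ws n (cw N · i) = ws n' (cw N · i)) : n = n' := by
  obtain ⟨g, l, e, o⟩ := exists_ev ι (N := 82) (by rw [hF]) (by norm_num)
  obtain ⟨a, ha⟩ := exists_80 hF
  have o' := ord_map ι ha
  exact uniq (h _ _ 40 (ev_tt a) (by rw [orderOf_pow' _ two_ne_zero, o']; rfl) o' (.inl rfl))
    (h g l 41 e (by rw [orderOf_pow' _ two_ne_zero, o]; rfl) o (.inr rfl))

omit [Fintype F] [IsAlgClosed K] in
theorem aux {N : ℕ} (e : Ev ι g l) (o : orderOf l = 2 * N) (h : N = 40 ∨ N = 41) :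
    ((2 * N : ℕ) : K) ≠ 0 ∧ g ^ (2 * N) = 1 ∧ (l ^ 2) ^ N = 1 ∧
      ∀ i : ℕ, (((l ^ 2) ^ i : Kˣ) : K) ^ (2 * N) = 1 :=
  ⟨fun k => by have := (CharP.cast_eq_zero_iff K 3 _).1 k; omega, by rw [← o, ← e.ord, pow_orderOf_eq_one],
    by rw [← pow_mul, ← o, pow_orderOf_eq_one], fun i => by
    rw [← Units.val_pow_eq_pow_val, ← pow_mul l, pow_right_comm, ← o, pow_orderOf_eq_one]; simp⟩

omit [CharP K 3] in
theorem ed_cube {G : Type*} [Group G] {r : G →* End K V} (h : F3 r σ) (g : G) {N : ℕ} {μ : K}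
    (hN : Nat.Coprime 3 N) (h0 : 0 < N) (hμ : μ ^ N = 1) : ed r ⊤ g (μ ^ 3) = ed r ⊤ g μ := by
  have h1 : ∀ μ : K, ed r ⊤ g μ ≤ ed r ⊤ g (μ ^ 3) := fun μ => by
    let c := Module.finBasis K ↥(⊤ ⊓ (r g).eigenspace μ)
    have := (Fintype.linearIndependent_iff (R := K) (v := fun i => (⟨σ (c i), trivial,
      End.mem_eigenspace_iff.2 (by rw [← h.comm, End.mem_eigenspace_iff.1 (c i).2.2, h.smul])⟩ :
        ↥(⊤ ⊓ (r g).eigenspace (μ ^ 3))))).2 fun a e i => by
      choose s hs using fun i => IsAlgClosed.exists_pow_nat_eq (a i) three_pos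
      have k : ∑ i, s i • c i = 0 := Subtype.ext (h.bij.1 (by
        simpa [map_sum, h.smul, hs] using congrArg Subtype.val e))
      rw [← hs, Fintype.linearIndependent_iff.1 c.linearIndependent s k i, zero_pow three_ne_zero]
    simpa [ed] using this.fintype_card_le_finrank
  have h2 : ∀ k, ed r ⊤ g (μ ^ 3) ≤ ed r ⊤ g (μ ^ 3 ^ (k + 1)) := fun k => by
    induction k with
    | zero => simp
    | succ k ih => exact ih.trans ((h1 _).trans_eq (by rw [← pow_mul, ← pow_succ]))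
  refine le_antisymm ?_ (h1 μ)
  have h3 := h2 (N.totient - 1)
  rwa [Nat.sub_add_cancel (Nat.totient_pos.2 h0), pow_eq_pow_mod (3 ^ _) hμ,
    Nat.ModEq.pow_totient hN, ← pow_eq_pow_mod _ hμ, pow_one] at h3

theorem ws_zb (n : Fin 41 → ℕ) : ws n zb + n 0 = ws n (cw 40 · 0) + n4 n := by
  have h : ∀ m : Fin 41, zb m + (if m = 0 then 1 else 0) = cw 40 m 0 + ((if m = 2 then 1 else 0) +
      (if m = 6 then 1 else 0) + (if m = 14 then 1 else 0) + if m = 18 then 1 else 0) := by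
    simp only [zb, cw_eq]
    decide +kernel
  simpa [ws, n4, mul_add, sum_add_distrib] using
    sum_congr (rfl : (univ : Finset (Fin 41)) = _) fun m _ => congrArg (n m * ·) (h m)

theorem n4_single : ∀ m : Fin 41, n4 (Pi.single m 1) = 0 ∨
    n4 (Pi.single m 1) = 1 ∧ (Pi.single m 1 : Fin 41 → ℕ) 0 = 0 := by decide +kernel

omit [Fintype F] in
theorem wuw {s : F} (h : s ≠ 0) :
    ww F * (uu s * ww F) = uu (-s⁻¹) * (ww F * (tt (.mk0 s h) * uu (-s⁻¹))) := Subtype.ext (by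
  simp only [S.mul]
  ext i j
  fin_cases i <;> fin_cases j <;> simp [tt, uu, ww, h])

omit [IsAlgClosed K] [CharP K 3] [FiniteDimensional K V] in
theorem fixz (h1 : r (-1) = 1) {v : V} (k1 : ∀ c, r (uu c) v = v) (k2 : ∀ a, r (tt a) v = v) (g : SL F) :
    r g (v + ∑ s, r (uu s * ww F) v) = v + ∑ s, r (uu s * ww F) v := by
  classical
  have a1 : ∀ c, r (uu c) (v + ∑ s, r (uu s * ww F) v) = v + ∑ s, r (uu s * ww F) v := fun c => by
    rw [map_add, k1, map_sum, ← Equiv.sum_comp (Equiv.addLeft c) fun s => r (uu s * ww F) v]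
    simp [uu_add]
  have a2 : ∀ a, r (tt a) (v + ∑ s, r (uu s * ww F) v) = v + ∑ s, r (uu s * ww F) v := fun a => by
    rw [map_add, k2, map_sum,
      ← Equiv.sum_comp (Equiv.mulLeft₀ ((a : F) ^ 2) (by simp)) fun s => r (uu s * ww F) v]
    refine congrArg _ (sum_congr rfl fun s _ => ?_)
    rw [← End.mul_apply, ← map_mul, ← mul_assoc, tt_uu, mul_assoc, tt_ww, ← mul_assoc, map_mul _ _ (tt _),
      End.mul_apply, k2]
    rfl
  have a3 : r (ww F) (v + ∑ s, r (uu s * ww F) v) = v + ∑ s, r (uu s * ww F) v := by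
    have u0 : uu (0 : F) = 1 := Subtype.ext (by simp [uu, one_fin_two])
    have e : ∀ s, r (ww F) (r (uu s * ww F) v) =
        r (uu (-s⁻¹) * ww F) v + if s = 0 then v - r (ww F) v else 0 := fun s => by
      rw [← End.mul_apply, ← map_mul]
      split_ifs with h
      · rw [h, _root_.inv_zero, neg_zero, u0, one_mul, show ww F * ww F = -1 from Subtype.ext (by
          rw [S.mul]; ext i j; fin_cases i <;> fin_cases j <;> simp [ww]), h1]
        simp
      · simp [wuw h, k1, k2]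
    rw [map_add, map_sum, sum_congr rfl fun s _ => e s, sum_add_distrib,
      ← Equiv.sum_comp ((Equiv.inv F).trans (Equiv.neg F)) fun s => r (uu s * ww F) v]
    simp
    abel
  generalize v + ∑ s, r (uu s * ww F) v = z at a1 a2 a3
  rcases bruhat g with ⟨_, _, rfl⟩ | ⟨_, _, _, rfl⟩ <;> simp [a1, a2, a3]

end U2

open U2

section U2
variable (hF : Fintype.card F = 81) (h1 : r (-1) = 1)
include hF h1

theorem inv_cp (ι : F →+* K) (h : Inv r A) : Cp ι r A (np ι r A) := by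
  obtain ⟨k, hk⟩ := (cp_bot (ι := ι) 41).ext (by rw [hF]) h1 h bot_le
  exact Classical.epsilon_spec ⟨_, hk⟩

theorem Cp.eq {n : Fin 41 → ℕ} (h : Cp ι r A n) : np ι r A = n :=
  uniq' hF ι fun g l N e o _ _ i => by
    rw [← o, ← (inv_cp hF h1 ι h.inv).ch g l i e, h.ch g l i e]

theorem np_bot (ι : F →+* K) : np ι r ⊥ = 0 := (cp_bot 41).eq hF h1

theorem np_mono (ι : F →+* K) (hA : Inv r A) (hB : Inv r B) (e : A ≤ B) : np ι r A ≤ np ι r B := by
  obtain ⟨k, hk⟩ := (inv_cp hF h1 ι hA).ext (by rw [hF]) h1 hB e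
  exact hk.eq hF h1 ▸ le_self_add

theorem cov_np (ι : F →+* K) (h : Cov r A B) : ∃ m : Fin 41, np ι r B = np ι r A + Pi.single m 1 := by
  obtain ⟨m, hm⟩ := (inv_cp hF h1 ι h.a).cov (by rw [hF]) h1 h
  exact ⟨m, hm.eq hF h1⟩

theorem np_sup (ι : F →+* K) (hA : Inv r A) (hB : Inv r B) :
    np ι r (A ⊔ B) + np ι r (A ⊓ B) = np ι r A + np ι r B :=
  uniq' hF ι fun g l N e o o' d i => by
    obtain ⟨k1, k2, -, k4⟩ := aux e o' d
    rw [ws_add, ws_add, ← o, ← (inv_cp hF h1 ι (hA.sup hB)).ch g l i e,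
      ← (inv_cp hF h1 ι (hA.inf hB)).ch g l i e, ← (inv_cp hF h1 ι hA).ch g l i e,
      ← (inv_cp hF h1 ι hB).ch g l i e, ed_sup k1 k2 (k4 i) (hA g) (hB g)]

theorem np_perp (ι : F →+* K) (h : Fm r b) (hA : Inv r A) :
    np ι r A + np ι r (LinearMap.BilinForm.orthogonal b A) = np ι r ⊤ :=
  uniq' hF ι fun g l N e o o' d i => by
    obtain ⟨k1, k2, k3, k4⟩ := aux e o' d
    have h5 := h.ed_perp k1 k2 (k4 ((N - 1) * i)) (hA g)
    have h6 : (((l ^ 2) ^ ((N - 1) * i) : Kˣ) : K)⁻¹ = ((l ^ 2) ^ i : Kˣ) := inv_eq_of_mul_eq_one_right (by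
      rw [← Units.val_mul, ← pow_add, ← add_one_mul, Nat.sub_add_cancel (by omega), pow_mul, k3]; simp)
    rw [h6, (inv_cp hF h1 ι hA).ch g l _ e, (inv_cp hF h1 ι (h.inv_perp hA)).ch g l _ e,
      (inv_cp hF h1 ι (Ey.K.inv_top r)).ch g l _ e, o] at h5
    rw [ws_add, ← h5]
    simp only [ws, (cw_tw d _ _).2]

theorem np_fr (ι : F →+* K) (h : F3 r σ) : np ι r ⊤ ∘ tw = np ι r ⊤ :=
  uniq' hF ι fun g l N e o o' d i => by
    obtain ⟨-, -, -, k4⟩ := aux e o' d
    have h5 := ed_cube h g (by rcases d with rfl | rfl <;> decide) (by omega) (k4 i)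
    rw [← Units.val_pow_eq_pow_val, ← pow_mul, mul_comm i, (inv_cp hF h1 ι (Ey.K.inv_top r)).ch g l _ e,
      (inv_cp hF h1 ι (Ey.K.inv_top r)).ch g l _ e, o] at h5
    rw [← h5, ws, ws, ← tw_bij.sum_comp fun m => np ι r ⊤ m * cw N m (3 * i)]
    simp only [(cw_tw d _ _).1, Function.comp]

theorem np_ed (ι : F →+* K) (hA : Inv r A) {a : Fˣ} (ha : orderOf a = 80) (i : ℕ) :
    ed r A (tt a) ((ι a ^ 2) ^ i) = ws (np ι r A) (cw 40 · i) := by
  have := (inv_cp hF h1 ι hA).ch _ _ i (ev_tt a)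
  rw [orderOf_pow' _ two_ne_zero, ord_map ι ha] at this
  simpa using this

theorem press (ι : F →+* K) (hA : Inv r A) (h : np ι r A 40 = 0) :
    np ι r A 0 ≤ finrank K ↥(A ⊓ fx r) + n4 (np ι r A) := by
  obtain ⟨a, ha⟩ := exists_80 hF
  have h2 : ∀ v ∈ fs (r (tt a)), ∀ b, r (tt b) v = v := fun v hv b => by
    obtain ⟨k, e⟩ := tt_pow hF ha b
    rw [e]
    clear e
    induction k with
    | zero => rw [pow_zero, map_one]; rfl
    | succ k ih => rw [pow_succ, map_mul, End.mul_apply, mem_fs.1 hv, ih]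
  have h3 := rk_map (LinearMap.pi fun c : F => r (uu c) - 1) (A ⊓ fs (r (tt a)))
  have h4 := (inv_cp hF h1 ι hA).z hF
  have h9 := np_ed hF h1 ι hA ha 0
  have h10 := ws_zb (np ι r A)
  rw [pow_zero, ed_one] at h9
  have h5 : (A ⊓ fs (r (tt a))).map (LinearMap.pi fun c : F => r (uu c) - 1) ≤ Zc r A := by
    rintro _ ⟨v, hv, rfl⟩
    refine ⟨fun c => sub_mem (hA _ v hv.1) hv.1, fun c d => ?_, fun b c => ?_⟩
    · simp [add_comm c, uu_add, show r (uu d) (r (uu c) v) = r (uu c) (r (uu d) v) by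
        rw [← End.mul_apply, ← End.mul_apply, ← map_mul, ← map_mul, ← uu_add, ← uu_add, add_comm]]
    · have := congrArg (fun g => r g v) (tt_uu b c)
      simp only [map_mul, End.mul_apply, h2 v hv.2] at this
      simp [this, h2 v hv.2]
  have h6 : A ⊓ fs (r (tt a)) ⊓ LinearMap.ker (LinearMap.pi fun c : F => r (uu c) - 1) ≤ A ⊓ fx r :=
    fun v hv => ⟨hv.1.1, by
      have k3 := fixz h1 (fun c => sub_eq_zero.1 (congrFun hv.2 c)) (h2 v hv.1.2)
      have k4 := (inv_cp hF h1 ι hA).st (fun m k => by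
        have : m ≠ 40 := fun e => k (e ▸ h)
        have := m.2
        have : (m : ℕ) ≠ 40 := fun e => by simp_all [Fin.ext_iff]
        omega) (∑ s, r (uu s * ww F) v) (sum_mem fun s _ => hA _ v hv.1.1) (by
        have e : ∀ s, r (uu s) (r (ww F) (∑ s, r (uu s * ww F) v)) =
            (v + ∑ s, r (uu s * ww F) v) - r (uu s * ww F) v := fun s => by
          rw [← k3 (uu s * ww F), map_add, add_sub_cancel_left, map_mul]; rfl
        rw [sum_congr rfl fun s _ => e s, sum_sub_distrib, sum_const, card_univ, hF,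
          ← Nat.cast_smul_eq_nsmul K, (CharP.cast_eq_zero_iff K 3 81).2 (by norm_num), zero_smul, zero_sub])
      rw [k4, add_zero] at k3
      exact (Submodule.mem_iInf _).2 fun g => mem_fs.2 (k3 g)⟩
  have h7 := Submodule.finrank_mono h5
  have h8 := Submodule.finrank_mono h6
  omega

theorem fx_ne (ι : F →+* K) (h : Fm r b) (h40 : np ι r ⊤ 40 = 0) (h0 : np ι r ⊤ 0 ≠ 0)
    (h4 : n4 (np ι r ⊤) ≤ np ι r ⊤ 0) : fx r ≠ ⊥ := fun e => by
  have k1 : ∀ A, Inv r A → np ι r A 0 ≤ n4 (np ι r A) := fun A hA => by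
    have := press hF h1 ι hA (Nat.le_zero.1 ((np_mono hF h1 ι hA (Ey.K.inv_top r) le_top 40).trans h40.le))
    rwa [e, inf_bot_eq, finrank_bot, zero_add] at this
  obtain ⟨A, ⟨a1, a2⟩, mn⟩ := exists_minimalFor_of_wellFoundedLT
    (fun A => Inv r A ∧ n4 (np ι r A) = n4 (np ι r ⊤)) (fun A => finrank K A) ⟨⊤, Ey.K.inv_top r, rfl⟩
  have k2 := k1 ⊤ (Ey.K.inv_top r)
  obtain ⟨C, c⟩ := exists_cov' a1 (by
    rintro rfl
    rw [np_bot hF h1] at a2
    simp only [n4, Pi.zero_apply] at a2 k2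
    omega)
  obtain ⟨m, hm⟩ := cov_np hF h1 ι c
  have k3 := np_perp hF h1 ι h a1
  have k4 := k1 _ (h.inv_perp a1)
  have k5 := k1 C c.a
  have k6 : n4 (np ι r C) ≠ n4 (np ι r ⊤) := fun k =>
    (Submodule.finrank_lt_finrank_of_lt c.lt).not_ge (mn ⟨c.a, k⟩ (Submodule.finrank_mono c.lt.le))
  have k7 := congrFun k3 0
  have k8 := congrArg n4 k3
  have k9 := congrFun hm 0
  have k10 := congrArg n4 hm
  have k11 := n4_single m
  simp only [n4, Pi.add_apply] at *
  omega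

end U2

end CF.Ez
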