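import Cfsg.Agent.Ez.K3
import Cfsg.Agent.Ez.SC
import Cfsg.Agent.Ez.IV
import Cfsg.Agent.Ez.G

/-! `L₂(81)` is not the generalized Fitting subgroup of a maximal subgroup. -/

set_option autoImplicit false

namespace CF.Ez

open Module Matrix CF.E83 CF.Ey Finset Cfsg

variable {F K V : Type*} [Field F] [Fintype F] [Field K] [IsAlgClosed K] [CharP K 3]
  [AddCommGroup V] [Module K V] [FiniteDimensional K V]
  {X : Type*} [Group X] {R : X →* End K V} {j : SL F →* X} {H : Subgroup X}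
  {br : V →ₗ[K] V →ₗ[K] V} {b : V →ₗ[K] V →ₗ[K] K} {σ : V →+ V}

namespace Z

theorem t38 : [0, 1, 2, 4, 7].map (fun i => ws (tb 3) (cf 41 · i)) = [8, 6, 6, 6, 6] ∧
    [0, 1, 2, 4, 7].map (fun i => ws (tb 8) (cf 41 · i)) = [16, 9, 6, 6, 2] := by decide +kernel

theorem t0 : ∀ c ∈ [1, 4, 5, 7], ws (tb c) (cf 40 · 0) < 248 := by decide +kernel

theorem t7 : ws (tb 7) (cf 40 · 0) = 16 ∧ ws (tb 7) (cf 20 · 0) = 16 ∧ ws (tb 7) (cf 2 · 0) = 120 := by
  decide +kernel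

omit [Fintype F] in
theorem m1 {u : Fˣ} (h : orderOf u = 2) : u = -1 := Units.ext ((_root_.sq_eq_one_iff.1 (by
  rw [← Units.val_pow_eq_pow_val, ← h, pow_orderOf_eq_one]; rfl)).resolve_left fun k => by
    rw [Units.val_eq_one.1 k, orderOf_one] at h; omega)

omit [Fintype F] in
theorem ttm : tt (-1 : Fˣ) = -1 := Subtype.ext (by
  ext i k
  fin_cases i <;> fin_cases k <;> simp [tt])

omit [Fintype F] in
theorem ww_sq : ww F * ww F = -1 := Subtype.ext (by
  rw [S.mul]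
  ext i k
  fin_cases i <;> fin_cases k <;> simp [ww])

omit [Fintype F] in
theorem tt_inv (a : Fˣ) : tt a⁻¹ = (tt a)⁻¹ := eq_inv_of_mul_eq_one_left (by
  rw [← tt_mul, inv_mul_cancel]; exact Subtype.ext (by simp [tt, one_fin_two]))

end Z

open Z

theorem no81 [Finite X] (hF : Fintype.card F = 81) (D : Dt R br b σ) (J : Jm H j) (hH : IsCoatom H) :
    False := by
  obtain ⟨ι⟩ := exists_ι (F := F) K (k := 4) hF
  obtain ⟨a, ha⟩ := exists_80 hF
  have h1 : R.comp j (-1) = 1 := by rw [MonoidHom.comp_apply, J.neg, map_one]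
  have C := inv_cp hF h1 ι (A := ⊤) fun _ _ _ => trivial
  have fm : Fm (R.comp j) b := ⟨D.fm.symm, D.fm.nd, fun g => D.fm.inv _⟩
  have ev := ev_tt (ι := ι) a
  have ol : orderOf (Units.map (ι : F →* K) a) = 80 := (orderOf_injective _ (Units.map_injective ι.injective) a).trans ha
  set l := Units.map (ι : F →* K) a with hl
  have oy : orderOf (tt a) = 80 := ev.ord.trans ol
  have o2 : orderOf (l ^ 2) = 40 := by rw [orderOf_pow' _ (by decide), ol]; rfl
  have p40 : tt a ^ 40 = -1 := by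
    have e : ∀ k : ℕ, tt a ^ k = tt (a ^ k) := fun k => by
      induction k with
      | zero => rw [pow_zero]; exact Subtype.ext (by simp [tt, one_fin_two])
      | succ k ih => rw [pow_succ, pow_succ, tt_mul, ih]
    rw [e, ← ttm]
    exact congrArg _ (m1 (by rw [orderOf_pow' _ (by decide), ha]; rfl))
  have y40 : j (tt a) ^ 40 = 1 := by rw [← map_pow, p40, J.neg]
  have y1 : j (tt a) ≠ 1 := fun e => by
    have : tt a ^ 2 = 1 := by rcases J.ker _ e with k | k <;> rw [k] <;> simp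
    exact pow_ne_one_of_lt_orderOf (by decide) (by omega) this
  have nn : j (ww F) * j (tt a) * (j (ww F))⁻¹ = (j (tt a))⁻¹ := by
    rw [mul_inv_eq_iff_eq_mul, ← map_inv, ← map_mul, ← map_mul, ← tt_inv, tt_ww, inv_inv]
  have fin : ∀ W : Submodule K V, W ≠ ⊥ → W ≠ ⊤ → (∀ h ∈ H, ∀ v ∈ W, R h v ∈ W) → ∀ t, (∀ v ∈ W, R t v ∈ W) →
      t ∈ H := fun W w0 w1 w2 t ht =>
    ((hH.le_iff.1 (show H ≤ stb R W from w2)).resolve_left fun k =>
      (D.irr W fun g => (k.ge trivial : g ∈ stb R W)).elim w0 w1).le ht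
  have cy := J.cy hF ha
  have iv : ∀ t, Iv R (j (tt a)) t → t ∉ H := fun t h k => (cy.1 t k h.cm h.sq).elim h.ne1 h.ne
  have dy : ∀ k : ℕ, dm R (j (tt a) ^ k) = ws (np ι (R.comp j) ⊤) (cf (orderOf ((l ^ k) ^ 2)) · 0) := fun k => by
    rw [← ws_cw, ← C.ch _ _ 0 (ev.pow k), pow_zero, Units.val_one, ed_one, top_inf_eq, ← map_pow]; rfl
  have fxy : ∀ g, fx (R.comp j) ≤ fs (R (j g)) := fun g => iInf_le (fun g => fs (R.comp j g)) g
  have fxH : ∀ c ∈ [1, 4, 5, 7], np ι (R.comp j) ⊤ = tb c → fx (R.comp j) ≠ ⊥ → ∀ t,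
      (∀ v ∈ fx (R.comp j), R t v = v) → t ∈ H := fun c hc e w0 t ht => by
    refine fin _ w0 (fun k => ?_) (fun h hh v hv => (Submodule.mem_iInf _).2 fun g => mem_fs.2 ?_) t
      fun v hv => (ht v hv).symm ▸ hv
    · have := dy 1
      rw [pow_one, pow_one, o2, e, dm, top_le_iff.1 (k.ge.trans (fxy _)), finrank_top, D.dim] at this
      exact (t0 c hc).ne' this
    · obtain ⟨g', e⟩ : ∃ g', j g' = h⁻¹ * j g * h := by
        simpa using (Subgroup.mem_normalizer_iff.1 (inv_mem (J.nor hh)) (j g)).1 ⟨g, rfl⟩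
      conv_rhs => rw [← mem_fs.1 (fxy g' hv), e]
      simp [← End.mul_apply, ← map_mul, mul_assoc]
  have lv : ((l ^ 2 : Kˣ) : K) = ι a ^ 2 := rfl
  have x41 : ∃ x : X, ∃ m : Kˣ, x ^ 41 = 1 ∧ orderOf m = 41 ∧
      ∀ i, ed R ⊤ x ((m ^ i : Kˣ) : K) = ws (np ι (R.comp j) ⊤) (cf 41 · i) := by
    obtain ⟨g, m, e, o⟩ := exists_ev (F := F) ι (N := 41) (by rw [hF]; decide) (by decide)
    have o' : orderOf (m ^ 2) = 41 := by rw [orderOf_pow' _ (by decide), o]; rfl
    exact ⟨j g, m ^ 2, by rw [← map_pow, ← o, ← e.ord, pow_orderOf_eq_one, map_one], o', fun i => by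
      have := C.ch g m i e
      rwa [o', ws_cw] at this⟩
  rcases D.t40 (j (tt a)) (l ^ 2) (np ι (R.comp j) ⊤) y40 y1 o2
    (np_fr hF h1 ι ⟨D.fr.smul, D.fr.bij, fun g => D.fr.comm _⟩) (fun i => by have := C.ch _ _ i ev; rwa [o2] at this) with
    e | e | ⟨e, t, ht⟩ | ⟨e, c7⟩ | ⟨e, rg⟩
  · obtain ⟨x, m, x1, x2, x3⟩ := x41
    exact D.t41 x m x1 x2 (by simp only [x3, e, t38.1]; decide)
  · obtain ⟨x, m, x1, x2, x3⟩ := x41
    exact D.t41 x m x1 x2 (by simp only [x3, e, t38.2]; decide)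
  · have k : ∀ v ∈ fx (R.comp j), R t v = v := fun v hv => ht.fix v (fxy _ hv)
    rcases e with e | e | e
    · exact iv t ht (fxH 1 (by decide) e (fx_ne1 hF h1 fm (e ▸ C)) t k)
    · exact iv t ht (fxH 4 (by decide) e (fx_ne hF h1 ι fm (by rw [e]; rfl) (by rw [e]; decide)
        (by rw [e]; decide)) t k)
    · exact iv t ht (fxH 5 (by decide) e (fx_ne hF h1 ι fm (by rw [e]; rfl) (by rw [e]; decide)
        (by rw [e]; decide)) t k)
  · have w0 := fx_ne hF h1 ι fm (by rw [e]; rfl) (by rw [e]; decide) (by rw [e]; decide)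
    have d1 := dy 1
    have d2 := dy 2
    rw [pow_one, pow_one, o2, e, t7.1] at d1
    rw [show orderOf ((l ^ 2) ^ 2) = 20 by rw [orderOf_pow' _ (by decide), o2]; rfl, e, t7.2.1] at d2
    have l4 : orderOf (l ^ 20) = 4 := by rw [orderOf_pow' _ (by decide), ol]; rfl
    have l2 : orderOf ((l ^ 20) ^ 2) = 2 := by rw [orderOf_pow' _ (by decide), l4]; rfl
    have h2 : (2 : K) ≠ 0 := fun h => one_ne_zero (α := K) (by
      linear_combination (CharP.cast_eq_zero K 3 : (3 : K) = 0) - h)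
    have lm : ((l ^ 20 : Kˣ) : K) ^ 2 = -1 := by rw [← Units.val_pow_eq_pow_val, m1 l2]; rfl
    have ew : Ev ι (ww F) (l ^ 20) := S.ev_of (by
      rw [show (ww F).1 0 0 + (ww F).1 1 1 = 0 from add_zero _, map_zero]
      field_simp
      linear_combination -lm) (by
      rw [lm]
      exact fun h => h2 (by linear_combination -h))
    have dn : dm R (j (ww F)) = 120 := by
      have := C.ch _ _ 0 ew
      rwa [l2, ws_cw, e, t7.2.2, pow_zero, Units.val_one, ed_one, top_inf_eq] at this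
    have n2 : j (ww F) * j (ww F) = 1 := by rw [← map_mul, ww_sq, J.neg]
    have b1 := dm_two (r := R) h2 n2
    have b2 := bt_inv (R := R) (N := 40) (by
      rw [Ne, CharP.cast_eq_zero_iff K 3]; decide) y40 (by rw [← map_mul, n2, map_one]) nn
    have fe : fs (R (j (tt a))) = fs (R (j (tt a) ^ 2)) := Submodule.eq_of_le_of_finrank_eq (fun v hv => by
      rw [mem_fs] at hv ⊢; rw [sq, map_mul, End.mul_apply, hv, hv]) (d1.trans d2.symm)
    rw [← fe, d2] at b2
    rw [dn, D.dim] at b1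
    refine (c7 _ nn (by omega)).not_ge (le_trans ?_ cy.2)
    exact Nat.card_le_card_of_injective (fun g => ⟨g.1, fxH 7 (by decide) e w0 _ fun v hv =>
      g.2.2 v ⟨fxy _ hv, fxy _ hv⟩, g.2.1⟩) fun g g' k => Subtype.ext (Subtype.mk.inj k)
  · obtain ⟨⟨t, rt⟩, nz⟩ := rg _ nn
    obtain ⟨W, w0, w1, w2, w3⟩ := reg hF J ha D.fm D.bk D.fr (lv ▸ rt)
      (e.symm.imp id fun k => ⟨k, lv ▸ nz k⟩)
    exact iv t rt.iv (fin W w0 w1 w2 t w3)

end CF.Ez
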